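import Cfsg.Agent.CharLib.Central
/-!
# Frobenius kernels and Burnside's `p^a q^b` theorem
-/
set_option autoImplicit false

namespace Cfsg.Agent.Frob
open Cfsg Cfsg.Agent.CharLib
open scoped ComplexConjugate

universe u v
variable {G : Type u} [Group G]

theorem conj_degree {χ : G → ℂ} (hχ : IsCharacter G χ) : conj (χ 1) = χ 1 := by
  obtain ⟨n, hn⟩ := isChar_degree hχ
  rw [hn]; simp

theorem char_mul_of_norm [Finite G] {χ : G → ℂ} (hχ : IsIrrCharacter G χ) {x : G}
    (hx : χ x * conj (χ x) = χ 1 * χ 1) (g : G) : χ 1 * χ (x * g) = χ x * χ g := by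
  classical
  haveI := Fintype.ofFinite G
  have hc := isChar_of_irr hχ
  have hcf := isChar_classFun hc
  have hN : (Nat.card G : ℂ) ≠ 0 := card_ne_zero
  have h0 : ∑ g, χ g * conj (χ g) = Nat.card G := by
    have := inner_irr_self hχ
    unfold classInner at this
    field_simp at this
    exact this
  have h1 : ∑ g, χ (x * g) * conj (χ (x * g)) = Nat.card G := by
    rw [← h0]; exact Equiv.sum_comp (Equiv.mulLeft x) (fun g => χ g * conj (χ g))
  have h2 : χ 1 * ∑ g, χ (x * g) * conj (χ g) = Nat.card G * χ x := by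
    have := irr_convolution (classFun_conj hcf) hχ x
    rw [← h0]
    simp only [mul_comm (conj (χ _))] at this
    rw [← this]
    congr 1
    exact Finset.sum_congr rfl fun g _ => by rw [classFun_mul_comm hcf x g]
  have h3 : χ 1 * ∑ g, χ g * conj (χ (x * g)) = Nat.card G * conj (χ x) := by
    have := congrArg conj h2
    simp only [map_mul, map_sum, conj_degree hc, Complex.conj_conj, map_natCast] at this
    rw [← this]
    congr 1
    exact Finset.sum_congr rfl fun g _ => mul_comm _ _
  have key : classInner (fun g => χ 1 * χ (x * g) - χ x * χ g)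
      (fun g => χ 1 * χ (x * g) - χ x * χ g) = 0 := by
    unfold classInner
    have : ∑ g, (χ 1 * χ (x * g) - χ x * χ g) * conj (χ 1 * χ (x * g) - χ x * χ g) =
        χ 1 * χ 1 * ∑ g, χ (x * g) * conj (χ (x * g))
        - conj (χ x) * (χ 1 * ∑ g, χ (x * g) * conj (χ g))
        - χ x * (χ 1 * ∑ g, χ g * conj (χ (x * g)))
        + χ x * conj (χ x) * ∑ g, χ g * conj (χ g) := by
      simp only [Finset.mul_sum, ← Finset.sum_sub_distrib, ← Finset.sum_add_distrib]
      refine Finset.sum_congr rfl fun g _ => ?_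
      simp only [map_sub, map_mul, conj_degree hc]
      ring
    rw [this, h0, h1, h2, h3]
    have : χ 1 * χ 1 * (Nat.card G : ℂ) - conj (χ x) * (Nat.card G * χ x)
        - χ x * (Nat.card G * conj (χ x)) + χ x * conj (χ x) * Nat.card G = 0 := by
      rw [← hx]; ring
    rw [this, mul_zero]
  have := congrFun (inner_self_eq_zero key) g
  exact sub_eq_zero.1 this

/-- the kernel of an irreducible character -/
def kerSub [Finite G] {χ : G → ℂ} (hχ : IsIrrCharacter G χ) : Subgroup G where
  carrier := {g | χ g = χ 1}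
  one_mem' := rfl
  mul_mem' := by
    intro a b ha hb
    simp only [Set.mem_setOf_eq] at *
    have := char_mul_of_norm hχ (x := a) (by rw [ha, conj_degree (isChar_of_irr hχ)]) b
    rw [ha, hb] at this
    exact mul_left_cancel₀ (isIrr_one_ne_zero hχ) this
  inv_mem' := by
    intro a ha
    simp only [Set.mem_setOf_eq] at *
    rw [← isChar_conj (isChar_of_irr hχ), ha, conj_degree (isChar_of_irr hχ)]

theorem mem_kerSub [Finite G] {χ : G → ℂ} (hχ : IsIrrCharacter G χ) {g : G} :
    g ∈ kerSub hχ ↔ χ g = χ 1 := Iff.rfl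

theorem kerSub_normal [Finite G] {χ : G → ℂ} (hχ : IsIrrCharacter G χ) : (kerSub hχ).Normal :=
  ⟨fun n hn g => by
    rw [mem_kerSub] at *
    rw [isChar_classFun (isChar_of_irr hχ) n g, hn]⟩

/-- the centre of an irreducible character -/
def cenSub [Finite G] {χ : G → ℂ} (hχ : IsIrrCharacter G χ) : Subgroup G where
  carrier := {g | χ g * conj (χ g) = χ 1 * χ 1}
  one_mem' := by simp only [Set.mem_setOf_eq]; rw [conj_degree (isChar_of_irr hχ)]
  mul_mem' := by
    intro a b ha hb
    simp only [Set.mem_setOf_eq] at *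
    have h := char_mul_of_norm hχ ha b
    have h' := congrArg conj h
    simp only [map_mul, conj_degree (isChar_of_irr hχ)] at h'
    have h0 := isIrr_one_ne_zero hχ
    apply mul_left_cancel₀ (mul_ne_zero h0 h0)
    calc χ 1 * χ 1 * (χ (a * b) * conj (χ (a * b)))
        = (χ 1 * χ (a * b)) * (χ 1 * conj (χ (a * b))) := by ring
      _ = (χ a * conj (χ a)) * (χ b * conj (χ b)) := by rw [h, h']; ring
      _ = _ := by rw [ha, hb]
  inv_mem' := by
    intro a ha
    simp only [Set.mem_setOf_eq] at *
    rw [← isChar_conj (isChar_of_irr hχ), Complex.conj_conj, mul_comm, ha]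

theorem mem_cenSub [Finite G] {χ : G → ℂ} (hχ : IsIrrCharacter G χ) {g : G} :
    g ∈ cenSub hχ ↔ χ g * conj (χ g) = χ 1 * χ 1 := Iff.rfl

theorem cenSub_normal [Finite G] {χ : G → ℂ} (hχ : IsIrrCharacter G χ) : (cenSub hχ).Normal :=
  ⟨fun n hn g => by
    rw [mem_cenSub] at *
    rw [isChar_classFun (isChar_of_irr hχ) n g, hn]⟩

section kernel
variable {Y : Type v} [MulAction G Y]

theorem exists_ext [Finite G] (y0 : Y)
    (hfr : ∀ (g : G) (a b : Y), g • a = a → g • b = b → a ≠ b → g = 1)
    (H : Subgroup G) (hH : ∀ g, g ∈ H ↔ g • y0 = y0)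
    {θ : H → ℂ} (hθ : IsIrrCharacter _ θ) :
    ∃ χ : G → ℂ, IsIrrCharacter G χ ∧ (∀ h : H, χ h = θ h) ∧
      ∀ g : G, (∀ y : Y, g • y ≠ y) → χ g = χ 1 := by
  classical
  haveI := Fintype.ofFinite G
  haveI : Fintype H := Fintype.ofFinite H
  have hc := isChar_of_irr hθ
  obtain ⟨d, hd0, hd⟩ := isIrr_degree hθ
  let θ0 : H → ℂ := θ - (d : ℂ) • fun _ => 1
  have hθ0 : ∀ h, θ0 h = θ h - d := fun h => by simp [θ0]
  have hcf0 : IsClassFunction H θ0 := fun a b => by rw [hθ0, hθ0, isChar_classFun hc a b]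
  have hgd : ∀ {A : Type u} [Group A], IsGeneralizedCharacter A ((d : ℂ) • fun _ => 1) := by
    intro A _
    have := isGen_of_isChar (isChar_nsmul (isChar_one (G := A)) d)
    rwa [← Nat.cast_smul_eq_nsmul ℂ] at this
  have hg0 : IsGeneralizedCharacter H θ0 := isGen_sub (isGen_of_isChar hc) hgd
  have hres : ∀ h : H, indFun H θ0 h = θ0 h := by
    intro h
    by_cases h1 : h = 1
    · subst h1
      rw [Subgroup.coe_one, indFun_one, hθ0, hd]; simp
    · unfold indFun
      have : ∀ x : G, extendByZero H θ0 (x⁻¹ * h * x) = if x ∈ H then θ0 h else 0 := by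
        intro x
        split_ifs with hx
        · have hm : x⁻¹ * h * x ∈ H := H.mul_mem (H.mul_mem (H.inv_mem hx) h.2) hx
          rw [extendByZero_of_mem H θ0 hm, ← hcf0 h ⟨x, hx⟩⁻¹]
          congr 1
          ext; simp
        · apply extendByZero_of_not_mem
          intro hm
          apply h1
          have e1 : (h : G) • (x • y0) = x • y0 := by
            have : (x⁻¹ * h * x) • y0 = y0 := (hH _).1 hm
            rw [mul_smul, mul_smul, inv_smul_eq_iff] at this
            exact this
          have := hfr h y0 (x • y0) ((hH _).1 h.2) e1 (fun e => hx ((hH _).2 e.symm))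
          exact Subtype.ext this
      simp only [this]
      rw [← Finset.sum_filter, Finset.sum_const, nsmul_eq_mul]
      have : ((Finset.univ.filter fun x => x ∈ H).card : ℂ) = Nat.card H := by
        rw [Nat.card_eq_fintype_card, Fintype.card_subtype]
      rw [this, ← mul_assoc, inv_mul_cancel₀ card_ne_zero, one_mul]
  have hK : ∀ g : G, (∀ y : Y, g • y ≠ y) → indFun H θ0 g = 0 := by
    intro g hg
    unfold indFun
    rw [Finset.sum_eq_zero, mul_zero]
    intro x _
    apply extendByZero_of_not_mem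
    intro hm
    have : (x⁻¹ * g * x) • y0 = y0 := (hH _).1 hm
    rw [mul_smul, mul_smul, inv_smul_eq_iff] at this
    exact hg _ this
  let χ : G → ℂ := indFun H θ0 + (d : ℂ) • fun _ => 1
  have hχ : ∀ g, χ g = indFun H θ0 g + d := fun g => by simp [χ]
  have hχH : ∀ h : H, χ h = θ h := fun h => by rw [hχ, hres, hθ0]; ring
  have hχ1 : χ 1 = d := by
    have := hχH 1
    rw [Subgroup.coe_one] at this
    rw [this, hd]
  have hgχ : IsGeneralizedCharacter G χ := isGen_add (isGen_indFun H hg0) hgd
  refine ⟨χ, isIrr_of_norm_one hgχ ?_ (by rw [hχ1]; simp), hχH, fun g hg => by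
    rw [hχ1, hχ, hK g hg, zero_add]⟩
  have e1 : classInner (indFun H θ0) χ = classInner θ0 θ := by
    rw [inner_indFun_left H θ0 (isGen_classFun hgχ)]
    congr 1
    exact funext hχH
  have e2 : classInner (fun _ : G => (1 : ℂ)) (indFun H θ0) =
      classInner (fun _ : H => (1 : ℂ)) θ0 :=
    inner_indFun_right H θ0 (f := fun _ => 1) (fun _ _ => rfl)
  have e3 : classInner (fun _ : G => (1 : ℂ)) (fun _ => 1) = 1 := inner_irr_self isIrr_one
  have e4 : classInner (fun _ : H => (1 : ℂ)) (fun _ => 1) = 1 := inner_irr_self isIrr_one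
  have e5 : classInner χ χ = classInner (indFun H θ0) χ +
      d * (classInner (fun _ : G => (1 : ℂ)) (indFun H θ0) +
        d * classInner (fun _ : G => (1 : ℂ)) (fun _ => 1)) := by
    conv_lhs => rw [show classInner χ χ =
      classInner (indFun H θ0 + (d : ℂ) • fun _ => 1) χ from rfl]
    rw [CharLib.inner_add_left, CharLib.inner_smul_left]
    congr 2
    conv_lhs => rw [show χ = (indFun H θ0 + (d : ℂ) • fun _ => 1) from rfl]
    rw [CharLib.inner_add_right, CharLib.inner_smul_right]; simp
  rw [e5, e1, e2, e3]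
  simp only [θ0, CharLib.inner_sub_left, CharLib.inner_sub_right, CharLib.inner_smul_left, CharLib.inner_smul_right, e4,
    inner_irr_self hθ, map_natCast]
  ring

/-- Frobenius' theorem: the identity and the elements without fixed points form a normal
subgroup whose order is the degree. -/
theorem frob_kernel [Finite G] [Finite Y] [MulAction.IsPretransitive G Y] (y0 : Y)
    (hfr : ∀ (g : G) (a b : Y), g • a = a → g • b = b → a ≠ b → g = 1) :
    ∃ K : Subgroup G, (∀ g, g ∈ K ↔ g = 1 ∨ ∀ y : Y, g • y ≠ y) ∧ Nat.card K = Nat.card Y := by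
  classical
  choose χ hχ hχH hχK using fun θ : IrrCharacter (MulAction.stabilizer G y0) =>
    exists_ext y0 hfr _ (fun _ => Iff.rfl) θ.2
  let K : Subgroup G := ⨅ θ, kerSub (hχ θ)
  have hK : ∀ g, g ∈ K ↔ g = 1 ∨ ∀ y : Y, g • y ≠ y := by
    intro g
    simp only [K, Subgroup.mem_iInf, mem_kerSub]
    constructor
    · intro hg
      by_contra hc
      push Not at hc
      obtain ⟨h1, y, hy⟩ := hc
      obtain ⟨x, rfl⟩ := MulAction.exists_smul_eq G y0 y
      have hm : x⁻¹ * g * x ∈ MulAction.stabilizer G y0 := by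
        change (x⁻¹ * g * x) • y0 = y0
        rw [mul_smul, mul_smul, hy, inv_smul_smul]
      have : IsConj (⟨_, hm⟩ : MulAction.stabilizer G y0) 1 := by
        apply isConj_of_forall_irr
        intro θ hθ
        have a1 := hχH ⟨θ, hθ⟩ ⟨_, hm⟩
        have a2 := hχH ⟨θ, hθ⟩ 1
        have a3 := isChar_classFun (isChar_of_irr (hχ ⟨θ, hθ⟩)) g x⁻¹
        simp only [inv_inv] at a3
        simp only [Subgroup.coe_one] at a1 a2
        rw [← a1, ← a2, a3, hg]
      rw [isConj_one_left] at this
      have h2 : x⁻¹ * g * x = 1 := congrArg Subtype.val this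
      apply h1
      calc g = x * (x⁻¹ * g * x) * x⁻¹ := by group
        _ = 1 := by rw [h2]; group
    · rintro (rfl | hg) θ
      · rfl
      · exact hχK θ g hg
  refine ⟨K, hK, ?_⟩
  haveI := Fintype.ofFinite G
  haveI := Fintype.ofFinite Y
  haveI : Fintype (MulAction.orbitRel.Quotient G Y) := Fintype.ofFinite _
  have hB := MulAction.sum_card_fixedBy_eq_card_orbits_mul_card_group G Y
  have h1 : Fintype.card (MulAction.orbitRel.Quotient G Y) = 1 := by
    rw [Fintype.card_eq_one_iff]
    refine ⟨Quotient.mk _ y0, fun q => ?_⟩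
    induction q using Quotient.inductionOn with
    | h y => exact Quotient.sound (MulAction.exists_smul_eq G y0 y)
  have h2 : ∀ g : G, Fintype.card (MulAction.fixedBy Y g) + (if g ∈ K then 1 else 0) =
      1 + if g = 1 then Fintype.card Y else 0 := by
    intro g
    by_cases g1 : g = 1
    · subst g1
      rw [if_pos K.one_mem, if_pos rfl, add_comm]
      congr 1
      exact Fintype.card_congr (Equiv.subtypeUnivEquiv fun y => one_smul G y)
    · rw [if_neg g1]
      by_cases gK : g ∈ K
      · rw [if_pos gK]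
        have : Fintype.card (MulAction.fixedBy Y g) = 0 := by
          rw [Fintype.card_eq_zero_iff]
          exact ⟨fun y => ((hK g).1 gK).resolve_left g1 y.1 y.2⟩
        rw [this]
      · rw [if_neg gK]
        have hc := (hK g).not.1 gK
        push Not at hc
        obtain ⟨y, hy⟩ := hc.2
        rw [add_zero, add_zero, Fintype.card_eq_one_iff]
        refine ⟨⟨y, hy⟩, fun z => Subtype.ext ?_⟩
        by_contra hne
        exact g1 (hfr g z y z.2 hy hne)
  have h3 := Finset.sum_congr rfl fun g (_ : g ∈ Finset.univ) => h2 g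
  rw [Finset.sum_add_distrib, Finset.sum_add_distrib, hB, h1] at h3
  simp only [Finset.sum_const, Finset.card_univ, smul_eq_mul, mul_one, one_mul,
    Finset.sum_ite_eq', Finset.mem_univ, if_true, Finset.sum_boole, Nat.cast_id] at h3
  rw [Nat.card_eq_fintype_card, Nat.card_eq_fintype_card, Fintype.card_subtype]
  omega

end kernel

section burnside

theorem int_of_rat {x : ℚ} (h : IsIntegral ℤ (x : ℂ)) : ∃ z : ℤ, (z : ℚ) = x := by
  have : IsIntegral ℤ x := (isIntegral_algebraMap_iff (algebraMap ℚ ℂ).injective).1 h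
  exact IsIntegrallyClosed.isIntegral_iff.1 this

theorem isChar_pow {χ : G → ℂ} (hχ : IsCharacter G χ) (n : ℕ) : IsCharacter G (χ ^ n) := by
  induction n with
  | zero => rw [pow_zero]; exact isChar_one
  | succ n ih => rw [pow_succ]; exact isChar_mul ih hχ

theorem vanish [Finite G] {χ : G → ℂ} (hχ : IsIrrCharacter G χ) (Z : Subgroup G)
    (hZ : ∀ y ∈ Z, IsIntegral ℤ (χ y / χ 1)) {x : G} (hx : x ∈ Z) :
    χ x = 0 ∨ χ x * conj (χ x) = χ 1 * χ 1 := by
  classical
  haveI := Fintype.ofFinite Z
  have hc := isChar_of_irr hχ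
  obtain ⟨d, hd0, hd⟩ := isIrr_degree hχ
  have hdR : (0 : ℝ) < d := by exact_mod_cast hd0
  have hdC : (d : ℂ) ≠ 0 := by exact_mod_cast hd0.ne'
  let r : G → ℝ := fun y => Complex.normSq (χ y) / (d * d)
  have hr : ∀ y, (r y : ℂ) = χ y * conj (χ y) / (d * d) := fun y => by
    simp only [r, Complex.mul_conj]; push_cast; rfl
  have hr0 : ∀ y, 0 ≤ r y := fun y => div_nonneg (Complex.normSq_nonneg _) (by positivity)
  have hr1 : ∀ y, r y ≤ 1 := fun y => by
    have := isChar_norm_le hc y
    rw [hd, Complex.natCast_re] at this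
    simp only [r]
    rw [div_le_one (by positivity), Complex.normSq_eq_norm_sq, sq]
    exact mul_le_mul this this (norm_nonneg _) hdR.le
  have hint : ∀ N : ℕ, ∃ z : ℤ, (z : ℝ) = ∑ y : Z, r y ^ N := by
    intro N
    have h1 : IsCharacter Z (fun y => ((χ * fun g => conj (χ g)) ^ N) (Z.subtype y)) :=
      isChar_comp Z.subtype (isChar_pow (isChar_mul hc (isChar_star hc)) N)
    obtain ⟨n, hn⟩ := inner_char_nat h1 isChar_one
    unfold classInner at hn
    simp only [Pi.pow_apply, Pi.mul_apply, map_one, mul_one, Subgroup.coe_subtype] at hn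
    have hZ0 : (Nat.card Z : ℂ) ≠ 0 := card_ne_zero
    have h2 : ((∑ y : Z, r y ^ N : ℝ) : ℂ) = ((Nat.card Z * n / (d * d) ^ N : ℚ) : ℂ) := by
      push_cast
      simp only [hr, div_pow]
      rw [← Finset.sum_div, ← hn, ← mul_assoc, mul_inv_cancel₀ hZ0, one_mul]
    have h3 : IsIntegral ℤ ((∑ y : Z, r y ^ N : ℝ) : ℂ) := by
      push_cast
      refine IsIntegral.sum _ fun y _ => IsIntegral.pow ?_ _
      have a1 := hZ y y.2
      have a2 := hZ y⁻¹ (Z.inv_mem y.2)
      have := a1.mul a2
      rw [← isChar_conj hc, hd] at this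
      rw [hr]
      convert this using 1
      field_simp
    rw [h2] at h3
    obtain ⟨z, hz⟩ := int_of_rat h3
    refine ⟨z, ?_⟩
    apply Complex.ofReal_injective
    rw [h2, ← hz]; simp
  choose S hS using hint
  by_contra hcon
  push Not at hcon
  have hx0 : 0 < r x := div_pos (Complex.normSq_pos.2 hcon.1) (by positivity)
  have hx1 : r x < 1 := lt_of_le_of_ne (hr1 x) fun e => hcon.2 (by
    have := hr x
    rw [e, eq_div_iff (mul_ne_zero hdC hdC)] at this
    rw [hd, ← this]; simp)
  have hdec : ∀ N, S (N + 1) < S N := by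
    intro N
    have : (S (N + 1) : ℝ) < S N := by
      rw [hS, hS]
      apply Finset.sum_lt_sum
      · intro y _
        exact pow_le_pow_of_le_one (hr0 _) (hr1 _) (Nat.le_succ N)
      · exact ⟨⟨x, hx⟩, Finset.mem_univ _, pow_lt_pow_right_of_lt_one₀ hx0 hx1 (Nat.lt_succ_self N)⟩
    exact_mod_cast this
  have hle : ∀ N : ℕ, S N + N ≤ S 0 := by
    intro N
    induction N with
    | zero => simp
    | succ N ih => have := hdec N; push_cast; omega
  have hnn : ∀ N, 0 ≤ S N := fun N => by
    have : (0 : ℝ) ≤ S N := by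
      rw [hS]; exact Finset.sum_nonneg fun y _ => pow_nonneg (hr0 _) _
    exact_mod_cast this
  have h1 := hle ((S 0).toNat + 1)
  have h2 := hnn ((S 0).toNat + 1)
  have h3 := hnn 0
  push_cast at h1
  omega

theorem isIntegral_div [Finite G] {χ : G → ℂ} (hχ : IsIrrCharacter G χ) {d : ℕ} (hd : χ 1 = d)
    {y : G} (h : Nat.Coprime (Subgroup.centralizer ({y} : Set G)).index d) :
    IsIntegral ℤ (χ y / χ 1) := by
  have h1 := isIntegral_centralChar hχ y
  have h2 := isChar_isIntegral (isChar_of_irr hχ) y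
  obtain ⟨u, v, huv⟩ := Nat.isCoprime_iff_coprime.2 h
  have h0 := isIrr_one_ne_zero hχ
  have e : χ y / χ 1 = (u : ℂ) * centralChar χ y + (v : ℂ) * χ y := by
    have : (u : ℂ) * (Subgroup.centralizer ({y} : Set G)).index + v * d = 1 := by
      exact_mod_cast huv
    unfold centralChar
    rw [← hd] at this
    field_simp
    linear_combination (-χ y) * this
  rw [e]
  exact (isIntegral_algebraMap (x := u)).mul h1 |>.add ((isIntegral_algebraMap (x := v)).mul h2)

/-- a simple group with a nontrivial subgroup all of whose classes have `q`-power size is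
abelian -/
theorem comm_of_simple [Finite G] [IsSimpleGroup G] {q b : ℕ} (hq : q.Prime) (Z : Subgroup G)
    {x : G} (hx : x ∈ Z) (hx1 : x ≠ 1)
    (hZ : ∀ y ∈ Z, (Subgroup.centralizer ({y} : Set G)).index ∣ q ^ b) (a c : G) :
    a * c = c * a := by
  classical
  haveI := Fintype.ofFinite G
  have hex : ∃ χ : G → ℂ, IsIrrCharacter G χ ∧ χ ≠ (fun _ => 1) ∧
      χ x * conj (χ x) = χ 1 * χ 1 := by
    by_contra hcon
    push Not at hcon
    have hs := sum_degree_mul x
    rw [regChar_of_ne hx1] at hs
    let t : IrrCharacter G := ⟨fun _ => 1, isIrr_one⟩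
    rw [← Finset.add_sum_erase _ _ (Finset.mem_univ t)] at hs
    have hq0 : (q : ℂ) ≠ 0 := by exact_mod_cast hq.ne_zero
    have hi : IsIntegral ℤ (∑ χ ∈ Finset.univ.erase t, (χ : G → ℂ) 1 * (χ : G → ℂ) x / q) := by
      refine IsIntegral.sum _ fun χ hχ => ?_
      obtain ⟨d, hd0, hd⟩ := isIrr_degree χ.2
      by_cases hqd : q ∣ d
      · obtain ⟨e, rfl⟩ := hqd
        have : (χ : G → ℂ) 1 * (χ : G → ℂ) x / q = ((e : ℤ) : ℂ) * (χ : G → ℂ) x := by
          rw [hd]; push_cast; field_simp
        rw [this]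
        exact (isIntegral_algebraMap (x := (e : ℤ))).mul (isChar_isIntegral (isChar_of_irr χ.2) x)
      · have hne : (χ : G → ℂ) ≠ fun _ => 1 := fun e => (Finset.mem_erase.1 hχ).1 (Subtype.ext e)
        rcases vanish χ.2 Z (fun y hy => isIntegral_div χ.2 hd
          (Nat.Coprime.coprime_dvd_left (hZ y hy)
            (Nat.Coprime.pow_left _ ((Nat.Prime.coprime_iff_not_dvd hq).2 hqd)))) hx with h | h
        · rw [h]; simpa using isIntegral_zero
        · exact absurd h (hcon _ χ.2 hne)
    have e : ∑ χ ∈ Finset.univ.erase t, (χ : G → ℂ) 1 * (χ : G → ℂ) x / q =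
        ((-1 / q : ℚ) : ℂ) := by
      rw [← Finset.sum_div]
      push_cast
      congr 1
      simp only [t, mul_one] at hs
      linear_combination hs
    rw [e] at hi
    obtain ⟨z, hz⟩ := int_of_rat hi
    have hq1 : (q : ℚ) ≠ 0 := by exact_mod_cast hq.ne_zero
    rw [eq_div_iff hq1] at hz
    have : z * q = -1 := by exact_mod_cast hz
    have h2 : (q : ℤ) ∣ 1 := ⟨-z, by linear_combination this⟩
    have : q ∣ 1 := by exact_mod_cast h2
    exact hq.one_lt.ne' (Nat.dvd_one.1 this)
  obtain ⟨χ, hχ, hne, hxχ⟩ := hex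
  have htop : cenSub hχ = ⊤ := by
    rcases (cenSub_normal hχ).eq_bot_or_eq_top with h | h
    · exact absurd (Subgroup.mem_bot.1 (h ▸ (mem_cenSub hχ).2 hxχ)) hx1
    · exact h
  have hall : ∀ g, χ g * conj (χ g) = χ 1 * χ 1 := fun g =>
    (mem_cenSub hχ).1 (htop ▸ Subgroup.mem_top g)
  have hker : kerSub hχ = ⊥ := by
    rcases (kerSub_normal hχ).eq_bot_or_eq_top with h | h
    · exact h
    · exfalso
      have hg : ∀ g, χ g = χ 1 := fun g => (mem_kerSub hχ).1 (h ▸ Subgroup.mem_top g)
      apply hne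
      apply eq_of_inner_ne_zero hχ isIrr_one
      unfold classInner
      simp only [map_one, mul_one]
      rw [Finset.sum_congr rfl fun g _ => hg g]
      simp only [Finset.sum_const, Finset.card_univ, nsmul_eq_mul]
      exact mul_ne_zero (inv_ne_zero card_ne_zero)
        (mul_ne_zero (by exact_mod_cast Fintype.card_ne_zero) (isIrr_one_ne_zero hχ))
  have h0 := isIrr_one_ne_zero hχ
  have hm : a * c * (c * a)⁻¹ ∈ kerSub hχ := by
    rw [mem_kerSub]
    have e1 := char_mul_of_norm hχ (hall (a * c)) (c * a)⁻¹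
    rw [classFun_mul_comm (isChar_classFun (isChar_of_irr hχ)) a c,
      ← isChar_conj (isChar_of_irr hχ), hall] at e1
    exact mul_left_cancel₀ h0 e1
  rw [hker, Subgroup.mem_bot, mul_inv_eq_one] at hm
  exact hm

/-- Burnside's `p^a q^b` theorem -/
theorem burnside {p q : ℕ} (hp : p.Prime) (hq : q.Prime) (a b : ℕ) (n : ℕ) :
    ∀ (G : Type u) [Group G] [Finite G], Nat.card G = n → Nat.card G ∣ p ^ a * q ^ b →
      Group.IsSolvable G := by
  induction n using Nat.strong_induction_on with
  | _ n ih =>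
  intro G _ _ hn hd
  rcases subsingleton_or_nontrivial G with h | h
  · infer_instance
  by_cases hs : IsSimpleGroup G
  · haveI := Fact.mk hp
    haveI := Fact.mk hq
    by_cases hpG : p ∣ Nat.card G
    · obtain ⟨P⟩ := (inferInstance : Nonempty (Sylow p G))
      have hP : (P : Subgroup G) ≠ ⊥ := P.ne_bot_of_dvd_card hpG
      haveI : Nontrivial P := (Subgroup.nontrivial_iff_ne_bot _).2 hP
      haveI := P.isPGroup'.center_nontrivial
      obtain ⟨⟨x, hx⟩, hx1⟩ := exists_ne (1 : Subgroup.center P)
      have hidx : (P : Subgroup G).index ∣ q ^ b := by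
        apply Nat.Coprime.dvd_of_dvd_mul_left _ ((Subgroup.index_dvd_card _).trans hd)
        exact Nat.Coprime.pow_right _ ((Nat.Prime.coprime_iff_not_dvd hp).2 P.not_dvd_index).symm
      apply Group.isSolvable_of_comm
      refine comm_of_simple (b := b) hq (Subgroup.zpowers (x : G)) (Subgroup.mem_zpowers _)
        (fun e => hx1 (Subtype.ext (Subtype.ext e))) fun y hy => ?_
      refine (Subgroup.index_dvd_of_le ?_).trans hidx
      intro g hg
      obtain ⟨i, rfl⟩ := hy
      rw [Subgroup.mem_centralizer_singleton_iff]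
      have : Commute g (x : G) := congrArg Subtype.val (Subgroup.mem_center_iff.1 hx ⟨g, hg⟩)
      exact this.zpow_right i
    · have : Nat.card G ∣ q ^ b :=
        Nat.Coprime.dvd_of_dvd_mul_left
          (Nat.Coprime.pow_right _ ((Nat.Prime.coprime_iff_not_dvd hp).2 hpG).symm) hd
      obtain ⟨i, _, hi⟩ := (Nat.dvd_prime_pow hq).1 this
      haveI := (IsPGroup.of_card hi).isNilpotent
      infer_instance
  · have : ∃ N : Subgroup G, N.Normal ∧ N ≠ ⊥ ∧ N ≠ ⊤ := by
      by_contra hc
      push Not at hc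
      exact hs ⟨fun N hN => by
        by_cases hb : N = ⊥
        · exact Or.inl hb
        · exact Or.inr (hc N hN hb)⟩
    obtain ⟨N, hN, hb, ht⟩ := this
    have e := Subgroup.card_eq_card_quotient_mul_card_subgroup N
    have h1 : 1 < Nat.card N := (Subgroup.one_lt_card_iff_ne_bot N).2 hb
    have h2 : 1 < Nat.card (G ⧸ N) := by
      have := Subgroup.one_lt_index_of_ne_top ht
      exact this
    haveI := ih (Nat.card N) (by rw [← hn, e]; nlinarith) N rfl
      ((Subgroup.card_subgroup_dvd_card N).trans hd)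
    haveI := ih (Nat.card (G ⧸ N)) (by rw [← hn, e]; nlinarith) (G ⧸ N) rfl
      ((Subgroup.card_quotient_dvd_card N).trans hd)
    exact Group.isSolvable_of_ker_le_range N.subtype (QuotientGroup.mk' N) (by simp)

end burnside
end Cfsg.Agent.Frob
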