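import Cfsg.Agent.Frob.Syl
/-!
# Two involutions
-/
set_option autoImplicit false

namespace Cfsg.Agent.Frob

variable {G : Type*} [Group G]

theorem inv_eq_of_sq {x : G} (hx : x * x = 1) : x⁻¹ = x := inv_eq_of_mul_eq_one_right hx

theorem dih_inv {x c : G} (hc : x * c * x⁻¹ = c⁻¹) (j : ℤ) : x * c ^ j * x⁻¹ = c ^ (-j) := by
  rw [← conj_zpow, hc, inv_zpow']

theorem dih_c {x y : G} (hx : x * x = 1) (hy : y * y = 1) : x * (x * y) * x⁻¹ = (x * y)⁻¹ := by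
  rw [← mul_assoc, hx, one_mul, mul_inv_rev, inv_eq_of_sq hy]

theorem dih_sq {x c : G} (hx : x * x = 1) (hc : x * c * x⁻¹ = c⁻¹) (j : ℤ) :
    x * c ^ j * (x * c ^ j) = 1 := by
  have := dih_inv hc j
  rw [inv_eq_of_sq hx] at this
  rw [← mul_assoc, this, ← zpow_add]; simp

theorem dih_conj {x c : G} (hc : x * c * x⁻¹ = c⁻¹) (i j : ℤ) :
    c ^ i * (x * c ^ j) * (c ^ i)⁻¹ = x * c ^ (j - 2 * i) := by
  have h := dih_inv hc (-i)
  rw [neg_neg] at h
  calc c ^ i * (x * c ^ j) * (c ^ i)⁻¹ = (x * c ^ (-i) * x⁻¹) * (x * c ^ j) * (c ^ i)⁻¹ := by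
        rw [h]
    _ = x * (c ^ (-i) * c ^ j * c ^ (-i)) := by rw [zpow_neg]; group
    _ = _ := by rw [← zpow_add, ← zpow_add]; congr 2; ring

/-- two involutions are conjugate by an involution, or commute with a common involution -/
theorem dih [Finite G] {x y : G} (hx : x * x = 1) (hy : y * y = 1) :
    (∃ w, w * w = 1 ∧ w * x * w⁻¹ = y ∧ ∃ j : ℤ, w = x * (x * y) ^ j) ∨
    ∃ z, z ≠ 1 ∧ z * z = 1 ∧ z * x = x * z ∧ z * y = y * z ∧
      ∃ g, g * x * g⁻¹ = x * z ∨ g * y * g⁻¹ = x * z := by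
  have hc := dih_c hx hy
  have hy' : y = x * (x * y) ^ (1 : ℤ) := by rw [zpow_one, ← mul_assoc, hx, one_mul]
  have hx' : x = x * (x * y) ^ (0 : ℤ) := by simp
  generalize x * y = c at hc hy' hx'
  have ho := pow_orderOf_eq_one c
  rcases Nat.even_or_odd' (orderOf c) with ⟨m, hm | hm⟩
  · right
    have hm0 : 0 < m := by have := orderOf_pos c; omega
    have hz : c ^ (m : ℤ) * c ^ (m : ℤ) = 1 := by
      rw [← zpow_add, ← two_mul]; rw [hm] at ho; exact_mod_cast ho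
    have hzx : c ^ (m : ℤ) * x = x * c ^ (m : ℤ) := by
      have := dih_inv hc m
      rw [zpow_neg, inv_eq_of_sq hz] at this
      exact (mul_inv_eq_iff_eq_mul.1 this).symm
    refine ⟨c ^ (m : ℤ), ?_, hz, hzx, ?_, ?_⟩
    · rw [zpow_natCast]
      exact pow_ne_one_of_lt_orderOf hm0.ne' (by omega)
    · rw [hy', ← mul_assoc, hzx, mul_assoc, mul_assoc, ← zpow_add, ← zpow_add, add_comm]
    · rcases Int.even_or_odd' (m : ℤ) with ⟨j, hj | hj⟩
      · refine ⟨c ^ (-j), Or.inl ?_⟩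
        conv_lhs => rw [hx']
        rw [dih_conj hc]; congr 2; omega
      · refine ⟨c ^ (-j), Or.inr ?_⟩
        rw [hy', dih_conj hc]; congr 2; omega
  · left
    refine ⟨x * c ^ ((m : ℤ) + 1), dih_sq hx hc _, ?_, _, rfl⟩
    have h1 : c ^ (2 * (m : ℤ) + 1) = 1 := by rw [hm] at ho; exact_mod_cast ho
    have h2 := dih_conj hc ((m : ℤ) + 1) 0
    have h3 := dih_inv hc (0 - 2 * ((m : ℤ) + 1))
    rw [zpow_zero, mul_one] at h2
    calc x * c ^ ((m : ℤ) + 1) * x * (x * c ^ ((m : ℤ) + 1))⁻¹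
        = x * (c ^ ((m : ℤ) + 1) * x * (c ^ ((m : ℤ) + 1))⁻¹) * x⁻¹ := by group
      _ = x * (x * c ^ (0 - 2 * ((m : ℤ) + 1)) * x⁻¹) := by rw [h2]; group
      _ = y := by
        rw [h3, hy', show -(0 - 2 * ((m : ℤ) + 1)) = (2 * m + 1) + 1 by ring, zpow_add, h1, one_mul]

end Cfsg.Agent.Frob
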