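import Cfsg.Agent.Frob.Thompson
/-!
# Groups with a fixed-point-free automorphism of prime order are nilpotent
-/
set_option autoImplicit false

namespace Cfsg.Agent.Frob
open Finset
open scoped Classical

universe u
variable {K : Type*} [Group K] {p : ℕ}

theorem map_eq_of_inv [Finite K] (φ : MulAut K) {U : Subgroup K} (h : ∀ x ∈ U, φ x ∈ U) :
    U.map φ.toMonoidHom = U :=
  eq_of_le_of_card (by rintro _ ⟨x, hx, rfl⟩; exact h x hx)
    (Subgroup.card_map_of_injective φ.injective).ge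

theorem inv_of_map_eq (φ : MulAut K) {U : Subgroup K} (h : U.map φ.toMonoidHom = U) :
    ∀ x ∈ U, φ x ∈ U := fun x hx => h.le ⟨x, hx, rfl⟩

/-- restriction of an automorphism -/
def resAut (φ : MulAut K) (U : Subgroup K) (h : U.map φ.toMonoidHom = U) : MulAut U :=
  (φ.subgroupMap U).trans (MulEquiv.subgroupCongr h)

theorem resAut_coe (φ : MulAut K) (U : Subgroup K) (h : U.map φ.toMonoidHom = U) (x : U) :
    (resAut φ U h x : K) = φ x := rfl

theorem resAut_pow (φ : MulAut K) (U : Subgroup K) (h : U.map φ.toMonoidHom = U) (n : ℕ) (x : U) :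
    ((resAut φ U h ^ n) x : K) = (φ ^ n) x := by
  induction n with
  | zero => rfl
  | succ n ih => rw [pow_succ', pow_succ', MulAut.mul_apply, MulAut.mul_apply, resAut_coe, ih]

theorem pow_mem_of_inv (φ : MulAut K) {U : Subgroup K} (h : ∀ x ∈ U, φ x ∈ U) (n : ℕ) {x : K}
    (hx : x ∈ U) : (φ ^ n) x ∈ U := by
  induction n with
  | zero => exact hx
  | succ n ih => rw [pow_succ', MulAut.mul_apply]; exact h _ ih

theorem comm_surj [Finite K] (φ : MulAut K) (hf : ∀ x, φ x = x → x = 1) {U : Subgroup K}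
    (h : ∀ x ∈ U, φ x ∈ U) :
    Function.Bijective fun x : U => (⟨x * (φ x)⁻¹, U.mul_mem x.2 (U.inv_mem (h x x.2))⟩ : U) := by
  rw [← Finite.injective_iff_bijective]
  intro x y e
  have e : (x : K) * (φ x)⁻¹ = y * (φ y)⁻¹ := congrArg Subtype.val e
  refine Subtype.ext (inv_mul_eq_one.1 (hf _ ?_)).symm
  rw [map_mul, map_inv]
  calc (φ y)⁻¹ * φ x = (y : K)⁻¹ * (y * (φ y)⁻¹) * φ x := by group
    _ = _ := by rw [← e]; group

theorem fpf_pow5 (hp : p.Prime) (φ : MulAut K) (hφ : φ ^ p = 1) (hf : ∀ x, φ x = x → x = 1)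
    {i : ℕ} (h0 : 0 < i) (hi : i < p) (x : K) (hx : (φ ^ i) x = x) : x = 1 := by
  obtain ⟨j, -, hj⟩ := Nat.exists_mul_mod_eq_one_of_coprime
    (Nat.coprime_of_lt_prime h0.ne' hi hp).symm hp.one_lt
  apply hf
  have : ∀ n, ((φ ^ i) ^ n) x = x := fun n => by
    induction n with
    | zero => rfl
    | succ n ih => rw [pow_succ, MulAut.mul_apply, hx, ih]
  have h2 := this j
  rwa [← pow_mul, pow_eq_pow_mod _ hφ, hj, pow_one] at h2

theorem not_dvd_of_fpf [Finite K] [hp : Fact p.Prime] (φ : MulAut K) (hφ : φ ^ p = 1)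
    (hf : ∀ x, φ x = x → x = 1) : ¬ p ∣ Nat.card K := fun h => by
  haveI := Fintype.ofFinite K
  rw [Nat.card_eq_fintype_card] at h
  obtain ⟨b, h1, h2⟩ := Equiv.Perm.exists_fixed_point_of_prime' (n := 1) h
    (σ := MulAction.toPermHom (MulAut K) K φ) (by rw [pow_one, ← map_pow, hφ, map_one])
    (a := 1) (map_one φ)
  exact h2 (hf b h1)

theorem exists_inv_syl [Finite K] [hp : Fact p.Prime] (φ : MulAut K) (hφ : φ ^ p = 1)
    (hf : ∀ x, φ x = x → x = 1) (s : ℕ) [Fact s.Prime] :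
    ∃ S : Subgroup K, IsSyl s ⊤ S ∧ S.map φ.toMonoidHom = S := by
  haveI := Fintype.ofFinite (Sylow s K)
  obtain ⟨P0⟩ := (inferInstance : Nonempty (Sylow s K))
  obtain ⟨P, hP⟩ := Equiv.Perm.exists_fixed_point_of_prime (p := p) (n := 1) (α := Sylow s K)
    (fun h => not_dvd_of_fpf φ hφ hf (h.trans (by
      rw [← Nat.card_eq_fintype_card]
      exact (P0.card_dvd_index).trans (Subgroup.index_dvd_card _))))
    (σ := MulAction.toPermHom (MulAut K) (Sylow s K) φ) (by rw [pow_one, ← map_pow, hφ, map_one])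
  exact ⟨P, isSyl_sylow P, congrArg (fun Q : Sylow s K => (Q : Subgroup K)) hP⟩

theorem norm_eq_one {W : Type*} [CommGroup W] (ψ : MulAut W) (hψ : ψ ^ p = 1)
    (hf : ∀ x, ψ x = x → x = 1) (w : W) : ∏ i ∈ range p, (ψ ^ i) w = 1 := by
  apply hf
  rw [map_prod]
  have h1 := prod_range_succ (fun i => (ψ ^ i) w) p
  rw [prod_range_succ', hψ, pow_zero, mul_left_inj] at h1
  rw [← h1]
  exact prod_congr rfl fun i _ => by rw [pow_succ', MulAut.mul_apply]

theorem pow_card_comm [Finite K] (hp : p.Prime) (φ : MulAut K) (hφ : φ ^ p = 1)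
    (hf : ∀ x, φ x = x → x = 1) {V S : Subgroup K} [V.Normal] (hV : V.map φ.toMonoidHom = V)
    (hc : ∀ a ∈ V, ∀ b ∈ V, a * b = b * a) (hS : ∀ x ∈ S, φ x ∈ S) {v s : K} (hv : v ∈ V)
    (hs : s ∈ S) : s * v ^ Nat.card S = v ^ Nat.card S * s := by
  haveI := Fintype.ofFinite S
  letI : CommGroup V := { (inferInstance : Group V) with
    mul_comm := fun a b => Subtype.ext (hc a a.2 b b.2) }
  let ψ := resAut φ V hV
  let ρ : K →* MulAut V := MulAut.conjNormal
  have hψ : ψ ^ p = 1 := by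
    ext x; rw [resAut_pow, hφ]; rfl
  have hψf : ∀ x, ψ x = x → x = 1 := fun x e => Subtype.ext (hf _ (congrArg Subtype.val e))
  let N : V → V := fun w => ∏ x : S, ρ x w
  have h1 : ∀ w, ∏ i ∈ range p, N ((ψ ^ i) w) = 1 := fun w => by
    rw [prod_comm]
    refine prod_eq_one fun x _ => ?_
    rw [← map_prod, norm_eq_one ψ hψ hψf, map_one]
  have h2 : ∀ w, ∏ i ∈ range p, ∏ x : S, ρ (x * ((φ ^ i) x)⁻¹) ((ψ ^ i) w) = 1 := fun w => by
    rw [prod_comm]
    refine prod_eq_one fun x _ => ?_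
    rw [← map_one (ρ x), ← norm_eq_one ψ hψ hψf (ρ (x : K)⁻¹ w), map_prod]
    refine prod_congr rfl fun i _ => Subtype.ext ?_
    rw [MulAut.conjNormal_apply, MulAut.conjNormal_apply, resAut_pow, resAut_pow,
      MulAut.conjNormal_apply, map_mul, map_mul, map_inv, map_inv, map_inv]
    group
  have h3 : ∀ w, N w = w ^ Nat.card S := fun w => by
    obtain ⟨q, rfl⟩ : ∃ q, p = q + 1 := ⟨p - 1, by have := hp.pos; omega⟩
    have a := h1 w
    have b := h2 w
    rw [prod_range_succ'] at a b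
    rw [prod_congr rfl (g := fun i => N ((ψ ^ (i + 1)) w)) (fun i hi =>
      (comm_surj (φ ^ (i + 1)) (fpf_pow5 hp φ hφ hf (Nat.succ_pos i)
        (Nat.succ_lt_succ (mem_range.1 hi))) (fun x => pow_mem_of_inv φ hS _)).prod_comp
          (fun x : S => ρ x ((ψ ^ (i + 1)) w))), ← a, mul_right_inj] at b
    simp only [pow_zero, MulAut.one_apply, mul_inv_cancel, map_one, prod_const, card_univ] at b
    rw [← b, Nat.card_eq_fintype_card]
  have h4 : ρ s (N ⟨v, hv⟩) = N ⟨v, hv⟩ := by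
    simp only [N]
    rw [map_prod, ← Equiv.prod_comp (Equiv.mulLeft (⟨s, hs⟩ : S)) (fun x : S => ρ x ⟨v, hv⟩)]
    exact prod_congr rfl fun x _ => (rho_mul ρ _ _ _).symm
  rw [h3] at h4
  have := congrArg Subtype.val h4
  rw [MulAut.conjNormal_apply] at this
  exact mul_inv_eq_iff_eq_mul.1 this

theorem exists_central_of_syl [Finite K] {r : ℕ} (hr : r.Prime) {V : Subgroup K} [V.Normal]
    (hV : IsPGroup r V) (h0 : V ≠ ⊥)
    (h : ∀ s : ℕ, s.Prime → s ≠ r → ∃ S, IsSyl s ⊤ S ∧ ∀ x ∈ S, ∀ v ∈ V, x * v = v * x) :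
    ∃ v ∈ V, v ≠ 1 ∧ v ^ r = 1 ∧ v ∈ Subgroup.center K := by
  haveI := Fact.mk hr
  obtain ⟨R, hR⟩ := exists_isSyl' r (⊤ : Subgroup K)
  haveI : (Zs r V).Normal := normal_of_norm fun g => norm_le_Zs V (norm_of_normal V g)
  haveI := (Subgroup.nontrivial_iff_ne_bot _).2 (Zs_ne_bot hV h0)
  letI : MulAction R (Zs r V) :=
    MulAction.compHom (Zs r V) ((MulAut.conjNormal : K →* MulAut (Zs r V)).comp R.subtype)
  obtain ⟨n, hn0, hn⟩ := (hV.to_le (Zs_le (p := r) V)).nontrivial_iff_card.1 inferInstance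
  obtain ⟨v, hv, hv1⟩ := hR.2.1.exists_fixed_point_of_prime_dvd_card_of_fixed_point (Zs r V)
    (hn ▸ dvd_pow_self r hn0.ne') (a := 1) (fun g => map_one (MulAut.conjNormal (g : K)))
  refine ⟨v, v.2.1, fun e => hv1 (Subtype.ext e.symm), v.2.2.1, ?_⟩
  have : ⊤ ≤ Subgroup.centralizer ({(v : K)} : Set K) := le_of_syl le_top fun s hs => by
    by_cases e : s = r
    · subst e
      refine ⟨R, hR, fun x hx => Subgroup.mem_centralizer_singleton_iff.2 ?_⟩
      have := congrArg Subtype.val (hv ⟨x, hx⟩)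
      exact mul_inv_eq_iff_eq_mul.1 ((MulAut.conjNormal_apply x v).symm.trans this)
    · obtain ⟨S, h1, h2⟩ := h s hs e
      exact ⟨S, h1, fun x hx => Subgroup.mem_centralizer_singleton_iff.2 (h2 x hx v v.2.1)⟩
  exact Subgroup.mem_center_iff.2 fun g =>
    Subgroup.mem_centralizer_singleton_iff.1 (this (Subgroup.mem_top g))

theorem IsSyl.normal_of_nil [Finite K] [Group.IsNilpotent K] {r : ℕ} [Fact r.Prime]
    {S : Subgroup K} (h : IsSyl r ⊤ S) : S.Normal := by
  obtain ⟨P, rfl⟩ := h.toSylow_top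
  infer_instance

theorem exists_central [Finite K] [Group.IsNilpotent K] {r : ℕ} (hr : r.Prime)
    (h : r ∣ Nat.card K) : ∃ v : K, v ≠ 1 ∧ v ^ r = 1 ∧ v ∈ Subgroup.center K := by
  haveI := Fact.mk hr
  obtain ⟨R, hR⟩ := exists_isSyl' r (⊤ : Subgroup K)
  haveI := hR.normal_of_nil
  obtain ⟨v, -, hv⟩ := exists_central_of_syl hr hR.2.1 (hR.ne_bot (by rwa [Subgroup.card_top]))
    (fun s hs hne => by
      haveI := Fact.mk hs
      obtain ⟨S, hS⟩ := exists_isSyl' s (⊤ : Subgroup K)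
      exact ⟨S, hS, fun x hx v hv => Subgroup.commute_of_normal_of_disjoint S R hS.normal_of_nil
        inferInstance (IsPGroup.disjoint_of_ne s r hne S R hS.2.1 hR.2.1) x v hx hv⟩)
  exact ⟨v, hv⟩

theorem pn_of_nil [Finite K] [Group.IsNilpotent K] (q : ℕ) [Fact q.Prime] :
    PN q (⊤ : Subgroup K) := by
  obtain ⟨Q, hQ⟩ := exists_isSyl' q (⊤ : Subgroup K)
  haveI := hQ.normal_of_nil
  obtain ⟨S0, h0⟩ := exists_isSyl' q (Subgroup.centralizer (Q : Set K))
  obtain ⟨y, -, hy⟩ := hQ.exists_cj_le (le_top : S0 ≤ ⊤) h0.2.1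
  have h1 : S0 ≤ Q := by rwa [← cj_normal y Q, cj_le_cj] at hy
  have h2 := pn_of_central h0 fun x hx s hs => (Subgroup.mem_centralizer_iff.1 hx s (h1 hs)).symm
  have h3 : ∀ x, Pp q x → x ∈ Subgroup.centralizer (Q : Set K) := fun x hx => by
    have : Subgroup.zpowers x ≤ Subgroup.zpowers x ⊓ Subgroup.centralizer (Q : Set K) :=
      le_of_syl inf_le_left fun r hr => by
        haveI := Fact.mk hr
        obtain ⟨T, hT⟩ := exists_isSyl' r (Subgroup.zpowers x)
        refine ⟨T, hT, le_inf hT.1 fun t ht => ?_⟩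
        by_cases e : r = q
        · subst e
          obtain ⟨i, rfl⟩ := hT.1 ht
          rw [show (fun i : ℤ => x ^ i) i = 1 from (hx.zpow i).eq_one (pe_of_mem hT.2.1 ht)]
          exact one_mem _
        · obtain ⟨S, hS, hle⟩ := exists_isSyl (le_top : T ≤ ⊤) hT.2.1
          exact Subgroup.mem_centralizer_iff.2 fun v hv =>
            (Subgroup.commute_of_normal_of_disjoint S Q hS.normal_of_nil inferInstance
              (IsPGroup.disjoint_of_ne r q e S Q hS.2.1 hQ.2.1) t v (hle ht) hv).symm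
    exact (this (Subgroup.mem_zpowers x)).2
  exact fun x _ y _ a b => h2 x (h3 x a) y (h3 y b) a b

theorem norm_inv [Finite K] (φ : MulAut K) {X : Subgroup K} (h : X.map φ.toMonoidHom = X) :
    (Subgroup.normalizer (X : Set K)).map φ.toMonoidHom = Subgroup.normalizer (X : Set K) :=
  map_eq_of_inv φ fun x hx => by
    have := mem_norm_map φ.toMonoidHom hx
    rwa [h] at this

/-- Thompson's theorem on fixed-point-free automorphisms of prime order -/
theorem nilpotent_aux [hp : Fact p.Prime] (n : ℕ) : ∀ (K : Type u) [Group K] [Finite K],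
    Nat.card K = n → ∀ φ : MulAut K, φ ^ p = 1 → (∀ x, φ x = x → x = 1) →
    Group.IsNilpotent K := by
  induction n using Nat.strong_induction_on with
  | _ n ih =>
  intro K _ _ hn φ hφ hf
  have ihs : ∀ U : Subgroup K, U ≠ ⊤ → U.map φ.toMonoidHom = U → Group.IsNilpotent U := by
    intro U h1 h2
    refine ih _ ?_ U rfl (resAut φ U h2) (by ext x; rw [resAut_pow, hφ]; rfl)
      fun x e => Subtype.ext (hf _ (congrArg Subtype.val e))
    rw [← hn]
    exact lt_of_not_ge fun c => h1 (eq_of_le_of_card le_top (by rwa [Subgroup.card_top]))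
  have hinj : ∀ (U : Subgroup K), ∀ x ∈ U, φ.toMonoidHom x = 1 → x = 1 := fun U x _ e =>
    φ.injective (e.trans (map_one φ).symm)
  by_cases h2 : IsPGroup 2 K
  · haveI : Fact (Nat.Prime 2) := ⟨Nat.prime_two⟩
    exact h2.isNilpotent
  obtain ⟨q, hq, hq2, hqK⟩ : ∃ q : ℕ, q.Prime ∧ q ≠ 2 ∧ q ∣ Nat.card K := by
    obtain ⟨a, m, hm, e⟩ := Nat.exists_eq_two_pow_mul_odd (Nat.card_pos (α := K)).ne'
    have : m ≠ 1 := by
      rintro rfl
      exact h2 (IsPGroup.of_card (by rw [e, mul_one]))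
    obtain ⟨q, h3, h4⟩ := Nat.exists_prime_and_dvd this
    refine ⟨q, h3, ?_, e ▸ Dvd.dvd.mul_left h4 _⟩
    rintro rfl
    exact Nat.not_even_iff_odd.2 hm (even_iff_two_dvd.2 h4)
  haveI := Fact.mk hq
  by_cases hqg : IsPGroup q K
  · exact hqg.isNilpotent
  obtain ⟨r, hr, V, hVn, hV, hV0, hVφ⟩ : ∃ r : ℕ, r.Prime ∧ ∃ V : Subgroup K, V.Normal ∧
      IsPGroup r V ∧ V ≠ ⊥ ∧ V.map φ.toMonoidHom = V := by
    obtain ⟨Q, hQ, hQφ⟩ := exists_inv_syl φ hφ hf q
    have hQ0 := hQ.ne_bot (by rwa [Subgroup.card_top])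
    have hZ : (Zs q Q).map φ.toMonoidHom = Zs q Q := by rw [← Zs_map _ (hinj Q), hQφ]
    have hJ : (Js q Q).map φ.toMonoidHom = Js q Q := by rw [← Js_map _ (hinj Q), hQφ]
    by_cases e1 : Subgroup.normalizer (Zs q Q : Set K) = ⊤
    · exact ⟨q, hq, _, Subgroup.normalizer_eq_top_iff.1 e1, hQ.2.1.to_le (Zs_le Q),
        Zs_ne_bot hQ.2.1 hQ0, hZ⟩
    by_cases e2 : Subgroup.normalizer (Js q Q : Set K) = ⊤
    · exact ⟨q, hq, _, Subgroup.normalizer_eq_top_iff.1 e2, hQ.2.1.to_le (Js_le Q),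
        Js_ne_bot hQ.2.1 hQ0, hJ⟩
    have h3 := thompson_pn hq2 _ K rfl Q hQ
      (by haveI := ihs _ e1 (norm_inv φ hZ); exact (pn_of_nil q).of_subtype)
      (by haveI := ihs _ e2 (norm_inv φ hJ); exact (pn_of_nil q).of_subtype)
    let M := h3.comp
    haveI : M.Normal := ⟨fun x hx g => ⟨trivial, hx.2.conj g⟩⟩
    have hMφ : M.map φ.toMonoidHom = M :=
      map_eq_of_inv φ fun x hx => ⟨trivial, hx.2.map φ.toMonoidHom⟩
    have hM : M ≠ ⊤ := fun e => not_dvd_card_of_pp (H := M) (fun x hx => hx.2)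
      (by rwa [e, Subgroup.card_top])
    haveI := ihs M hM hMφ
    have hM1 : Nat.card M ≠ 1 := fun e => hqg (by
      have : IsPGroup q (⊤ : Subgroup K) := isPGroup_of_pp fun x _ hx =>
        Subgroup.mem_bot.1 (Subgroup.card_eq_one.1 e ▸ (⟨trivial, hx⟩ : x ∈ M))
      exact this.of_surjective (⊤ : Subgroup K).subtype fun x => ⟨⟨x, trivial⟩, rfl⟩)
    obtain ⟨r, hr, hrM⟩ := Nat.exists_prime_and_dvd hM1
    haveI := Fact.mk hr
    obtain ⟨R, hR⟩ := exists_isSyl' r M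
    have huniq : ∀ R', IsSyl r M R' → R' = R := fun R' h' => by
      obtain ⟨y, hy, rfl⟩ := hR.conj h'
      obtain ⟨P, rfl⟩ := hR.toSylow
      exact cj_eq_iff.2 (mem_norm_map M.subtype (g := ⟨y, hy⟩) (norm_of_normal (P : Subgroup M) _))
    refine ⟨r, hr, R, normal_of_norm fun g => cj_eq_iff.1 (huniq _ ?_), hR.2.1, hR.ne_bot hrM,
      huniq _ (isSyl_of_card hR ((Subgroup.map_mono hR.1).trans hMφ.le) (hR.2.1.map _)
        (Subgroup.card_map_of_injective φ.injective).ge)⟩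
    have := hR.cj g
    rwa [cj_normal] at this
  haveI := Fact.mk hr
  haveI : (Zs r V).Normal := normal_of_norm fun g => norm_le_Zs V (norm_of_normal V g)
  have hWφ : (Zs r V).map φ.toMonoidHom = Zs r V := by rw [← Zs_map _ (hinj V), hVφ]
  obtain ⟨v, -, hv1, -, hvc⟩ := exists_central_of_syl hr (hV.to_le (Zs_le (p := r) V))
    (Zs_ne_bot hV hV0) (fun s hs hne => by
      haveI := Fact.mk hs
      obtain ⟨S, hS, hSφ⟩ := exists_inv_syl φ hφ hf s
      refine ⟨S, hS, fun x hx v hv => ?_⟩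
      obtain ⟨j, hj⟩ := hS.2.1.exists_card_eq
      obtain ⟨e, -, he⟩ := Nat.exists_mul_mod_eq_one_of_coprime (k := r) (n := Nat.card S) (by
        rw [hj]; exact Nat.Coprime.pow_left _ ((Nat.coprime_primes hs hr).2 hne)) hr.one_lt
      have := pow_card_comm hp.out φ hφ hf hWφ (fun a ha b hb => ha.2.2 b hb.1)
        (inv_of_map_eq φ hSφ) (Subgroup.pow_mem _ hv e) hx
      rwa [← pow_mul, mul_comm, pow_eq_pow_mod _ hv.2.1, he, pow_one] at this)
  have hZφ : (Subgroup.center K).map φ.toMonoidHom = Subgroup.center K :=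
    map_eq_of_inv φ fun x hx => Subgroup.mem_center_iff.2 fun g => by
      obtain ⟨g, rfl⟩ := φ.surjective g
      rw [← map_mul, Subgroup.mem_center_iff.1 hx g, map_mul]
  let ψ : MulAut (K ⧸ Subgroup.center K) := QuotientGroup.congr _ _ φ hZφ
  have hψ : ∀ (i : ℕ) (x : K), (ψ ^ i) (x : K ⧸ Subgroup.center K) = ((φ ^ i) x : K) := by
    intro i x
    induction i with
    | zero => rfl
    | succ i ih' => rw [pow_succ', pow_succ', MulAut.mul_apply, MulAut.mul_apply, ih']; rfl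
  refine Group.of_quotient_center_nilpotent (ih _ ?_ _ rfl ψ ?_ ?_)
  · rw [← hn, Subgroup.card_eq_card_quotient_mul_card_subgroup (Subgroup.center K)]
    have := (Subgroup.one_lt_card_iff_ne_bot (Subgroup.center K)).2
      fun e => hv1 (Subgroup.mem_bot.1 (e ▸ hvc))
    have := Nat.card_pos (α := K ⧸ Subgroup.center K)
    nlinarith
  · ext x
    obtain ⟨x, rfl⟩ := QuotientGroup.mk_surjective x
    rw [hψ, hφ]; rfl
  · intro x e
    obtain ⟨x, rfl⟩ := QuotientGroup.mk_surjective x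
    have e' : (φ x)⁻¹ * x ∈ Subgroup.center K := QuotientGroup.eq.1 e
    obtain ⟨y, hy⟩ := (comm_surj φ hf (inv_of_map_eq φ hZφ)).2 ⟨_, e'⟩
    have hy : (y : K) * (φ y)⁻¹ = (φ x)⁻¹ * x := congrArg Subtype.val hy
    have := hf (x * (y : K)⁻¹) (by
      rw [map_mul, map_inv, ← inv_mul_cancel_left (y : K) (φ y)⁻¹, hy, ← mul_assoc,
        Subgroup.mem_center_iff.1 (Subgroup.inv_mem _ y.2), ← mul_assoc, mul_inv_cancel_right,
        Subgroup.mem_center_iff.1 (Subgroup.inv_mem _ y.2)])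
    rw [mul_inv_eq_one.1 this]
    exact (QuotientGroup.eq_one_iff _).2 y.2

theorem nilpotent_of_fpf5 [Finite K] (φ : MulAut K) (hp : p.Prime) (hφ : φ ^ p = 1)
    (hf : ∀ x, φ x = x → x = 1) : Group.IsNilpotent K :=
  haveI := Fact.mk hp
  nilpotent_aux _ K rfl φ hφ hf

end Cfsg.Agent.Frob
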