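import Cfsg.Agent.Frob.Char
import Cfsg.Agent.Frob.Count
/-!
# Rank 3 graphs whose point stabilizer is a Frobenius group on the neighbours
-/
set_option autoImplicit false

namespace Cfsg.Agent.Frob
open Finset
open scoped Classical

/-- the setting -/
structure R3 (G X : Type*) [Group G] [MulAction G X] where
  adj : X → X → Prop
  symm : ∀ {P Q : X}, adj P Q → adj Q P
  irr : ∀ P : X, ¬ adj P P
  inv : ∀ (g : G) {P Q : X}, adj P Q → adj (g • P) (g • Q)
  tr : ∀ P Q : X, ∃ g : G, g • P = Q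
  trA : ∀ {P Q P' Q' : X}, adj P Q → adj P' Q' → ∃ g : G, g • P = P' ∧ g • Q = Q'
  trN : ∀ {P Q P' Q' : X}, P ≠ Q → ¬ adj P Q → P' ≠ Q' → ¬ adj P' Q' →
    ∃ g : G, g • P = P' ∧ g • Q = Q'
  fr : ∀ {g : G} {P Q S : X}, g • P = P → adj P Q → adj P S → g • Q = Q → g • S = S → Q ≠ S →
    g = 1
  A : X
  B : X
  C : X
  hAB : adj A B
  hAC : A ≠ C
  nAC : ¬ adj A C
  hH : ∃ g : G, g ≠ 1 ∧ g • A = A ∧ g • B = B
  conn : ∃ P Q S : X, adj P Q ∧ adj Q S ∧ P ≠ S ∧ ¬ adj P S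
  coconn : ∃ P Q S : X, ¬ adj P Q ∧ ¬ adj Q S ∧ adj P S
  faith : ∀ g : G, (∀ P : X, g • P = P) → g = 1

/-- two point stabilizer -/
def st (G : Type*) {X : Type*} [Group G] [MulAction G X] (P Q : X) : Subgroup G :=
  MulAction.stabilizer G P ⊓ MulAction.stabilizer G Q

variable {G X : Type*} [Group G] [MulAction G X]

theorem mem_st {P Q : X} {g : G} : g ∈ st G P Q ↔ g • P = P ∧ g • Q = Q := Iff.rfl

theorem st_comm (P Q : X) : st G P Q = st G Q P := inf_comm _ _

theorem conj_fix (g x : G) (P : X) : (g * x * g⁻¹) • g • P = g • P ↔ x • P = P := by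
  rw [mul_smul, mul_smul, inv_smul_smul, smul_left_cancel_iff]

theorem conj_smul (g x : G) (P : X) : (g * x * g⁻¹) • g • P = g • x • P := by
  rw [mul_smul, mul_smul, inv_smul_smul]

theorem card_st_smul (g : G) (P Q : X) :
    Nat.card (st G (g • P) (g • Q)) = Nat.card (st G P Q) :=
  (card_conj _ _ g fun x => by rw [mem_st, mem_st, conj_fix, conj_fix]).symm

theorem fix_of_commute {g x : G} (h : g * x = x * g) {P : X} (hP : x • P = P) :
    x • g • P = g • P := by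
  rw [← mul_smul, ← h, mul_smul, hP]

namespace R3
variable (R : R3 G X)

/-- distinct and non-adjacent -/
def nadj (P Q : X) : Prop := P ≠ Q ∧ ¬ R.adj P Q

variable {R}

theorem adj_ne {P Q : X} (h : R.adj P Q) : P ≠ Q := fun e => R.irr P (by rwa [← e] at h)

theorem adj_smul (g : G) {P Q : X} : R.adj (g • P) (g • Q) ↔ R.adj P Q :=
  ⟨fun h => by simpa using R.inv g⁻¹ h, R.inv g⟩

theorem adj_comm {P Q : X} : R.adj P Q ↔ R.adj Q P := ⟨R.symm, R.symm⟩

theorem nadj_smul (g : G) {P Q : X} : R.nadj (g • P) (g • Q) ↔ R.nadj P Q := by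
  unfold nadj
  rw [adj_smul, Ne, smul_left_cancel_iff]

theorem nadj.symm {P Q : X} (h : R.nadj P Q) : R.nadj Q P := ⟨h.1.symm, fun e => h.2 (R.symm e)⟩

theorem adj_of_fix {g : G} {P Q : X} (hP : g • P = P) (h : R.adj P Q) : R.adj P (g • Q) := by
  have := R.inv g h
  rwa [hP] at this

theorem nadj_of_fix {g : G} {P Q : X} (hP : g • P = P) (h : R.nadj P Q) : R.nadj P (g • Q) := by
  have := (nadj_smul g).2 h
  rwa [hP] at this

theorem trN' {P Q P' Q' : X} (h : R.nadj P Q) (h' : R.nadj P' Q') :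
    ∃ g : G, g • P = P' ∧ g • Q = Q' := R.trN h.1 h.2 h'.1 h'.2

theorem nadj_AC : R.nadj R.A R.C := ⟨R.hAC, R.nAC⟩

theorem exists_adj (P : X) : ∃ Q, R.adj P Q := by
  obtain ⟨g, rfl⟩ := R.tr R.A P
  exact ⟨_, R.inv g R.hAB⟩

theorem exists_nadj (P : X) : ∃ Q, R.nadj P Q := by
  obtain ⟨g, rfl⟩ := R.tr R.A P
  exact ⟨_, (nadj_smul g).2 nadj_AC⟩

theorem exists_common {P Q : X} (h : R.nadj P Q) : ∃ S, R.adj P S ∧ R.adj Q S := by
  obtain ⟨a, b, c, h1, h2, h3, h4⟩ := R.conn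
  obtain ⟨g, rfl, rfl⟩ := trN' (⟨h3, h4⟩ : R.nadj a c) h
  exact ⟨g • b, R.inv g h1, R.inv g (R.symm h2)⟩

theorem exists_far {P Q : X} (h : R.adj P Q) : ∃ S, R.nadj P S ∧ R.nadj Q S := by
  obtain ⟨a, b, c, h1, h2, h3⟩ := R.coconn
  obtain ⟨g, rfl, rfl⟩ := R.trA h3 h
  refine ⟨g • b, (nadj_smul g).2 ⟨?_, h1⟩, (nadj_smul g).2 ⟨?_, fun e => h2 (R.symm e)⟩⟩
  · rintro rfl; exact h2 h3
  · rintro rfl; exact h1 h3

theorem exists_far' {P Q : X} (h : R.nadj P Q) : ∃ S, R.nadj P S ∧ R.adj Q S := by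
  obtain ⟨c, h1, h2⟩ := exists_far R.hAB
  obtain ⟨g, rfl, rfl⟩ := trN' h1.symm h
  exact ⟨g • R.B, (nadj_smul g).2 h2.symm, R.inv g R.hAB⟩

/-- nontrivial normal subgroups are transitive -/
theorem normal_trans (R : R3 G X) (N : Subgroup G) [hN : N.Normal] (h : N ≠ ⊥) (P Q : X) :
    ∃ g ∈ N, g • P = Q := by
  let r : X → X → Prop := fun P Q => ∃ g ∈ N, g • P = Q
  have rinv : ∀ (g : G) P Q, r P Q → r (g • P) (g • Q) := by
    rintro g P _ ⟨n, hn, rfl⟩
    exact ⟨_, hN.conj_mem n hn g, conj_smul _ _ _⟩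
  have rtr : ∀ P Q S, r P Q → r Q S → r P S := by
    rintro P _ _ ⟨n, hn, rfl⟩ ⟨m, hm, rfl⟩
    exact ⟨_, N.mul_mem hm hn, mul_smul _ _ _⟩
  have hA : (∀ P Q, R.adj P Q → r P Q) ↔ (∀ P Q, R.nadj P Q → r P Q) := by
    constructor
    · intro H P Q hPQ
      obtain ⟨S, h1, h2⟩ := exists_common hPQ
      exact rtr _ _ _ (H _ _ h1) (H _ _ (R.symm h2))
    · intro H P Q hPQ
      obtain ⟨S, h1, h2⟩ := exists_far hPQ
      exact rtr _ _ _ (H _ _ h1) (H _ _ h2.symm)
  have hB : ∀ P Q, R.adj P Q → r P Q := by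
    haveI := (Subgroup.nontrivial_iff_ne_bot N).2 h
    obtain ⟨⟨n, hn⟩, hn1⟩ := exists_ne (1 : N)
    have : ∃ P : X, n • P ≠ P := by
      by_contra hc
      push Not at hc
      exact hn1 (Subtype.ext (R.faith n hc))
    obtain ⟨P, hP⟩ := this
    have hr : r P (n • P) := ⟨n, hn, rfl⟩
    by_cases ha : R.adj P (n • P)
    · intro P' Q' h'
      obtain ⟨g, rfl, rfl⟩ := R.trA ha h'
      exact rinv g _ _ hr
    · refine hA.2 fun P' Q' h' => ?_
      obtain ⟨g, rfl, rfl⟩ := trN' (⟨hP.symm, ha⟩ : R.nadj _ _) h'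
      exact rinv g _ _ hr
  by_cases e : P = Q
  · exact ⟨1, N.one_mem, by rw [one_smul, e]⟩
  by_cases ha : R.adj P Q
  · exact hB _ _ ha
  · exact hA.1 hB _ _ ⟨e, ha⟩

variable [Fintype X]
variable (R)

/-- neighbours -/
noncomputable def nb (P : X) : Finset X := univ.filter fun Q => R.adj P Q
/-- non-neighbours -/
noncomputable def nn (P : X) : Finset X := univ.filter fun Q => R.nadj P Q
/-- common neighbours -/
noncomputable def cm (P Q : X) : Finset X := univ.filter fun S => R.adj P S ∧ R.adj Q S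
/-- valency -/
noncomputable def k : ℕ := (R.nb R.A).card
/-- covalency -/
noncomputable def l : ℕ := (R.nn R.A).card
/-- order of an arc stabilizer -/
noncomputable def h : ℕ := Nat.card (st G R.A R.B)
/-- order of the stabilizer of a non-adjacent pair -/
noncomputable def t : ℕ := Nat.card (st G R.A R.C)
/-- common neighbours of adjacent points -/
noncomputable def lam : ℕ := (R.cm R.A R.B).card
/-- common neighbours of non-adjacent points -/
noncomputable def mu : ℕ := (R.cm R.A R.C).card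

variable {R}

@[simp] theorem mem_nb {P Q : X} : Q ∈ R.nb P ↔ R.adj P Q := by simp [nb]
@[simp] theorem mem_nn {P Q : X} : Q ∈ R.nn P ↔ R.nadj P Q := by simp [nn]
@[simp] theorem mem_cm {P Q S : X} : S ∈ R.cm P Q ↔ R.adj P S ∧ R.adj Q S := by simp [cm]

theorem card_nb (P : X) : (R.nb P).card = R.k := by
  obtain ⟨g, rfl⟩ := R.tr R.A P
  exact (card_eq_smul g _ _ fun y => by rw [mem_nb, mem_nb, adj_smul]).symm

theorem card_nn (P : X) : (R.nn P).card = R.l := by
  obtain ⟨g, rfl⟩ := R.tr R.A P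
  exact (card_eq_smul g _ _ fun y => by rw [mem_nn, mem_nn, nadj_smul]).symm

theorem card_cm_adj {P Q : X} (h : R.adj P Q) : (R.cm P Q).card = R.lam := by
  obtain ⟨g, rfl, rfl⟩ := R.trA R.hAB h
  exact (card_eq_smul g _ _ fun y => by rw [mem_cm, mem_cm, adj_smul, adj_smul]).symm

theorem card_cm_nadj {P Q : X} (h : R.nadj P Q) : (R.cm P Q).card = R.mu := by
  obtain ⟨g, rfl, rfl⟩ := trN' nadj_AC h
  exact (card_eq_smul g _ _ fun y => by rw [mem_cm, mem_cm, adj_smul, adj_smul]).symm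

omit [Fintype X] in
theorem card_st_adj {P Q : X} (h : R.adj P Q) : Nat.card (st G P Q) = R.h := by
  obtain ⟨g, rfl, rfl⟩ := R.trA R.hAB h
  exact card_st_smul g _ _

omit [Fintype X] in
theorem card_st_nadj {P Q : X} (h : R.nadj P Q) : Nat.card (st G P Q) = R.t := by
  obtain ⟨g, rfl, rfl⟩ := trN' nadj_AC h
  exact card_st_smul g _ _

theorem card_X : Fintype.card X = 1 + R.k + R.l := by
  have : (univ : Finset X) = insert R.A (R.nb R.A ∪ R.nn R.A) := by
    ext Q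
    simp only [mem_univ, mem_insert, mem_union, mem_nb, mem_nn, nadj, true_iff]
    by_cases e : Q = R.A
    · exact Or.inl e
    by_cases a : R.adj R.A Q
    · exact Or.inr (Or.inl a)
    · exact Or.inr (Or.inr ⟨Ne.symm e, a⟩)
  rw [← card_univ, this, card_insert_of_notMem, card_union_of_disjoint]
  · unfold k l; omega
  · rw [disjoint_left]
    intro Q h1 h2
    exact (mem_nn.1 h2).2 (mem_nb.1 h1)
  · simp [nadj, R.irr]

theorem card_nb_nn_adj {P Q : X} (h : R.adj P Q) :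
    ((R.nn P).filter fun S => R.adj Q S).card + R.lam + 1 = R.k := by
  rw [← card_nb Q, ← card_cm_adj h]
  have : R.nb Q = insert P (((R.nn P).filter fun S => R.adj Q S) ∪ R.cm P Q) := by
    ext S
    simp only [mem_insert, mem_union, mem_nb, mem_nn, nadj, mem_filter, mem_cm]
    constructor
    · intro hS
      by_cases e : S = P
      · exact Or.inl e
      by_cases a : R.adj P S
      · exact Or.inr (Or.inr ⟨a, hS⟩)
      · exact Or.inr (Or.inl ⟨⟨Ne.symm e, a⟩, hS⟩)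
    · rintro (rfl | hS | hS)
      · exact R.symm h
      · exact hS.2
      · exact hS.2
  rw [this, card_insert_of_notMem, card_union_of_disjoint]
  · rw [disjoint_left]
    intro S h1 h2
    exact (mem_nn.1 (mem_filter.1 h1).1).2 (mem_cm.1 h2).1
  · simp [nadj, R.irr]

theorem card_nb_nn_nadj {P Q : X} (h : R.nadj P Q) :
    ((R.nn P).filter fun S => R.adj Q S).card + R.mu = R.k := by
  rw [← card_nb Q, ← card_cm_nadj h]
  have : R.nb Q = ((R.nn P).filter fun S => R.adj Q S) ∪ R.cm P Q := by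
    ext S
    simp only [mem_union, mem_nb, mem_nn, nadj, mem_filter, mem_cm]
    constructor
    · intro hS
      by_cases a : R.adj P S
      · exact Or.inr ⟨a, hS⟩
      · refine Or.inl ⟨⟨?_, a⟩, hS⟩
        rintro rfl
        exact h.2 (R.symm hS)
    · rintro (hS | hS)
      · exact hS.2
      · exact hS.2
  rw [this, card_union_of_disjoint]
  rw [disjoint_left]
  intro S h1 h2
  exact (mem_nn.1 (mem_filter.1 h1).1).2 (mem_cm.1 h2).1

theorem mu_eq : R.l * R.mu + R.k * (R.lam + 1) = R.k * R.k := by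
  have h1 := sum_card_rel (R.nb R.A) (R.nn R.A) R.adj
  have h2 : ∑ b ∈ R.nn R.A, ((R.nb R.A).filter fun a => R.adj a b).card = R.l * R.mu := by
    rw [sum_congr rfl (g := fun _ => R.mu), sum_const, smul_eq_mul]; rfl
    intro b hb
    rw [← card_cm_nadj (mem_nn.1 hb)]
    congr 1
    ext a
    simp only [mem_filter, mem_nb, mem_cm]
    rw [adj_comm (P := a)]
  have h3 := sum_congr rfl fun a (ha : a ∈ R.nb R.A) => card_nb_nn_adj (mem_nb.1 ha)
  simp only [add_assoc, sum_add_distrib, sum_const, smul_eq_mul, card_nb] at h3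
  rw [h1, h2] at h3
  rw [← h3]; ring

theorem mu_pos : 0 < R.mu := by
  obtain ⟨S, hS⟩ := exists_common (nadj_AC (R := R))
  exact card_pos.2 ⟨S, mem_cm.2 hS⟩

theorem mu_lt : R.mu < R.k := by
  obtain ⟨S, hS⟩ := exists_far' (nadj_AC (R := R))
  have := card_nb_nn_nadj (nadj_AC (R := R))
  have h2 : 0 < ((R.nn R.A).filter fun S => R.adj R.C S).card :=
    card_pos.2 ⟨S, by simpa using hS⟩
  omega

theorem k_le : R.k + 1 ≤ R.mu + R.l := by
  have := card_nb_nn_nadj (nadj_AC (R := R))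
  have h2 : ((R.nn R.A).filter fun S => R.adj R.C S).card < R.l := by
    apply card_lt_card
    refine ⟨filter_subset _ _, fun h => ?_⟩
    exact R.irr _ (mem_filter.1 (h (mem_nn.2 nadj_AC))).2
  omega

theorem l_pos : 0 < R.l := card_pos.2 ⟨R.C, mem_nn.2 nadj_AC⟩

theorem two_le_k : 2 ≤ R.k := by have := mu_pos (R := R); have := mu_lt (R := R); omega

variable [Finite G]

theorem card_stab (P : X) : Nat.card (MulAction.stabilizer G P) = R.k * R.h := by
  obtain ⟨Q, hQ⟩ := exists_adj (R := R) P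
  rw [card_orbit _ Q (R.nb P), card_nb, ← card_st_adj hQ]; rfl
  intro s
  rw [mem_nb]
  constructor
  · intro hs
    obtain ⟨g, h1, h2⟩ := R.trA hQ hs
    exact ⟨g, h1, h2⟩
  · rintro ⟨g, hg, rfl⟩
    exact adj_of_fix hg hQ

theorem kh_eq : R.k * R.h = R.l * R.t := by
  rw [← card_stab R.A, card_orbit _ R.C (R.nn R.A)]; rfl
  intro s
  rw [mem_nn]
  constructor
  · intro hs
    obtain ⟨g, h1, h2⟩ := trN' nadj_AC hs
    exact ⟨g, h1, h2⟩
  · rintro ⟨g, hg, rfl⟩
    exact nadj_of_fix hg nadj_AC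

theorem card_G : Nat.card G = Fintype.card X * (R.k * R.h) := by
  rw [← card_stab R.A, ← Subgroup.card_top, card_orbit ⊤ R.A univ, top_inf_eq, card_univ]
  intro s
  obtain ⟨g, hg⟩ := R.tr R.A s
  exact ⟨fun _ => ⟨g, trivial, hg⟩, fun _ => mem_univ _⟩

omit [Fintype X] in
theorem one_lt_h : 1 < R.h := by
  obtain ⟨g, h1, h2⟩ := R.hH
  exact (Subgroup.one_lt_card_iff_ne_bot _).2 fun e => h1 (Subgroup.mem_bot.1 (e ▸ h2))

omit [Fintype X] in
theorem t_pos : 0 < R.t := Nat.card_pos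

theorem h_dvd_k : ∃ a, R.k = 1 + R.h * a := by
  have := dvd_card_of_free (st G R.A R.B) ((R.nb R.A).erase R.B) (fun g hg s hs => by
    rw [mem_erase, mem_nb] at *
    refine ⟨fun e => hs.1 ?_, adj_of_fix hg.1 hs.2⟩
    rw [← hg.2] at e
    exact MulAction.injective g e) (fun g hg s hs e => by
    rw [mem_erase, mem_nb] at hs
    exact R.fr hg.1 R.hAB hs.2 hg.2 e (Ne.symm hs.1))
  rw [card_erase_of_mem (mem_nb.2 R.hAB), card_nb] at this
  obtain ⟨a, ha⟩ := this
  have := two_le_k (R := R)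
  exact ⟨a, by change _ = R.h * a at ha; omega⟩

theorem h_dvd_lam : R.h ∣ R.lam :=
  dvd_card_of_free (st G R.A R.B) (R.cm R.A R.B) (fun g hg s hs => by
    rw [mem_cm] at *
    exact ⟨adj_of_fix hg.1 hs.1, adj_of_fix hg.2 hs.2⟩) (fun g hg s hs e => by
    rw [mem_cm] at hs
    exact R.fr hg.1 R.hAB hs.1 hg.2 e (adj_ne hs.2))

theorem coprime_hk : Nat.Coprime R.h R.k := by
  obtain ⟨a, ha⟩ := h_dvd_k (R := R)
  rw [ha]; simp

/-- `k = 1 + h (b + s)`, `λ = h b`, `μ = t s` -/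
theorem params : ∃ b s, R.k = 1 + R.h * (b + s) ∧ R.lam = R.h * b ∧ R.mu = R.t * s ∧ 0 < s := by
  obtain ⟨a, ha⟩ := h_dvd_k (R := R)
  obtain ⟨b, hb⟩ := h_dvd_lam (R := R)
  have h1 := mu_eq (R := R)
  have h2 := kh_eq (R := R)
  have h3 := mu_pos (R := R)
  have h4 := l_pos (R := R)
  have h5 := two_le_k (R := R)
  have h6 := one_lt_h (R := R)
  have hlt : b < a := by
    by_contra hc
    have : R.h * a ≤ R.h * b := Nat.mul_le_mul_left _ (not_lt.1 hc)
    have : R.k * R.k ≤ R.k * (R.lam + 1) := Nat.mul_le_mul_left _ (by omega)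
    have := Nat.mul_pos h4 h3
    omega
  obtain ⟨s, rfl⟩ := Nat.exists_eq_add_of_le hlt.le
  refine ⟨b, s, ha, hb, ?_, by omega⟩
  apply Nat.eq_of_mul_eq_mul_left h4
  have e : R.k * R.k = R.k * (R.lam + 1) + R.k * R.h * s := by
    nth_rewrite 2 [ha]
    rw [hb]; ring
  rw [← mul_assoc, ← h2]
  omega

end R3
end Cfsg.Agent.Frob
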