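import Cfsg.Agent.Frob.R3Semi
/-!
# The Petersen graph case
-/
set_option autoImplicit false

namespace Cfsg.Agent.Frob
open Finset
open scoped Classical

variable {G X : Type*} [Group G] [MulAction G X]

theorem alt_of_index [Finite G] (hG : Nat.card G = 60) (N : Subgroup G) (hN : Nat.card N = 12)
    (hc : N.normalCore = ⊥) : Nonempty (G ≃* alternatingGroup (Fin 5)) := by
  have h1 : Nat.card (G ⧸ N) = 5 := by
    have := Subgroup.card_eq_card_quotient_mul_card_subgroup N
    rw [hN, hG] at this
    omega
  let e : G ⧸ N ≃ Fin 5 := Finite.equivFinOfCardEq h1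
  let ψ : G →* Equiv.Perm (Fin 5) :=
    (Equiv.permCongrHom e).toMonoidHom.comp (MulAction.toPermHom G (G ⧸ N))
  have hψ : Function.Injective ψ := by
    apply (Equiv.permCongrHom e).injective.comp
    rw [← MonoidHom.ker_eq_bot_iff, ← Subgroup.normalCore_eq_ker, hc]
  have h2 : ψ.range.index = 2 := by
    have a := ψ.range.card_mul_index
    rw [← Nat.card_congr (MonoidHom.ofInjective hψ).toEquiv, hG, Nat.card_perm] at a
    simp only [Nat.card_eq_fintype_card, Fintype.card_fin] at a
    norm_num [Nat.factorial] at a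
    omega
  rw [← Equiv.Perm.eq_alternatingGroup_of_index_eq_two h2]
  exact ⟨MonoidHom.ofInjective hψ⟩

theorem card_centralizer_conj (g z : G) :
    Nat.card (Subgroup.centralizer ({g * z * g⁻¹} : Set G)) =
      Nat.card (Subgroup.centralizer ({z} : Set G)) := by
  refine (card_conj _ _ g fun x => ?_).symm
  simp only [Subgroup.mem_centralizer_singleton_iff, conj_mul, mul_left_inj, mul_right_inj]

namespace R3
variable [Fintype X] [Finite G] {R : R3 G X}

theorem petersen (hX : Fintype.card X = 10) (hG : Nat.card G = 60) (hh : R.h = 2) {z : G}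
    (hz : Invo z) (hA : z • R.A = R.A) (hB : z • R.B = R.B)
    (hc : Nat.card (Subgroup.centralizer ({z} : Set G)) = 4) (hu : 1 < (cw z R.A R.B).card) :
    Nonempty (G ≃* alternatingGroup (Fin 5)) := by
  haveI := Fintype.ofFinite G
  obtain ⟨w, hw, w', hw', hne⟩ := one_lt_card.1 hu
  have iw := inv_of_cw hz hw
  have iw' := inv_of_cw hz hw'
  rw [mem_cw] at hw hw'
  have e : w' = w * z := by
    have a : (w * w') • R.A = R.A := by rw [mul_smul, hw'.2, iw.swap hw.2]
    have b : (w * w') • R.B = R.B := by rw [mul_smul, iw'.swap hw'.2, hw.2]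
    have c := pow_h R.hAB a b
    rw [hh, sq] at c
    have d : Invo (w * w') := ⟨fun e => hne (by
      rw [← inv_eq_of_sq iw'.2]; exact eq_inv_of_mul_eq_one_left e), c⟩
    rw [← inv_uniq (R := R) (by rw [hh]; decide) d hz R.hAB a hA b hB, ← mul_assoc, iw.2, one_mul]
  subst e
  have hwz : w * z = z * w := by
    have := inv_eq_of_sq iw'.2
    rw [mul_inv_rev, inv_eq_of_sq iw.2, inv_eq_of_sq hz.2] at this
    exact this.symm
  have hzw : z ≠ w := fun e => adj_ne R.hAB (by rw [← hw.2, ← e, hA])
  have hzwz : z ≠ w * z := fun e => iw.1 (by simpa using e)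
  let V := Subgroup.centralizer ({z} : Set G)
  have hV : ∀ g, g ∈ V ↔ g * z = z * g := fun g => Subgroup.mem_centralizer_singleton_iff
  have h3 : ({z, w, w * z} : Finset G).card = 3 := card_eq_three.2 ⟨_, _, _, hzw, hzwz, hne, rfl⟩
  have h4 : insert 1 ({z, w, w * z} : Finset G) = univ.filter fun g => g ∈ V := by
    apply eq_of_subset_of_card_le
    · intro g hg
      simp only [mem_insert, mem_singleton, mem_filter, mem_univ, true_and, hV] at *
      rcases hg with rfl | rfl | rfl | rfl
      · simp
      · rfl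
      · exact hwz
      · rw [← mul_assoc, ← hwz]
    · rw [card_sub, hc, card_insert_of_notMem, h3]
      simp only [mem_insert, mem_singleton, not_or]
      exact ⟨hz.1.symm, iw.1.symm, iw'.1.symm⟩
  have hV' : ∀ g, g ∈ V ↔ g = 1 ∨ g ∈ ({z, w, w * z} : Finset G) := fun g => by
    rw [← mem_insert, h4]; simp
  have hcomm : ∀ a ∈ V, ∀ b ∈ V, a * b = b * a := by
    have hw : ∀ a ∈ V, a * w = w * a := by
      intro a ha
      simp only [hV', mem_insert, mem_singleton] at ha
      rcases ha with rfl | rfl | rfl | rfl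
      · simp
      · exact hwz.symm
      · rfl
      · rw [mul_assoc, ← hwz]
    intro a ha b hb
    have h1 := hw a ha
    have h2 := (hV a).1 ha
    simp only [hV', mem_insert, mem_singleton] at hb
    rcases hb with rfl | rfl | rfl | rfl
    · simp
    · exact h2
    · exact h1
    · rw [← mul_assoc, h1, mul_assoc, h2, mul_assoc]
  let N := Subgroup.normalizer (V : Set G)
  have hN : Nat.card N = 12 := by
    rw [card_orbit_conj N z {z, w, w * z}, h3, inf_eq_right.2 Subgroup.le_normalizer, hc]
    intro s
    constructor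
    · intro hs
      have : IsConj z s := by
        simp only [mem_insert, mem_singleton] at hs
        rcases hs with rfl | rfl | rfl
        exacts [IsConj.refl _, hw.1, hw'.1]
      obtain ⟨g, rfl⟩ := isConj_iff.1 this
      refine ⟨g, mem_norm_of_le fun x hx => ?_, rfl⟩
      have : V = Subgroup.centralizer {g * z * g⁻¹} := eq_of_le_of_card
        (fun a ha => Subgroup.mem_centralizer_singleton_iff.2
          (hcomm a ha _ ((hV' _).2 (Or.inr hs)))) (card_centralizer_conj g z).le
      rw [this, Subgroup.mem_centralizer_singleton_iff, conj_mul, conj_mul, (hV x).1 hx]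
    · rintro ⟨g, hg, rfl⟩
      exact ((hV' _).1 ((Subgroup.mem_normalizer_iff.1 hg z).1 ((hV z).2 rfl))).resolve_left
        (hz.conj g).1
  refine alt_of_index hG N hN ?_
  by_contra hne
  have h5 := card_orbit N.normalCore R.A univ (fun s =>
    ⟨fun _ => R.normal_trans _ hne _ _, fun _ => mem_univ _⟩)
  have h6 := Subgroup.card_dvd_of_le N.normalCore_le
  rw [h5, card_univ, hX, hN] at h6
  have := (Dvd.intro _ rfl).trans h6
  omega

theorem t_odd (hev : Even R.h) (hs : R.Semi) (hodd : Odd R.t) :
    Nonempty (G ≃* alternatingGroup (Fin 5)) ∧ Fintype.card X = 10 := by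
  obtain ⟨z, hz, hA, hB⟩ := exists_inv_adj hev R.hAB
  have hf : (fx z : Finset X).card = 2 := by
    rw [fx_split hz hA hB, card_eq_zero.2]
    rw [filter_eq_empty_iff]
    intro P hP e
    exact Nat.not_even_iff_odd.2 hodd (card_st_nadj (mem_nn.1 hP) ▸
      hz.even (U := st G R.A P) ⟨hA, e⟩)
  obtain ⟨m, hm, hm'⟩ := hs.exists_m
  have h1 := card_split (R := R) z
  have hc := card_cent hev hz hA
  rw [card_a1 hev hz hA, card_a2 hev hz hA hm', hf] at h1
  rw [hf] at hc
  have h2 : (cw z R.A R.B).card ≤ R.h := card_cw_le hz _ _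
  have h3 : (cw z R.A R.C).card ≤ R.t := card_cw_le hz _ _
  have h4 := card_X (R := R)
  obtain ⟨b, s, p1, p2, p3, p4⟩ := params (R := R)
  obtain ⟨s', T, q1, q2, q3, q4⟩ := hs.path hm
  have h5 := one_lt_h (R := R)
  have h6 := t_pos (R := R)
  have h7 := hs.mu_le_one
  have h8 := card_G (R := R)
  have hm2 : 2 ≤ m := by
    rw [hm'] at hev h5
    have := (Nat.even_mul.1 hev).resolve_right (Nat.not_even_iff_odd.2 hodd)
    have h2 : m ≠ 0 := by rintro rfl; simp at h5
    rw [Nat.even_iff] at this
    omega
  have h9 : (cw z R.A R.C).card * 2 * m ≤ 2 * R.h := by rw [hm']; nlinarith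
  have h10 : R.k * (m + 1) ≤ 1 + 4 * R.h := by nlinarith
  have h11 : b + s = 1 := by
    by_contra hc
    have : R.h * 2 ≤ R.h * (b + s) := Nat.mul_le_mul_left _ (by omega)
    nlinarith
  obtain rfl : s = 1 := by omega
  obtain rfl : b = 0 := by omega
  obtain rfl : m = 2 := by
    by_contra hc
    have : R.k * 4 ≤ R.k * (m + 1) := Nat.mul_le_mul_left _ (by omega)
    omega
  have hT : T = s' * s' := by nlinarith
  have hσ : R.sig = 0 := by
    rw [hT, p2, p3] at q2
    rw [p3] at q1
    have e : R.k = 2 * R.t + 1 := by omega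
    rw [e] at q1 q2
    obtain ⟨r, hr⟩ := hodd
    by_contra hc
    have : R.sig * (2 * R.sig) = R.sig * (R.t + 2) := by
      have : s' = R.t + 1 - R.sig := by omega
      zify [show R.sig ≤ R.t + 1 by omega] at this q2 ⊢
      rw [this] at q2
      linear_combination q2
    have := Nat.eq_of_mul_eq_mul_left (by omega) this
    omega
  have ht : R.t = 1 := by omega
  have hX : Fintype.card X = 10 := by omega
  have hh : R.h = 2 := by omega
  refine ⟨petersen hX (by rw [h8, hX, hh, show R.k = 3 by omega]) hh hz hA hB (by omega)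
    (by omega), hX⟩

end R3
end Cfsg.Agent.Frob
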