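import Cfsg.Agent.Frob.R3TEven
/-!
# The Clebsch graph case
-/
set_option autoImplicit false

namespace Cfsg.Agent.Frob
open Finset
open scoped Classical

variable {G X : Type*} [Group G] [MulAction G X]

/-- stabilizer of an unordered pair -/
def sw (G : Type*) {X : Type*} [Group G] [MulAction G X] (P Q : X) : Subgroup G where
  carrier := {g | (g • P = P ∧ g • Q = Q) ∨ (g • P = Q ∧ g • Q = P)}
  one_mem' := Or.inl ⟨one_smul _ _, one_smul _ _⟩
  mul_mem' := by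
    rintro a b (⟨a1, a2⟩ | ⟨a1, a2⟩) (⟨b1, b2⟩ | ⟨b1, b2⟩) <;>
      simp [mul_smul, a1, a2, b1, b2]
  inv_mem' := by
    rintro a (⟨a1, a2⟩ | ⟨a1, a2⟩)
    · exact Or.inl ⟨inv_smul_eq_iff.2 a1.symm, inv_smul_eq_iff.2 a2.symm⟩
    · exact Or.inr ⟨inv_smul_eq_iff.2 a2.symm, inv_smul_eq_iff.2 a1.symm⟩

theorem num_one {m t β s T : ℕ} (ht : 2 ≤ t) (hm : 2 ≤ m) (h1 : m = 2 * β)
    (h2 : t * t + t * β * (t * β) + T + t * β * t + t = m * t + 1 + (m * t + 1) * t) :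
    m = 2 ∧ t = 2 := by
  subst h1
  have hβ : β = 1 := by
    by_contra hc
    obtain ⟨γ, rfl⟩ : ∃ γ, β = γ + 2 := ⟨β - 2, by omega⟩
    obtain ⟨u, rfl⟩ : ∃ u, t = u + 2 := ⟨t - 2, by omega⟩
    ring_nf at h2
    omega
  subst hβ
  refine ⟨rfl, ?_⟩
  by_contra hc
  obtain ⟨u, rfl⟩ : ∃ u, t = u + 3 := ⟨t - 3, by omega⟩
  ring_nf at h2
  omega

theorem num_two {m j v β s T : ℕ} (hv : 0 < v) (hj : Odd j) (hm : Even m)
    (h0 : (m + 2) * (j + 1) + 2 * j * β = 2 * j * (m + 1))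
    (h1 : s + 2 * j * v * β + 2 * j * v = m * (2 * j * v) + 1)
    (h2 : 2 * j * v * (2 * j * v) + 2 * j * v * β * (2 * j * v * β) + T +
      2 * j * v * β * (2 * j * v) + 2 * j * v = m * (2 * j * v) + 1 +
        (m * (2 * j * v) + 1) * (2 * j * v)) (h3 : s ^ 2 ≤ (m - 1) * T) :
    j = 3 ∧ v = 1 := by
  obtain ⟨i, rfl⟩ := hj
  obtain ⟨n, rfl⟩ := hm
  have a0 : n + 1 + (2 * i + 1) * β = (2 * i + 1) * n := by nlinarith
  have a1 : β < n := by nlinarith
  obtain ⟨d, rfl⟩ : ∃ d, n = β + (d + 1) := ⟨n - β - 1, by omega⟩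
  have a2 : β + 1 = 2 * i * (d + 1) := by nlinarith
  have hi : 0 < i := by rcases i with _ | i <;> simp at a2 ⊢
  have ht : 6 ≤ 2 * (2 * i + 1) * v := by nlinarith
  generalize htt : 2 * (2 * i + 1) * v = t at *
  have a3 : 2 * (d + 1) ≤ β + 1 := by nlinarith
  have a4 : β ≤ 2 := by
    by_contra hc
    obtain ⟨γ, rfl⟩ : ∃ γ, β = γ + 3 := ⟨β - 3, by omega⟩
    have b1 : t * (t * (1 + (γ + 3) * (γ + 3) + (γ + 3))) ≤
        (2 * (γ + 3) + 2 * (d + 1)) * t + 1 + t * (t * (2 * (γ + 3) + 2 * (d + 1))) := by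
      nlinarith
    have b2 : 1 + (γ + 3) * (γ + 3) + (γ + 3) =
        (2 * (γ + 3) + (γ + 4)) + (γ * γ + 4 * γ + 3) := by ring
    have b3 : t * (t * (γ * γ + 4 * γ + 3)) ≤ (3 * γ + 10) * t + 1 := by nlinarith
    have b4 : t * (6 * (γ * γ + 4 * γ + 3)) ≤ t * (t * (γ * γ + 4 * γ + 3)) :=
      Nat.mul_le_mul_left _ (Nat.mul_le_mul_right _ ht)
    nlinarith
  have a5 : β = 1 := by
    have : (β + 1) % 2 = 0 := by rw [a2, mul_assoc]; simp
    omega
  subst a5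
  obtain rfl : d = 0 := by omega
  obtain rfl : i = 1 := by omega
  refine ⟨rfl, ?_⟩
  have : s = 2 * t + 1 := by omega
  subst this
  have : t ≤ 8 := by
    by_contra hc
    obtain ⟨u, rfl⟩ : ∃ u, t = u + 9 := ⟨t - 9, by omega⟩
    norm_num at h3
    nlinarith
  omega

namespace R3
variable [Fintype X] [Finite G] {R : R3 G X}

theorem even_fx (hev : Even R.h) {z : G} (hz : Invo z) : Even (fx z : Finset X).card := by
  haveI : Nonempty X := ⟨R.A⟩
  choose! π hπ using fun P (hP : z • P = P) => inv_partner hev hz hP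
  refine even_card_of_invol _ π (fun P hP => mem_fx.2 (hπ P (mem_fx.1 hP)).2) (fun P hP => ?_)
    (fun P hP => (adj_ne (hπ P (mem_fx.1 hP)).1).symm)
  have a := hπ P (mem_fx.1 hP)
  have b := hπ _ a.2
  by_contra hne
  exact hz.1 (R.fr a.2 b.1 (R.symm a.1) b.2 (mem_fx.1 hP) hne)

theorem H_trans' (hk : R.k = R.h + 1) {P Q S S' : X} (hQ : R.adj P Q) (hS : R.adj P S)
    (hS' : R.adj P S') (h1 : S ≠ Q) (h2 : S' ≠ Q) :
    ∃ g : G, g • P = P ∧ g • Q = Q ∧ g • S = S' :=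
  H_trans hQ ((R.nb P).erase Q) (fun s hs => ⟨mem_nb.1 (mem_erase.1 hs).2, (mem_erase.1 hs).1⟩)
    (by rw [card_erase_of_mem (mem_nb.2 hQ), card_nb, hk]; simp)
    (fun g a b s hs => mem_erase.2 ⟨fun e => (mem_erase.1 hs).1
      (MulAction.injective g (e.trans b.symm)),
      mem_nb.2 (adj_of_fix a (mem_nb.1 (mem_erase.1 hs).2))⟩)
    (mem_erase.2 ⟨h1, mem_nb.2 hS⟩) (mem_erase.2 ⟨h2, mem_nb.2 hS'⟩)

theorem Semi.gamma (hs : R.Semi) (hev : Even R.h) (hte : Even R.t) (hk : R.k = R.h + 1)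
    (h0 : R.lam = 0) (hmu : R.mu = R.t) {w : G} (hw : Invo w) {Y P E E' : X} (hY : w • Y = Y)
    (hP : R.adj Y P) (hwP : w • P ≠ P) (a1 : w • E = E) (a2 : w • E' = E') (b1 : R.adj P E)
    (b2 : R.adj P E') (c1 : E ≠ Y) (c2 : E' ≠ Y) : E = E' := by
  obtain ⟨z, hz, hA, hB⟩ := exists_inv_adj hev R.hAB
  obtain ⟨m, hm, hm'⟩ := hs.exists_m
  obtain ⟨g, e1, e2⟩ := inv_isConj hev hw hz hY hA
  let L := (R.nn R.A).filter fun E => z • E = E
  have hP' : R.adj R.A (g • P) := e1 ▸ R.inv g hP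
  have hPB : g • P ≠ R.B := fun e => hwP (by rw [← conj_fix g, e2, e, hB])
  have h1 := card_mul_eq_of_rel ((R.nb R.A).erase R.B) L R.adj
    (L.filter fun E => R.adj (g • P) E).card R.mu (fun Q hQ => by
      obtain ⟨u, u1, u2, u3⟩ := H_trans' hk R.hAB (mem_nb.1 (mem_erase.1 hQ).2) hP'
        (mem_erase.1 hQ).1 hPB
      apply card_eq_smul u
      intro S
      simp only [L, mem_filter, mem_nn]
      rw [← u3, adj_smul, ← nadj_smul u, u1, ← conj_fix u z, inv_central hev hz R.hAB hA hB u1 u2])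
    (fun S hS => by
      obtain ⟨d1, d2⟩ := mem_filter.1 hS
      rw [mem_nn] at d1
      rw [← card_cm_nadj d1]
      congr 1
      ext Q
      simp only [mem_filter, mem_erase, mem_nb, mem_cm]
      refine ⟨fun h => ⟨h.1.2, R.symm h.2⟩, fun h => ⟨⟨?_, h.1⟩, R.symm h.2⟩⟩
      rintro rfl
      exact hz.1 (R.fr hB (R.symm R.hAB) (R.symm h.2) hA d2 d1.1))
  rw [card_erase_of_mem (mem_nb.2 R.hAB), card_nb, hs.card_L hev hte hz hA hm, hmu, ← hm', hk,
    add_tsub_cancel_right] at h1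
  have h2 : (L.filter fun E => R.adj (g • P) E).card = 1 :=
    Nat.eq_of_mul_eq_mul_left (n := R.h) (by have := one_lt_h (R := R); omega) (by omega)
  have key : ∀ E, w • E = E → R.adj P E → E ≠ Y → g • E ∈ L.filter fun E => R.adj (g • P) E := by
    intro E a b c
    have d : z • g • E = g • E := by rw [← e2, conj_fix, a]
    refine mem_filter.2 ⟨mem_filter.2 ⟨mem_nn.2 ⟨fun e => c ?_, fun e => ?_⟩, d⟩, R.inv g b⟩
    · exact MulAction.injective g (e.symm.trans e1.symm)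
    · exact no_triangle h0 hP' e (R.inv g b)
  exact MulAction.injective g (card_le_one.1 h2.le _ (key E a1 b1 c1) _ (key E' a2 b2 c2))

theorem Semi.clebsch (hs : R.Semi) (hev : Even R.h) (hte : Even R.t) (hk : R.k = R.h + 1)
    (h0 : R.lam = 0) (hmu : R.mu = R.t) {z : G} (hz : Invo z) (hA : z • R.A = R.A) :
    (cw z R.A R.C).card * 2 = R.t ∨ ∃ j v, 0 < v ∧ Odd j ∧ R.t = 2 * j * v ∧
      (cw z R.A R.C).card = (j + 1) * v ∧ ¬ (j = 3 ∧ v = 1) := by
  haveI := Fintype.ofFinite G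
  let T := st G R.A R.C
  let D := sw G R.A R.C
  have hTD : T ≤ D := fun g hg => Or.inl hg
  have hD : ∀ a ∈ D, a ∉ T → a • R.A = R.C ∧ a • R.C = R.A := fun a ha h => ha.resolve_left h
  have idx : ∀ a ∈ D, ∀ b ∈ D, a ∉ T → b ∉ T → a * b ∈ T := fun a ha b hb h1 h2 =>
    ⟨by change (a * b) • R.A = R.A; rw [mul_smul, (hD b hb h2).1, (hD a ha h1).2],
     by change (a * b) • R.C = R.C; rw [mul_smul, (hD b hb h2).2, (hD a ha h1).1]⟩
  obtain ⟨y, hy, hyA, hyC⟩ := exists_inv_nadj hte (nadj_AC (R := R))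
  have huniq : ∀ w ∈ T, Invo w → w = y := fun w hw iw => by
    have := hs (inv_mul_mem hev iw hy hw.1 hyA) R.hAC (by rw [mul_smul, hyC, hw.2])
    rw [← inv_eq_of_sq hy.2]
    exact eq_inv_of_mul_eq_one_left this
  have hyc : ∀ g ∈ D, g * y = y * g := fun g hg => by
    refine mul_inv_eq_iff_eq_mul.1 (huniq _ ?_ (hy.conj g))
    rcases hg with ⟨a, b⟩ | ⟨a, b⟩
    · exact mem_st.2 ⟨by rw [← a, conj_fix, hyA], by rw [← b, conj_fix, hyC]⟩
    · exact mem_st.2 ⟨by rw [← b, conj_fix, hyC], by rw [← a, conj_fix, hyA]⟩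
  have hW : ∀ w ∈ cw z R.A R.C, Invo w ∧ w ∈ D ∧ w ∉ T := fun w hw =>
    ⟨inv_of_cw hz hw, Or.inr ⟨(mem_cw.1 hw).2, (inv_of_cw hz hw).swap (mem_cw.1 hw).2⟩,
      fun h => R.hAC (h.1.symm.trans (mem_cw.1 hw).2)⟩
  have hWc : ∀ w ∈ cw z R.A R.C, ∀ g ∈ T, g * w * g⁻¹ ∈ cw z R.A R.C := fun w hw g hg => by
    rw [mem_cw] at *
    refine ⟨hw.1.trans (isConj_iff.2 ⟨g, rfl⟩), ?_⟩
    have := conj_smul g w R.A
    rwa [hg.1, hw.2, hg.2] at this
  obtain ⟨Y, hYA, hYC⟩ := exists_common (nadj_AC (R := R))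
  have hfree : ∀ g ∈ T, g • Y = Y → g = 1 := fun g hg e =>
    R.fr e (R.symm hYA) (R.symm hYC) hg.1 hg.2 R.hAC
  obtain ⟨w0, w0Y, w0A, w0C⟩ : ∃ g : G, g • Y = Y ∧ g • R.A = R.C ∧ g • R.C = R.A := by
    obtain ⟨x, hx, e⟩ := K_trans (R.symm hYA) (R.symm hYC)
    obtain ⟨u, u1, u2, u3⟩ := H_trans' hk (R.symm hYC) (adj_of_fix (K_fix hx) (R.symm hYC))
      (R.symm hYA) (fun c => R.hAC (MulAction.injective x (e.trans c.symm))) R.hAC
    exact ⟨u * x, by rw [mul_smul, K_fix hx, u1], by rw [mul_smul, e, u2], by rw [mul_smul, u3]⟩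
  have i0 : Invo w0 := ⟨fun e => R.hAC (by rw [← w0A, e, one_smul]),
    hfree _ ⟨by change (w0 * w0) • R.A = R.A; rw [mul_smul, w0A, w0C],
      by change (w0 * w0) • R.C = R.C; rw [mul_smul, w0C, w0A]⟩ (by rw [mul_smul, w0Y, w0Y])⟩
  have m0 : w0 ∈ cw z R.A R.C := by
    obtain ⟨g, -, e⟩ := inv_isConj hev hz i0 hA w0Y
    exact mem_cw.2 ⟨isConj_iff.2 ⟨g, e⟩, w0A⟩
  have hC : ∀ g ∈ T, g * w0 = w0 * g → g = 1 ∨ g = y := by
    intro g hg e
    by_cases c : g • Y = Y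
    · exact Or.inl (hfree g hg c)
    · right
      have := hs.gamma hev hte hk h0 hmu i0 w0Y (R.symm hYA) (by rw [w0A]; exact R.hAC.symm)
        (fix_of_commute (hyc _ (hW _ m0).2.1).symm w0Y) (fix_of_commute e w0Y)
        (adj_of_fix hyA hYA) (adj_of_fix hg.1 hYA) (fun d => hy.1 (hfree y ⟨hyA, hyC⟩ d)) c
      exact (inv_mul_eq_one.1 (hfree _ (mul_mem (inv_mem (⟨hyA, hyC⟩ : y ∈ T)) hg)
        ((smul_eq_smul_iff _ _ _).1 this))).symm
  let cl : G → Finset G := fun w => univ.filter fun v => ∃ g ∈ T, g * w * g⁻¹ = v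
  have hcl : ∀ w v, v ∈ cl w ↔ ∃ g ∈ T, g * w * g⁻¹ = v := fun w v => by simp [cl]
  have hcard : ∀ w, R.t = (cl w).card * Nat.card (T ⊓ Subgroup.centralizer {w} : Subgroup G) :=
    fun w => card_orbit_conj T w (cl w) (hcl w)
  have hsub : ∀ w ∈ cw z R.A R.C, cl w ⊆ cw z R.A R.C := fun w hw v hv => by
    obtain ⟨g, hg, rfl⟩ := (hcl w v).1 hv
    exact hWc w hw g hg
  have c0 : Nat.card (T ⊓ Subgroup.centralizer {w0} : Subgroup G) = 2 := by
    rw [← card_sub' _ {1, y}, card_pair hy.1.symm]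
    intro g
    simp only [mem_insert, mem_singleton, Subgroup.mem_inf, Subgroup.mem_centralizer_singleton_iff]
    refine ⟨?_, fun h => hC g h.1 h.2⟩
    rintro (rfl | rfl)
    · simp
    · exact ⟨⟨hyA, hyC⟩, (hyc _ (hW _ m0).2.1).symm⟩
  have t0 := hcard w0
  rw [c0] at t0
  by_cases hall : cw z R.A R.C ⊆ cl w0
  · left
    rw [t0, subset_antisymm hall (hsub _ m0)]
  right
  obtain ⟨w1, m1, n1⟩ := not_subset.1 hall
  obtain ⟨k1, k2, g, hg, c, hc, ⟨n, hn⟩, k3⟩ := two_classes T D hTD idx i0 (hW _ m0).2.1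
    (hW _ m0).2.2 (hW _ m1).1 (hW _ m1).2.1 (hW _ m1).2.2 hC
    (fun g hg e => n1 ((hcl _ _).2 ⟨g, hg, e⟩))
  obtain ⟨j, hj⟩ := even_iff_two_dvd.1 (hy.even (U := T ⊓ Subgroup.centralizer {w1})
    ⟨⟨hyA, hyC⟩, Subgroup.mem_centralizer_singleton_iff.2 (hyc _ (hW _ m1).2.1).symm⟩)
  have t1 := hcard w1
  have hu : cw z R.A R.C = cl w0 ∪ cl w1 := by
    apply subset_antisymm _ (union_subset (hsub _ m0) (hsub _ m1))
    intro w hw
    rw [mem_union, hcl, hcl]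
    exact k1 w (hW w hw).2.1 (hW w hw).2.2 (hW w hw).1
  have hd : Disjoint (cl w0) (cl w1) := disjoint_left.2 fun v a' b' => by
    obtain ⟨a, ha, rfl⟩ := (hcl _ _).1 a'
    obtain ⟨b, hb, e⟩ := (hcl _ _).1 b'
    refine n1 ((hcl _ _).2 ⟨b⁻¹ * a, mul_mem (inv_mem hb) ha, ?_⟩)
    calc b⁻¹ * a * w0 * (b⁻¹ * a)⁻¹ = b⁻¹ * (a * w0 * a⁻¹) * b := by group
      _ = _ := by rw [← e]; group
  have tp := t_pos (R := R)
  rw [hj] at t1 k2
  refine ⟨j, (cl w1).card, Nat.pos_of_ne_zero fun e => ?_, ?_, by rw [t1]; ring, ?_, ?_⟩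
  · rw [e] at t1; omega
  · rw [Nat.odd_iff]; omega
  · rw [hu, card_union_of_disjoint hd]; nlinarith
  · rintro ⟨rfl, e⟩
    rw [e] at t1
    have hT : T ⊓ Subgroup.centralizer {w1} = T := eq_of_le_of_card inf_le_left (by
      rw [hj]; exact t1.le)
    have hT' : ∀ a ∈ T, a * w1 = w1 * a := fun a ha =>
      Subgroup.mem_centralizer_singleton_iff.1 (hT.ge ha).2
    have hc2 : c * c = 1 := by
      have a := pow_t nadj_AC hc.1 hc.2
      rw [t1] at a
      have b : (c * c) ^ 3 = 1 := by rw [← sq, ← pow_mul]; exact a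
      have d : (c * c) ^ 2 ^ n = 1 := by rw [← sq, ← pow_mul, mul_comm, pow_mul, hn, one_pow]
      exact eq_one_of_coprime (Nat.Coprime.pow_right n (by decide)) b d
    have hcc : ∀ a ∈ T, a * c = c * a := fun a ha => by
      by_cases e : c = 1
      · simp [e]
      · rw [huniq c hc ⟨e, hc2⟩]; exact hyc a (hTD ha)
    rw [hT' g hg, mul_inv_cancel_right] at k3
    have : T ⊓ Subgroup.centralizer {w0} = T := inf_eq_left.2 fun a ha => by
      rw [Subgroup.mem_centralizer_singleton_iff]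
      apply mul_right_cancel (b := c)
      rw [mul_assoc, ← k3, hT' a ha, k3, mul_assoc, mul_assoc, hcc a ha]
    rw [this] at c0
    change R.t = 2 at c0
    omega

set_option maxHeartbeats 3000000 in
theorem t_even (hev : Even R.h) (hs : R.Semi) (hte : Even R.t) :
    Fintype.card X = 16 ∧ Nat.card G = 320 := by
  obtain ⟨z, hz, hA, hB⟩ := exists_inv_adj hev R.hAB
  obtain ⟨m, hm, hm'⟩ := hs.exists_m
  have hf := fx_split hz hA hB
  rw [hs.card_L hev hte hz hA hm] at hf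
  have hme : Even m := by
    have := even_fx hev hz
    rw [hf] at this
    exact (Nat.even_add.1 this).2 even_two
  have h1 := card_split (R := R) z
  have h1' := h1
  rw [card_a2 hev hz hA hm', hf] at h1'
  rw [card_a1 hev hz hA, card_a2 hev hz hA hm', hf] at h1
  have h2 : (cw z R.A R.B).card ≤ R.h := card_cw_le hz _ _
  have h3 : (cw z R.A R.C).card ≤ R.t := card_cw_le hz _ _
  have h4 := card_X (R := R)
  obtain ⟨b, s, p1, p2, p3, p4⟩ := params (R := R)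
  obtain ⟨s', T, q1, q2, q3, -⟩ := hs.path hm
  have h5 := one_lt_h (R := R)
  have h6 := t_pos (R := R)
  have h8 := card_G (R := R)
  have hm2 : 2 ≤ m := by
    have h2 : m ≠ 0 := by rintro rfl; rw [hm'] at h5; simp at h5
    rw [Nat.even_iff] at hme
    omega
  have ht2 : 2 ≤ R.t := by rw [Nat.even_iff] at hte; omega
  have h9 : (cw z R.A R.C).card * (m + 2) * m ≤ R.h * (m + 2) := by
    rw [hm']
    calc _ ≤ R.t * (m + 2) * m := Nat.mul_le_mul_right _ (Nat.mul_le_mul_right _ h3)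
      _ = _ := by ring
  have h10 : R.h * ((b + s) * (m + 1)) ≤ R.h * (2 * (m + 2)) := by
    have := Nat.mul_le_mul_right (m + 2) h2
    rw [hm, p1] at h4
    nlinarith
  have h11 : b + s ≤ 2 := by
    have := Nat.le_of_mul_le_mul_left h10 (by omega)
    nlinarith
  have hb : b = 0 := by
    by_contra hc
    obtain rfl : b = 1 := by omega
    obtain rfl : s = 1 := by omega
    have := local_bound (R := R) (by omega) (by omega)
    nlinarith
  subst hb
  rw [hs.card_a1 hev hte hz hA hm p2] at h1'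
  rw [p2] at q2
  have hs1 : s = 1 := by
    by_contra hc
    obtain rfl : s = 2 := by omega
    have a1 : m * R.h ≤ m * R.sig := by
      rw [hm, p1] at h4
      nlinarith
    have a2 := Nat.le_of_mul_le_mul_left a1 (by omega)
    obtain ⟨r, hr⟩ := Nat.exists_eq_add_of_le a2
    rw [hr, p3, p1, hm'] at q2
    obtain ⟨u, hu⟩ := Nat.exists_eq_add_of_le ht2
    obtain ⟨n, rfl⟩ := Nat.exists_eq_add_of_le hm2
    rw [hu] at q2
    ring_nf at q2
    omega
  subst hs1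
  obtain ⟨β, hβ⟩ := hs.t_dvd_sig
  have e1 : R.k = m * R.t + 1 := by omega
  have e2 : (m + 2) * (cw z R.A R.C).card + R.t * β = R.t * (m + 1) := by
    apply Nat.eq_of_mul_eq_mul_left (n := m) (by omega)
    rw [hm, e1] at h4
    rw [hβ] at h1'
    nlinarith
  rw [mul_one] at p3
  rw [hβ, p3, e1] at q1 q2
  rcases hs.clebsch hev hte (by omega) p2 p3 hz hA with c | ⟨j, v, c1, c2, c3, c4, c5⟩
  · have : m = 2 * β := by
      apply Nat.eq_of_mul_eq_mul_left h6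
      nlinarith
    obtain ⟨d1, d2⟩ := num_one (s := s') (T := T) ht2 hm2 this (by omega)
    rw [d1, d2] at e1 hm'
    rw [d1, e1] at hm
    have hX : Fintype.card X = 16 := by omega
    exact ⟨hX, by rw [h8, hX, e1, hm']⟩
  · exfalso
    rw [c4, c3] at e2
    rw [c3] at q1 q2
    refine c5 (num_two (m := m) (β := β) (s := s') (T := T) c1 c2 hme ?_ q1 (by omega) q3)
    apply Nat.eq_of_mul_eq_mul_left c1
    nlinarith

end R3
end Cfsg.Agent.Frob
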