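import Cfsg.Agent.Frob.R3K
import Cfsg.Agent.Frob.Dih
/-!
# Arc stabilizer of even order: involutions, and the case of a non-semiregular kernel
-/
set_option autoImplicit false

namespace Cfsg.Agent.Frob
open Finset
open scoped Classical

variable {G X : Type*} [Group G] [MulAction G X]

theorem card_mul_le_of_inf [Finite G] {U V K : Subgroup G} (hU : U ≤ K) (hV : V ≤ K)
    (h : ∀ x ∈ U, x ∈ V → x = 1) : Nat.card U * Nat.card V ≤ Nat.card K := by
  rw [← Nat.card_prod]
  apply Nat.card_le_card_of_injective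
    (fun x : U × V => (⟨x.1 * x.2, K.mul_mem (hU x.1.2) (hV x.2.2)⟩ : K))
  rintro ⟨a, b⟩ ⟨c, d⟩ e
  have e : (a : G) * b = c * d := congrArg Subtype.val e
  have e' : (c : G)⁻¹ * a = d * (b : G)⁻¹ := by
    rw [inv_mul_eq_iff_eq_mul, ← mul_assoc, ← e, mul_inv_cancel_right]
  have h1 := h _ (U.mul_mem (U.inv_mem c.2) a.2) (e' ▸ V.mul_mem d.2 (V.inv_mem b.2))
  have h2 := h1
  rw [e', mul_inv_eq_one] at h2
  rw [inv_mul_eq_one] at h1
  exact Prod.ext (Subtype.ext h1.symm) (Subtype.ext h2.symm)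

theorem mem_of_sq_mem {U : Subgroup G} {x : G} {n : ℕ} (hn : Odd n) (hx : x ^ n = 1)
    (h : x * x ∈ U) : x ∈ U := by
  obtain ⟨m, rfl⟩ := hn
  have : x = ((x * x) ^ m)⁻¹ := by
    rw [eq_inv_iff_mul_eq_one, ← sq, ← pow_mul, ← pow_succ', hx]
  rw [this]
  exact U.inv_mem (U.pow_mem h m)

theorem star [Finite G] (z : G) (P Q : X) (S : Finset X)
    (hS : ∀ P', P' ∈ S ↔ ∃ g : G, g • P = P' ∧ g • Q = z • P') (U : Finset G)
    (hU : ∀ w, w ∈ U ↔ IsConj z w ∧ w • P = Q) :
    S.card * Nat.card (st G P Q) = U.card * Nat.card (Subgroup.centralizer ({z} : Set G)) := by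
  haveI := Fintype.ofFinite G
  have h1 := card_fib (fun g : G => (g • P, g • Q)) (st G P Q) ⊤ (fun g g' => by
    rw [Prod.mk.injEq, smul_eq_smul_iff, smul_eq_smul_iff]; rfl)
    (S.image fun P' => (P', z • P')) (fun s hs => by
      obtain ⟨P', hP', rfl⟩ := mem_image.1 hs
      obtain ⟨g, a, b⟩ := (hS P').1 hP'
      exact ⟨g, trivial, Prod.ext a b⟩) (univ.filter fun g => z • g • P = g • Q) (fun g => by
      simp only [mem_filter, mem_univ, true_and, Subgroup.mem_top, mem_image, Prod.mk.injEq]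
      exact ⟨fun h => ⟨_, (hS _).2 ⟨g, rfl, h.symm⟩, rfl, h⟩, by rintro ⟨_, -, rfl, h⟩; exact h⟩)
  have h2 := card_fib (fun g : G => g * z * g⁻¹) (Subgroup.centralizer {z}) ⊤ (fun g g' => by
    rw [Subgroup.mem_centralizer_singleton_iff]
    constructor
    · intro e
      calc g⁻¹ * g' * z = g⁻¹ * (g' * z * g'⁻¹) * g' := by group
        _ = _ := by rw [← e]; group
    · intro e
      calc g * z * g⁻¹ = g * (z * (g⁻¹ * g')) * g'⁻¹ := by group
        _ = _ := by rw [← e]; group) U (fun s hs => by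
      obtain ⟨g, hg⟩ := isConj_iff.1 ((hU s).1 hs).1
      exact ⟨g, trivial, hg⟩) (univ.filter fun g => (g * z * g⁻¹) • P = Q) (fun g => by
      simp only [mem_filter, mem_univ, true_and, Subgroup.mem_top, hU]
      exact ⟨fun h => ⟨isConj_iff.2 ⟨g, rfl⟩, h⟩, fun h => h.2⟩)
  rw [top_inf_eq] at h1 h2
  rw [card_image_of_injective _ (fun a b e => congrArg Prod.fst e)] at h1
  rw [← h1, ← h2]
  apply card_bij (fun g _ => g⁻¹)
  · intro g hg
    simp only [mem_filter, mem_univ, true_and, inv_inv] at *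
    rw [mul_smul, mul_smul, hg, inv_smul_smul]
  · intro a _ b _ e; exact inv_injective e
  · intro g hg
    refine ⟨g⁻¹, ?_, inv_inv g⟩
    simp only [mem_filter, mem_univ, true_and] at *
    rw [← hg, mul_smul, mul_smul, inv_smul_smul]

/-- involutions -/
def Invo (z : G) : Prop := z ≠ 1 ∧ z * z = 1

theorem Invo.conj {z : G} (h : Invo z) (g : G) : Invo (g * z * g⁻¹) :=
  ⟨by simpa using h.1, by rw [conj_mul, h.2]; simp⟩

theorem Invo.smul {z : G} (h : Invo z) (P : X) : z • z • P = P := by rw [← mul_smul, h.2, one_smul]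

theorem Invo.swap {z : G} (h : Invo z) {P Q : X} (e : z • P = Q) : z • Q = P := by
  rw [← e, h.smul]

theorem exists_inv [Finite G] (U : Subgroup G) (h : Even (Nat.card U)) : ∃ z ∈ U, Invo z := by
  obtain ⟨z, hz⟩ := exists_prime_orderOf_dvd_card' (G := U) 2 (even_iff_two_dvd.1 h)
  have h1 := pow_orderOf_eq_one z
  rw [hz, sq] at h1
  refine ⟨z, z.2, fun e => ?_, congrArg Subtype.val h1⟩
  have : z = 1 := Subtype.ext e
  rw [this, orderOf_one] at hz
  omega

theorem Invo.even [Finite G] {U : Subgroup G} {z : G} (h : Invo z) (hz : z ∈ U) :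
    Even (Nat.card U) := by
  by_contra hc
  rw [Nat.not_even_iff_odd] at hc
  have := pow_card_eq_one' (G := U) (x := ⟨z, hz⟩)
  exact h.1 (Subgroup.mem_bot.1 (mem_of_sq_mem hc (congrArg Subtype.val this) (h.2 ▸ one_mem _)))

namespace R3
variable [Fintype X] [Finite G] {R : R3 G X}

theorem odd_k (hev : Even R.h) : Odd R.k := by
  obtain ⟨a, ha⟩ := h_dvd_k (R := R)
  rw [ha]
  exact odd_one.add_even (hev.mul_right a)

omit [Fintype X] in
theorem exists_inv_adj (hev : Even R.h) {P Q : X} (h : R.adj P Q) :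
    ∃ z : G, Invo z ∧ z • P = P ∧ z • Q = Q := by
  obtain ⟨z, h1, h2⟩ := exists_inv (st G P Q) (by rwa [card_st_adj h])
  exact ⟨z, h2, h1⟩

omit [Fintype X] in
theorem exists_inv_fix (hev : Even R.h) (P : X) : ∃ z : G, Invo z ∧ z • P = P := by
  obtain ⟨Q, hQ⟩ := exists_adj (R := R) P
  obtain ⟨z, h1, h2, -⟩ := exists_inv_adj hev hQ
  exact ⟨z, h1, h2⟩

theorem inv_notMem (hev : Even R.h) {z : G} (hz : Invo z) (P : X) : z ∉ R.K P := fun h =>
  Nat.not_even_iff_odd.2 (odd_k hev) (by rw [← card_K P]; exact hz.even h)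

theorem inv_partner (hev : Even R.h) {z : G} (hz : Invo z) {P : X} (hP : z • P = P) :
    ∃ Q, R.adj P Q ∧ z • Q = Q := exists_fix_of_notMem hP (inv_notMem hev hz P)

theorem inv_K (hev : Even R.h) {z : G} (hz : Invo z) {P : X} (hP : z • P = P) {x : G}
    (hx : x ∈ R.K P) : z * x * z⁻¹ = x⁻¹ := by
  obtain ⟨Q, hQ, e⟩ := inv_partner hev hz hP
  obtain ⟨y, -, rfl⟩ := exists_comm hQ hP e hz.1 (R.K P) le_rfl (fun x hx => conj_mem_K' hP hx) hx
  calc z * (y⁻¹ * (z * y * z⁻¹)) * z⁻¹ = z * y⁻¹ * z⁻¹ * (z * z) * y * (z * z)⁻¹ := by group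
    _ = _ := by rw [hz.2]; group

theorem K_comm (hev : Even R.h) {P : X} {x y : G} (hx : x ∈ R.K P) (hy : y ∈ R.K P) :
    x * y = y * x := by
  obtain ⟨z, hz, hP⟩ := exists_inv_fix hev P
  have := inv_K hev hz hP (mul_mem hx hy)
  rw [← conj_mul, inv_K hev hz hP hx, inv_K hev hz hP hy, ← mul_inv_rev, inv_inj] at this
  exact this.symm

theorem inv_mul_mem (hev : Even R.h) {z z' : G} (hz : Invo z) (hz' : Invo z') {P : X}
    (hP : z • P = P) (hP' : z' • P = P) : z * z' ∈ R.K P := by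
  obtain ⟨x, hx, h1⟩ := exists_K_ne (R := R) P
  refine mem_K_of_commute (by rw [mul_smul, hP', hP]) hx h1 ?_
  have a := inv_K hev hz hP (inv_mem hx)
  have b := inv_K hev hz' hP' hx
  rw [inv_inv] at a
  calc x * (z * z') = (z * x⁻¹ * z⁻¹) * (z * z') := by rw [a]
    _ = _ := by rw [← b]; group

theorem inv_uniq (hev : Even R.h) {z z' : G} (hz : Invo z) (hz' : Invo z') {P Q : X}
    (h : R.adj P Q) (hP : z • P = P) (hP' : z' • P = P) (hQ : z • Q = Q) (hQ' : z' • Q = Q) :
    z = z' := by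
  have := K_eq_one (inv_mul_mem hev hz hz' hP hP') h (by rw [mul_smul, hQ', hQ])
  rw [← inv_eq_of_sq hz'.2]
  exact eq_inv_of_mul_eq_one_left this

theorem inv_central (hev : Even R.h) {z g : G} (hz : Invo z) {P Q : X}
    (h : R.adj P Q) (hP : z • P = P) (hQ : z • Q = Q) (gP : g • P = P) (gQ : g • Q = Q) :
    g * z * g⁻¹ = z :=
  inv_uniq hev (hz.conj g) hz h (by rw [← gP, conj_fix, hP]) hP (by rw [← gQ, conj_fix, hQ]) hQ

theorem inv_isConj (hev : Even R.h) {z z' : G} (hz : Invo z) (hz' : Invo z') {P P' : X}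
    (hP : z • P = P) (hP' : z' • P' = P') : ∃ g : G, g • P = P' ∧ g * z * g⁻¹ = z' := by
  obtain ⟨Q, hQ, e⟩ := inv_partner hev hz hP
  obtain ⟨Q', hQ', e'⟩ := inv_partner hev hz' hP'
  obtain ⟨g, rfl, rfl⟩ := R.trA hQ hQ'
  exact ⟨g, rfl, inv_uniq hev (hz.conj g) hz' hQ' ((conj_fix _ _ _).2 hP) hP'
    ((conj_fix _ _ _).2 e) e'⟩

theorem K_mul_inv (hev : Even R.h) {z x : G} (hz : Invo z) {P : X} (hP : z • P = P)
    (hx : x ∈ R.K P) : Invo (x * z) := by
  refine ⟨fun e => inv_notMem hev hz P ?_, ?_⟩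
  · rw [eq_inv_of_mul_eq_one_right e]; exact inv_mem hx
  · have := inv_K hev hz hP hx
    rw [inv_eq_of_sq hz.2] at this
    rw [mul_assoc, ← mul_assoc z, this, mul_inv_cancel]

/-- an involution fixes at most one point of an orbit of the kernel -/
theorem K_fix_of_inv (hev : Even R.h) {z x : G} (hz : Invo z) {P Q : X} (hP : z • P = P)
    (hx : x ∈ R.K P) (hQ : z • Q = Q) (e : z • x • Q = x • Q) : x • Q = Q := by
  apply mem_of_sq_mem (U := MulAction.stabilizer G Q) (odd_k hev) (pow_k hx)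
  have := conj_smul z x Q
  rw [inv_K hev hz hP hx, hQ, e, inv_smul_eq_iff, ← mul_smul] at this
  exact this.symm

theorem card_K_st {P Q P' Q' : X} (h : R.nadj P Q) (h' : R.nadj P' Q') :
    Nat.card (R.K P ⊓ MulAction.stabilizer G Q : Subgroup G) =
      Nat.card (R.K P' ⊓ MulAction.stabilizer G Q' : Subgroup G) := by
  obtain ⟨g, rfl, rfl⟩ := trN' h h'
  refine card_conj _ _ g fun x => ?_
  rw [Subgroup.mem_inf, Subgroup.mem_inf, conj_mem_K, MulAction.mem_stabilizer_iff,
    MulAction.mem_stabilizer_iff, conj_fix]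

theorem nonsemi (hev : Even R.h) {a : G} (ha : a ∈ R.K R.A) (ha1 : a ≠ 1) (haC : a • R.C = R.C) :
    Fintype.card X = 16 ∧ Nat.card G = 576 := by
  haveI := Fintype.ofFinite G
  let T := R.K R.A ⊓ MulAction.stabilizer G R.C
  have haT : a ∈ T := ⟨ha, haC⟩
  let F : Finset X := univ.filter fun S => ∀ y ∈ T, y • S = S
  have hF : ∀ S, S ∈ F ↔ ∀ y ∈ T, y • S = S := fun S => by simp [F]
  have hA : R.A ∈ F := (hF _).2 fun y hy => K_fix hy.1
  have hC : R.C ∈ F := (hF _).2 fun y hy => hy.2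
  have hTK : ∀ S ∈ F, T ≤ R.K S := fun S hS y hy => K_of_fix hy.1 ((hF S).1 hS y hy)
  have hna : ∀ P ∈ F, ∀ Q ∈ F, P ≠ Q → R.nadj P Q := fun P hP Q hQ hne =>
    nadj_of_K (hTK P hP haT) ha1 ((hF Q).1 hQ a haT) hne
  have hT : ∀ P ∈ F, ∀ Q ∈ F, P ≠ Q → T = R.K P ⊓ MulAction.stabilizer G Q :=
    fun P hP Q hQ hne => eq_of_le_of_card (fun y hy => ⟨hTK P hP hy, (hF Q).1 hQ y hy⟩)
      (card_K_st (hna P hP Q hQ hne) nadj_AC).le
  have hNF : ∀ g ∈ Subgroup.normalizer (T : Set G), ∀ P ∈ F, g • P ∈ F := by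
    intro g hg P hP
    rw [hF] at *
    intro y hy
    have : g⁻¹ * y * g ∈ T := by
      have := (Subgroup.mem_normalizer_iff.1 (Subgroup.inv_mem _ hg) y).1 hy
      rwa [inv_inv] at this
    have := hP _ this
    rwa [mul_smul, mul_smul, inv_smul_eq_iff] at this
  have hKN : ∀ P ∈ F, ∀ x ∈ R.K P, x ∈ Subgroup.normalizer (T : Set G) := fun P hP x hx =>
    mem_norm_of_le fun y hy => by
      rwa [K_comm hev hx (hTK P hP hy), mul_inv_cancel_right]
  have hIN : ∀ P ∈ F, ∀ w : G, Invo w → w • P = P → w ∈ Subgroup.normalizer (T : Set G) :=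
    fun P hP w hw e => mem_norm_of_le fun y hy => by
      rw [inv_K hev hw e (hTK P hP hy)]; exact inv_mem hy
  obtain ⟨q, hq⟩ : Nat.card T ∣ R.k := by
    rw [← card_K R.A]; exact Subgroup.card_dvd_of_le inf_le_left
  obtain ⟨τ, hτ⟩ : Nat.card T ∣ R.t :=
    Subgroup.card_dvd_of_le fun g hg => (⟨K_fix hg.1, hg.2⟩ : g ∈ st G R.A R.C)
  have ht1 : 1 < Nat.card T := (Subgroup.one_lt_card_iff_ne_bot _).2 fun e =>
    ha1 (Subgroup.mem_bot.1 (e ▸ haT))
  have hodd := odd_k hev
  rw [hq, Nat.odd_mul] at hodd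
  obtain ⟨x0, hx0, hx0'⟩ := exists_K_move (nadj_AC (R := R))
  have hq3 : 3 ≤ q := by
    have : q ≠ 1 := by
      rintro rfl
      have := eq_of_le_of_card (inf_le_left : T ≤ R.K R.A) (by rw [card_K, hq, mul_one])
      exact hx0' (this.ge hx0).2
    have := hodd.2
    rw [Nat.odd_iff] at this
    omega
  have hφ : 2 ≤ F.card := one_lt_card.2 ⟨_, hA, _, hC, R.hAC⟩
  let I : Finset G := univ.filter fun w => Invo w ∧ ∃ P ∈ F, w • P = P
  have hI : ∀ w, w ∈ I ↔ Invo w ∧ ∃ P ∈ F, w • P = P := fun w => by simp [I]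
  have count : ∀ e, (∀ w ∈ I, (F.filter fun P => w • P = P).card ≤ e + 1) →
      q * (F.card - 1 - e) ≤ (e + 1) * (F.card - 1) := by
    intro e he
    have h1 : F.card * R.k ≤ I.card * (e + 1) := by
      have a1 := sum_card_rel I F (fun w P => w • P = P)
      have a2 := sum_le_card_nsmul I _ _ he
      have a3 := card_nsmul_le_sum F (fun P => (I.filter fun w => w • P = P).card) R.k
        (fun P hP => by
          obtain ⟨z, hz, hzP⟩ := exists_inv_fix hev P
          rw [← card_K P, ← card_sub]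
          apply card_le_card_of_injOn (fun x => x * z)
          · intro x hx
            have hx := (mem_filter.1 (mem_coe.1 hx)).2
            have : (x * z) • P = P := by rw [mul_smul, hzP, K_fix hx]
            exact mem_coe.2 (mem_filter.2 ⟨(hI _).2 ⟨K_mul_inv hev hz hzP hx, P, hP, this⟩, this⟩)
          · intro x _ y _ e; exact mul_right_cancel e)
      rw [smul_eq_mul] at a2 a3
      omega
    have h2 : I.card * (F.card - 1 - e) ≤ F.card * ((F.card - 1) * Nat.card T) := by
      have a1 := sum_card_rel I F (fun w P => ¬ w • P = P)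
      have a2 := card_nsmul_le_sum I (fun w => (F.filter fun P => ¬ w • P = P).card)
        (F.card - 1 - e) (fun w hw => by
          have := card_filter_add_card_filter_not (s := F) (fun P => w • P = P)
          have := he w hw
          omega)
      have a3 := sum_le_card_nsmul F (fun P => (I.filter fun w => ¬ w • P = P).card)
        ((F.card - 1) * Nat.card T) (fun P hP => by
          rw [← card_erase_of_mem hP]
          apply card_fiber_le _ _ (fun w => w • P)
          · intro w hw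
            obtain ⟨hw, hw'⟩ := mem_filter.1 hw
            obtain ⟨hw, S, hS, e⟩ := (hI w).1 hw
            exact mem_erase.2 ⟨hw', hNF w (hIN S hS w hw e) P hP⟩
          · intro Q hQ
            obtain ⟨hQ, hQ'⟩ := mem_erase.1 hQ
            apply card_le_of_coset
            intro w hw w' hw'
            simp only [mem_filter, hI] at hw hw'
            obtain ⟨⟨⟨b1, S, hS, b2⟩, -⟩, b3⟩ := hw
            obtain ⟨⟨⟨c1, S', hS', c2⟩, -⟩, c3⟩ := hw'
            rw [hT P hP Q hQ' (Ne.symm hQ), inv_eq_of_sq b1.2]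
            refine ⟨mem_K_of_commute (by rw [mul_smul, c3, b1.swap b3]) (hTK P hP haT) ha1 ?_,
              by change (w * w') • Q = Q; rw [mul_smul, c1.swap c3, b3]⟩
            have d1 := inv_K hev b1 b2 (hTK S hS (inv_mem haT))
            have d2 := inv_K hev c1 c2 (hTK S' hS' haT)
            rw [inv_inv] at d1
            calc a * (w * w') = (w * a⁻¹ * w⁻¹) * (w * w') := by rw [d1]
              _ = _ := by rw [← d2]; group)
      rw [smul_eq_mul] at a2 a3
      omega
    apply Nat.le_of_mul_le_mul_left (c := F.card * Nat.card T) _ (by positivity)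
    calc F.card * Nat.card T * (q * (F.card - 1 - e)) = F.card * R.k * (F.card - 1 - e) := by
          rw [hq]; ring
      _ ≤ I.card * (e + 1) * (F.card - 1 - e) := Nat.mul_le_mul_right _ h1
      _ = (e + 1) * (I.card * (F.card - 1 - e)) := by ring
      _ ≤ (e + 1) * (F.card * ((F.card - 1) * Nat.card T)) := Nat.mul_le_mul_left _ h2
      _ = _ := by ring
  have hte : Even R.t := by
    by_contra hc
    have := count 0 (fun w hw => by
      rw [zero_add, card_le_one]
      intro P hP Q hQ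
      rw [mem_filter] at hP hQ
      by_contra hne
      exact hc (card_st_nadj (hna P hP.1 Q hQ.1 hne) ▸
        ((hI w).1 hw).1.even (U := st G P Q) ⟨hP.2, hQ.2⟩))
    have h2 : 3 * (F.card - 1) ≤ q * (F.card - 1) := Nat.mul_le_mul_right _ hq3
    simp only [tsub_zero, zero_add, one_mul] at this
    omega
  have hτ2 : 2 ≤ τ := by
    have h1 := t_pos (R := R)
    rw [hτ] at hte h1
    have := (Nat.even_mul.1 hte).resolve_left (Nat.not_even_iff_odd.2 hodd.1)
    have h2 : τ ≠ 0 := by rintro rfl; simp at h1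
    rw [Nat.even_iff] at this
    omega
  have hqe := count ((F.card - 1) / q) (fun w hw => by
    obtain ⟨hw, P, hP, e⟩ := (hI w).1 hw
    have h1 : (((F.filter fun P => w • P = P).erase P) ×ˢ
        (univ.filter fun x => x ∈ R.K P)).card ≤ (F.erase P).card * Nat.card T := by
      apply card_fiber_le _ _ (fun y => y.2 • y.1)
      · rintro ⟨Q, x⟩ hy
        simp only [mem_product, mem_erase, mem_filter, mem_univ, true_and] at hy ⊢
        refine ⟨fun e => hy.1.1 ?_, hNF x (hKN P hP x hy.2) Q hy.1.2.1⟩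
        rw [← K_fix hy.2] at e
        exact MulAction.injective x e
      · intro D hD
        have hinj : ∀ y y' : X × G, y.2 = y'.2 → y.2 • y.1 = y'.2 • y'.1 → y = y' := by
          rintro ⟨Q, x⟩ ⟨Q', x'⟩ rfl e
          exact Prod.ext (MulAction.injective x e) rfl
        rw [← card_image_of_injOn (f := Prod.snd) (fun y hy y' hy' e => hinj y y' e
          ((mem_filter.1 hy).2.trans (mem_filter.1 hy').2.symm))]
        apply card_le_of_coset
        intro x hx x' hx'
        simp only [mem_image, mem_product, mem_erase, mem_filter, mem_univ, true_and] at hx hx'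
        obtain ⟨⟨Q, x⟩, ⟨⟨⟨b1, b2, b3⟩, b4⟩, b5⟩, rfl⟩ := hx
        obtain ⟨⟨Q', x'⟩, ⟨⟨⟨c1, c2, c3⟩, c4⟩, c5⟩, rfl⟩ := hx'
        dsimp only at *
        rw [hT P hP Q' c2 (Ne.symm c1)]
        have d : (x⁻¹ * x') • Q' = Q := by rw [mul_smul, c5, ← b5, inv_smul_smul]
        have d' : x⁻¹ * x' ∈ R.K P := mul_mem (inv_mem b4) c4
        exact ⟨d', K_fix_of_inv hev hw e d' c3 (by rw [d, b3])⟩
    rw [card_product, card_sub, card_K, card_erase_of_mem hP, hq,
      card_erase_of_mem (s := F.filter fun P => w • P = P) (mem_filter.2 ⟨hP, e⟩)] at h1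
    have h2 : ((F.filter fun P => w • P = P).card - 1) * q ≤ F.card - 1 := by
      apply Nat.le_of_mul_le_mul_right (c := Nat.card T) _ (by omega)
      calc _ = ((F.filter fun P => w • P = P).card - 1) * (Nat.card T * q) := by ring
        _ ≤ _ := h1
    have := (Nat.le_div_iff_mul_le (by omega)).2 h2
    omega)
  let N := Subgroup.normalizer (T : Set G) ⊓ MulAction.stabilizer G R.A
  have hN1 : (F.card - 1) * R.t ≤ Nat.card N := by
    have := card_orbit_ge N R.C (F.erase R.A) (fun s hs => by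
      obtain ⟨h1, h2⟩ := mem_erase.1 hs
      obtain ⟨g, a, rfl⟩ := trN' nadj_AC (hna _ hA _ h2 (Ne.symm h1))
      refine ⟨g, ⟨mem_norm_of_le fun y hy => ?_, a⟩, rfl⟩
      rw [hT _ hA _ h2 (Ne.symm h1)]
      exact ⟨conj_mem_K' a hy.1, (conj_fix _ _ _).2 hy.2⟩)
    rw [card_erase_of_mem hA] at this
    refine le_trans (Nat.mul_le_mul_left _ (Subgroup.card_le_of_le fun g hg => ?_)) this
    refine ⟨⟨mem_norm_of_le fun y hy => ⟨conj_mem_K' hg.1 hy.1, ?_⟩, hg.1⟩, hg.2⟩
    have : (g * y * g⁻¹) • g • R.C = g • R.C := (conj_fix _ _ _).2 hy.2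
    rwa [hg.2] at this
  have hN2 := card_orbit_le N R.B (R.nb R.A) (fun g hg => mem_nb.2 (adj_of_fix hg.2 R.hAB))
  rw [card_nb] at hN2
  have hN3 : Nat.card (N ⊓ MulAction.stabilizer G R.B : Subgroup G) * Nat.card T + Nat.card T
      ≤ R.k := by
    rw [← card_K R.A, ← card_sub, ← card_sub, ← card_sub, ← card_product,
      ← card_sdiff_add_card_eq_card (s := univ.filter fun g => g ∈ T)
        (t := univ.filter fun g => g ∈ R.K R.A)
        (fun g hg => by simp only [mem_filter, mem_univ, true_and] at *; exact hg.1)]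
    apply Nat.add_le_add_right
    have hx0T : x0 ∉ T := fun h => hx0' h.2
    apply card_le_card_of_injOn (fun y => y.1 * x0 * y.1⁻¹ * y.2)
    · rintro ⟨g, y⟩ hy
      simp only [coe_product, Set.mem_prod, mem_coe, mem_filter, mem_univ, true_and,
        mem_sdiff] at hy ⊢
      refine ⟨mul_mem (conj_mem_K' hy.1.1.2 hx0) hy.2.1, fun h => hx0T ?_⟩
      rw [Subgroup.mem_normalizer_iff.1 hy.1.1.1 x0]
      simpa using mul_mem h (inv_mem hy.2)
    · rintro ⟨g, y⟩ hy ⟨g', y'⟩ hy' e
      simp only [coe_product, Set.mem_prod, mem_coe, mem_filter, mem_univ, true_and] at hy hy' e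
      have : g = g' := by
        by_contra hne
        let u := g'⁻¹ * g
        have hu : u ∈ N ⊓ MulAction.stabilizer G R.B := mul_mem (inv_mem hy'.1) hy.1
        have hu1 : u ≠ 1 := fun e => hne (inv_mul_eq_one.1 e).symm
        have h1 : x0⁻¹ * (u * x0 * u⁻¹) ∈ T := by
          have : x0⁻¹ * (u * x0 * u⁻¹) = g'⁻¹ * (y' * y⁻¹) * g'⁻¹⁻¹ := by
            calc x0⁻¹ * (u * x0 * u⁻¹) = x0⁻¹ * g'⁻¹ * (g * x0 * g⁻¹ * y) * y⁻¹ * g' := by
                  simp only [u]; group
              _ = _ := by rw [e]; group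
          rw [this]
          exact (Subgroup.mem_normalizer_iff.1 (inv_mem hy'.1.1.1) _).1
            (mul_mem hy'.2 (inv_mem hy.2))
        obtain ⟨v, hv, e'⟩ := exists_comm R.hAB hu.1.2 hu.2 hu1 T inf_le_left
          (fun x hx => (Subgroup.mem_normalizer_iff.1 hu.1.1 x).1 hx) h1
        have hxv : x0 * v⁻¹ ≠ 1 := fun e => hx0T (by rw [mul_inv_eq_one.1 e]; exact hv)
        refine hu1 (eq_one_of_commute R.hAB hu.1.2 hu.2 (mul_mem hx0 (inv_mem hv.1)) hxv ?_)
        calc x0 * v⁻¹ * u = x0 * (v⁻¹ * (u * v * u⁻¹)) * (u * v⁻¹) := by group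
          _ = _ := by rw [e']; group
      subst this
      exact Prod.ext rfl (mul_left_cancel e)
  -- arithmetic
  have he := Nat.div_mul_le_self (F.card - 1) q
  generalize (F.card - 1) / q = e at *
  obtain ⟨φ, hφ'⟩ : ∃ φ, F.card = φ + 1 := ⟨F.card - 1, by omega⟩
  rw [hφ', add_tsub_cancel_right] at hqe hN1 he
  have a1 : q ≤ e + 2 := by
    apply Nat.le_of_mul_le_mul_right (c := φ) _ (by omega)
    have : e ≤ φ := by nlinarith
    obtain ⟨r, rfl⟩ := Nat.exists_eq_add_of_le this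
    rw [add_tsub_cancel_left] at hqe
    nlinarith
  generalize Nat.card (N ⊓ MulAction.stabilizer G R.B : Subgroup G) = ν at *
  have a2 : ν + 1 ≤ q := by
    apply Nat.le_of_mul_le_mul_right (c := Nat.card T) _ (by omega)
    rw [hq] at hN3
    nlinarith
  have a3 : e * τ ≤ ν := by
    apply Nat.le_of_mul_le_mul_right (c := R.k) _ (by have := two_le_k (R := R); omega)
    calc e * τ * R.k = e * q * R.t := by rw [hq, hτ]; ring
      _ ≤ φ * R.t := Nat.mul_le_mul_right _ he
      _ ≤ _ := by rw [mul_comm ν]; omega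
  have a4 : e = 1 := by nlinarith
  subst a4
  obtain rfl : q = 3 := by omega
  obtain rfl : τ = 2 := by omega
  obtain ⟨D, d1, d2⟩ := exists_far R.hAB
  have a5 := card_mul_le_of_inf (inf_le_left : R.K D ⊓ MulAction.stabilizer G R.A ≤ _)
    (inf_le_left : R.K D ⊓ MulAction.stabilizer G R.B ≤ _)
    (fun x h1 h2 => K_eq_one (K_of_fix h1.1 h1.2) R.hAB h2.2)
  rw [card_K_st d1.symm nadj_AC, card_K_st d2.symm nadj_AC, card_K, hq] at a5
  have a6 : Nat.card T = 3 := by
    change Nat.card T * Nat.card T ≤ _ at a5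
    have : Nat.card T ≤ 3 := Nat.le_of_mul_le_mul_left a5 (by omega)
    have := hodd.1
    rw [Nat.odd_iff] at this
    omega
  rw [a6] at hq hτ
  obtain ⟨b, s, p1, p2, p3, p4⟩ := params (R := R)
  have a7 := mu_lt (R := R)
  obtain rfl : s = 1 := by rw [hτ] at p3; omega
  have a8 : 3 ≤ R.lam := by
    have b1 := card_union_add_card_inter (R.cm R.A D) (R.cm R.B D)
    have b2 : (R.cm R.A D ∪ R.cm R.B D).card ≤ (R.nb D).card := card_le_card fun S hS => by
      simp only [mem_union, mem_cm, mem_nb] at *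
      exact hS.elim And.right And.right
    have b3 : (R.cm R.A D ∩ R.cm R.B D).card ≤ (R.cm R.A R.B).card := card_le_card fun S hS => by
      simp only [mem_inter, mem_cm] at *
      exact ⟨hS.1.1, hS.2.1⟩
    rw [card_cm_nadj d1, card_cm_nadj d2] at b1
    rw [card_nb] at b2
    change _ ≤ R.lam at b3
    omega
  have a9 := k_le (R := R)
  have a10 := kh_eq (R := R)
  have a11 : R.h = 4 := by
    rw [mul_add, ← p2] at p1
    rw [hq, hτ] at a10
    rw [Nat.even_iff] at hev
    omega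
  have a12 : Fintype.card X = 16 := by
    rw [card_X (R := R)]
    rw [hq, hτ, a11] at a10
    omega
  exact ⟨a12, by rw [card_G (R := R), a12, hq, a11]⟩

end R3
end Cfsg.Agent.Frob
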