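import Cfsg.Agent.Frob.R3Main
import Cfsg.Agent.Frob.Fpf5
/-!
# Rank 3 groups with a Frobenius suborbit: the classification
-/
set_option autoImplicit false

namespace Cfsg.Agent.Frob.R3

variable {G X : Type*} [Group G] [MulAction G X] [Fintype X] [Finite G]

theorem K_nilpotent (R : R3 G X) : Group.IsNilpotent (R.K R.A) := by
  obtain ⟨p, hp, hd⟩ := Nat.exists_prime_and_dvd (one_lt_h (R := R)).ne'
  haveI := Fact.mk hp
  obtain ⟨⟨g, hg⟩, ho⟩ := exists_prime_orderOf_dvd_card' (G := st G R.A R.B) p hd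
  have h1 : g ^ p = 1 := by
    rw [← ho]; exact congrArg Subtype.val (pow_orderOf_eq_one (⟨g, hg⟩ : st G R.A R.B))
  have h2 : g ≠ 1 := by
    rintro rfl
    exact hp.one_lt.ne (by rw [← ho]; exact orderOf_one.symm)
  have h3 := map_eq_of_inv (MulAut.conj g) (U := R.K R.A) fun x hx => conj_mem_K' hg.1 hx
  refine nilpotent_of_fpf5 (resAut _ _ h3) hp ?_ fun x e => ?_
  · ext x
    rw [resAut_pow, ← map_pow, h1, map_one]; rfl
  · by_contra hx
    exact h2 (eq_one_of_commute R.hAB hg.1 hg.2 x.2 (fun e => hx (Subtype.ext e))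
      (mul_inv_eq_iff_eq_mul.1 (congrArg Subtype.val e)).symm)

theorem Om_ne_bot (R : R3 G X) (h : Even R.k) : R.Om R.A ≠ ⊥ := by
  haveI := R.K_nilpotent
  obtain ⟨v, h1, h2, h3⟩ := exists_central (K := R.K R.A) Nat.prime_two
    (by rw [card_K]; exact even_iff_two_dvd.1 h)
  intro e
  have : (v : G) ∈ R.Om R.A := ⟨v.2, by rw [← sq]; exact congrArg Subtype.val h2,
    fun y hy => (congrArg Subtype.val (Subgroup.mem_center_iff.1 h3 ⟨y, hy⟩)).symm⟩
  rw [e, Subgroup.mem_bot] at this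
  exact h1 (Subtype.ext this)

end Cfsg.Agent.Frob.R3
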