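import Cfsg.Agent.Frob.R3
/-!
# The Frobenius kernels of the point stabilizers
-/
set_option autoImplicit false

namespace Cfsg.Agent.Frob
open Finset
open scoped Classical

variable {G X : Type*} [Group G] [MulAction G X]

namespace R3
variable [Fintype X] [Finite G] (R : R3 G X)

theorem exists_K (P : X) : ∃ K : Subgroup G,
    (∀ g, g ∈ K ↔ g • P = P ∧ (g = 1 ∨ ∀ Q, R.adj P Q → g • Q ≠ Q)) ∧ Nat.card K = R.k := by
  let M := MulAction.stabilizer G P
  let Y : SubMulAction M X := ⟨{Q | R.adj P Q}, fun g Q hQ => adj_of_fix g.2 hQ⟩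
  haveI : MulAction.IsPretransitive M Y := ⟨fun a b => by
    obtain ⟨g, h1, h2⟩ := R.trA a.2 b.2
    exact ⟨⟨g, h1⟩, Subtype.ext h2⟩⟩
  obtain ⟨Q, hQ⟩ := exists_adj (R := R) P
  obtain ⟨K, hK, hc⟩ := frob_kernel (G := M) (Y := Y) ⟨Q, hQ⟩ (fun g a b ha hb hab =>
    Subtype.ext (R.fr g.2 a.2 b.2 (congrArg Subtype.val ha) (congrArg Subtype.val hb)
      fun e => hab (Subtype.ext e)))
  refine ⟨K.map M.subtype, fun g => ?_, ?_⟩
  · constructor
    · rintro ⟨g, hg, rfl⟩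
      refine ⟨g.2, ((hK g).1 hg).imp (fun e => congrArg Subtype.val e) fun h S hS e => ?_⟩
      exact h ⟨S, hS⟩ (Subtype.ext e)
    · rintro ⟨h1, h2⟩
      refine ⟨⟨g, h1⟩, (hK _).2 (h2.imp (fun e => Subtype.ext e) fun h S e => ?_), rfl⟩
      exact h S.1 S.2 (congrArg Subtype.val e)
  · rw [Subgroup.card_map_of_injective M.subtype_injective, hc, ← card_nb P,
      ← Nat.card_eq_finsetCard]
    exact Nat.card_congr (Equiv.subtypeEquivRight fun Q => mem_nb.symm)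

/-- the Frobenius kernel of the stabilizer of `P` -/
noncomputable def K (P : X) : Subgroup G := (R.exists_K P).choose

variable {R}

theorem mem_K {P : X} {g : G} :
    g ∈ R.K P ↔ g • P = P ∧ (g = 1 ∨ ∀ Q, R.adj P Q → g • Q ≠ Q) := (R.exists_K P).choose_spec.1 g

theorem card_K (P : X) : Nat.card (R.K P) = R.k := (R.exists_K P).choose_spec.2

theorem K_fix {P : X} {g : G} (h : g ∈ R.K P) : g • P = P := (mem_K.1 h).1

theorem K_eq_one {P Q : X} {g : G} (h : g ∈ R.K P) (hQ : R.adj P Q) (e : g • Q = Q) : g = 1 :=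
  (mem_K.1 h).2.resolve_right fun H => H Q hQ e

theorem exists_fix_of_notMem {P : X} {g : G} (hP : g • P = P) (h : g ∉ R.K P) :
    ∃ Q, R.adj P Q ∧ g • Q = Q := by
  rw [mem_K] at h
  push Not at h
  exact (h hP).2

theorem pow_h {P Q : X} {g : G} (h : R.adj P Q) (hP : g • P = P) (hQ : g • Q = Q) :
    g ^ R.h = 1 := by
  have := pow_card_eq_one' (G := st G P Q) (x := ⟨g, hP, hQ⟩)
  rw [card_st_adj h] at this
  exact congrArg Subtype.val this

theorem pow_t {P Q : X} {g : G} (h : R.nadj P Q) (hP : g • P = P) (hQ : g • Q = Q) :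
    g ^ R.t = 1 := by
  have := pow_card_eq_one' (G := st G P Q) (x := ⟨g, hP, hQ⟩)
  rw [card_st_nadj h] at this
  exact congrArg Subtype.val this

theorem pow_k {P : X} {g : G} (h : g ∈ R.K P) : g ^ R.k = 1 := by
  have := pow_card_eq_one' (G := R.K P) (x := ⟨g, h⟩)
  rw [card_K] at this
  exact congrArg Subtype.val this

omit [Finite G] in
theorem eq_one_of_coprime {g : G} {a b : ℕ} (h : Nat.Coprime a b) (ha : g ^ a = 1)
    (hb : g ^ b = 1) : g = 1 := by
  have := pow_gcd_eq_one.2 ⟨ha, hb⟩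
  rwa [h, pow_one] at this

theorem mem_K_of_pow {P : X} {g : G} {n : ℕ} (hP : g • P = P) (hn : Nat.Coprime R.h n)
    (hg : g ^ n = 1) : g ∈ R.K P := by
  by_contra hc
  obtain ⟨Q, hQ, e⟩ := exists_fix_of_notMem hP hc
  exact hc (eq_one_of_coprime hn (pow_h hQ hP e) hg ▸ one_mem _)

theorem mem_K' {P : X} {g : G} : g ∈ R.K P ↔ g • P = P ∧ g ^ R.k = 1 :=
  ⟨fun h => ⟨K_fix h, pow_k h⟩, fun h => mem_K_of_pow h.1 coprime_hk h.2⟩

theorem K_of_fix {P Q : X} {g : G} (h : g ∈ R.K P) (hQ : g • Q = Q) : g ∈ R.K Q :=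
  mem_K'.2 ⟨hQ, pow_k h⟩

theorem conj_mem_K (g : G) {x : G} {P : X} : g * x * g⁻¹ ∈ R.K (g • P) ↔ x ∈ R.K P := by
  rw [mem_K', mem_K', conj_fix, conj_pow, mul_inv_eq_one, mul_eq_left]

theorem conj_mem_K' {g x : G} {P : X} (hg : g • P = P) (hx : x ∈ R.K P) :
    g * x * g⁻¹ ∈ R.K P := by
  have := (conj_mem_K g).2 hx
  rwa [hg] at this

theorem K_inj {P Q : X} (hQ : R.adj P Q) {x y : G} (hx : x ∈ R.K P) (hy : y ∈ R.K P)
    (e : x • Q = y • Q) : x = y := by
  have := K_eq_one (mul_mem (inv_mem hx) hy) hQ ((smul_eq_smul_iff Q x y).1 e)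
  exact inv_mul_eq_one.1 this

theorem K_trans {P Q S : X} (hQ : R.adj P Q) (hS : R.adj P S) : ∃ x ∈ R.K P, x • Q = S := by
  haveI := Fintype.ofFinite G
  have := surj_on_of_inj_on_of_card_le (s := univ.filter fun x => x ∈ R.K P) (t := R.nb P)
    (fun x _ => x • Q) (fun x hx => mem_nb.2 (adj_of_fix (K_fix (mem_filter.1 hx).2) hQ))
    (fun x y hx hy e => K_inj hQ (mem_filter.1 hx).2 (mem_filter.1 hy).2 e)
    (by rw [card_sub, card_K, card_nb]) S (mem_nb.2 hS)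
  obtain ⟨x, hx, e⟩ := this
  exact ⟨x, (mem_filter.1 hx).2, e.symm⟩

theorem exists_K_ne (P : X) : ∃ x ∈ R.K P, x ≠ 1 := by
  have : R.K P ≠ ⊥ := by
    rw [← Subgroup.one_lt_card_iff_ne_bot, card_K]
    exact two_le_k
  by_contra hc
  push Not at hc
  exact this ((Subgroup.eq_bot_iff_forall _).2 hc)

/-- an element of an arc stabilizer centralizes no nontrivial element of the kernel -/
theorem eq_one_of_commute {P Q : X} {g x : G} (hQ : R.adj P Q) (hP : g • P = P) (e : g • Q = Q)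
    (hx : x ∈ R.K P) (hx1 : x ≠ 1) (hc : x * g = g * x) : g = 1 :=
  R.fr hP hQ (adj_of_fix (K_fix hx) hQ) e (fix_of_commute hc e)
    fun h => hx1 (K_eq_one hx hQ h.symm)

theorem mem_K_of_commute {P : X} {g x : G} (hP : g • P = P)
    (hx : x ∈ R.K P) (hx1 : x ≠ 1) (hc : x * g = g * x) : g ∈ R.K P := by
  by_contra h
  obtain ⟨Q, hQ, e⟩ := exists_fix_of_notMem hP h
  exact h (eq_one_of_commute hQ hP e hx hx1 hc ▸ one_mem _)

/-- an element of the kernel fixing all non-neighbours is trivial -/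
theorem eq_one_of_fix_nn {P : X} {x : G} (hx : x ∈ R.K P) (h : ∀ Q, R.nadj P Q → x • Q = Q) :
    x = 1 := by
  obtain ⟨Q, hQ⟩ := exists_nadj (R := R) P
  obtain ⟨S, h1, h2⟩ := exists_far' hQ
  exact K_eq_one (K_of_fix hx (h Q hQ)) h2 (h S h1)

/-- a conjugation invariant subset of the kernel fixing a non-neighbour is trivial -/
theorem eq_one_of_inv {P Q : X} (hQ : R.nadj P Q) (N : G → Prop) (h1 : ∀ x, N x → x ∈ R.K P)
    (h2 : ∀ g x, g • P = P → N x → N (g * x * g⁻¹)) (h3 : ∀ x, N x → x • Q = Q) {x : G}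
    (hx : N x) : x = 1 := by
  refine eq_one_of_fix_nn (h1 x hx) fun S hS => ?_
  obtain ⟨g, e1, rfl⟩ := trN' hS hQ
  exact (conj_fix g x S).1 (h3 _ (h2 g x e1 hx))

theorem exists_K_move {P Q : X} (hQ : R.nadj P Q) : ∃ x ∈ R.K P, x • Q ≠ Q := by
  by_contra hc
  push Not at hc
  obtain ⟨x, hx, h1⟩ := exists_K_ne (R := R) P
  exact h1 (eq_one_of_inv hQ (· ∈ R.K P) (fun _ h => h) (fun g x hg hx => conj_mem_K' hg hx) hc hx)

theorem nadj_of_K {P Q : X} {x : G} (hx : x ∈ R.K P) (h1 : x ≠ 1) (e : x • Q = Q) (hne : P ≠ Q) :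
    R.nadj P Q := ⟨hne, fun h => h1 (K_eq_one hx h e)⟩

/-- `G_P = K_P G_{PQ}` -/
theorem exists_K_mul {P Q : X} (hQ : R.adj P Q) {g : G} (hg : g • P = P) :
    ∃ x ∈ R.K P, (x * g) • Q = Q := by
  obtain ⟨x, hx, e⟩ := K_trans (adj_of_fix hg hQ) hQ
  exact ⟨x, hx, by rw [mul_smul, e]⟩

/-- commutators with a nontrivial element of an arc stabilizer cover the kernel -/
theorem exists_comm {P Q : X} {g : G} (hQ : R.adj P Q) (hP : g • P = P) (e : g • Q = Q)
    (h1 : g ≠ 1) (U : Subgroup G) (hU : U ≤ R.K P) (hg : ∀ x ∈ U, g * x * g⁻¹ ∈ U) {y : G}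
    (hy : y ∈ U) : ∃ x ∈ U, x⁻¹ * (g * x * g⁻¹) = y := by
  haveI := Fintype.ofFinite G
  have := surj_on_of_inj_on_of_card_le (s := univ.filter fun x => x ∈ U)
    (t := univ.filter fun x => x ∈ U) (fun x _ => x⁻¹ * (g * x * g⁻¹))
    (fun x hx => by
      have := (mem_filter.1 hx).2
      simpa using U.mul_mem (U.inv_mem this) (hg x this))
    (fun x y hx hy e' => by
      have hx := (mem_filter.1 hx).2
      have hy := (mem_filter.1 hy).2
      by_contra hne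
      refine h1 (eq_one_of_commute hQ hP e (hU (U.mul_mem hy (U.inv_mem hx)))
        (fun e => hne (mul_inv_eq_one.1 e).symm) ?_)
      have e'' : x⁻¹ * (g * x * g⁻¹) = y⁻¹ * (g * y * g⁻¹) := e'
      calc y * x⁻¹ * g = y * (x⁻¹ * (g * x * g⁻¹)) * (g * x⁻¹) := by group
        _ = g * (y * x⁻¹) := by rw [e'']; group) le_rfl y (by simpa using hy)
  obtain ⟨x, hx, e⟩ := this
  exact ⟨x, (mem_filter.1 hx).2, e.symm⟩

end R3
end Cfsg.Agent.Frob
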