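import Cfsg.Agent.Frob.R3K
import Cfsg.Agent.Frob.Dih
/-!
# The arc stabilizer does not have odd order
-/
set_option autoImplicit false

namespace Cfsg.Agent.Frob
open Finset
open scoped Classical

variable {G X : Type*} [Group G] [MulAction G X]

namespace R3
variable [Fintype X] [Finite G] {R : R3 G X}

theorem coprime_ht (hodd : Odd R.h) : Nat.Coprime R.h R.t := by
  by_contra hc
  obtain ⟨r, hr, h1, h2⟩ := Nat.Prime.not_coprime_iff_dvd.1 hc
  haveI := Fact.mk hr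
  obtain ⟨S, hS⟩ := exists_isSyl' r (st G R.A R.C)
  haveI : Nontrivial S := (Subgroup.nontrivial_iff_ne_bot _).2 (hS.ne_bot h2)
  haveI := hS.2.1.center_nontrivial
  obtain ⟨⟨⟨x, hxS⟩, hx⟩, hx1⟩ := exists_ne (1 : Subgroup.center S)
  have hx1 : x ≠ 1 := fun e => hx1 (Subtype.ext (Subtype.ext e))
  have hxc : ∀ y ∈ S, y * x = x * y := fun y hy =>
    congrArg Subtype.val (Subgroup.mem_center_iff.1 hx ⟨y, hy⟩)
  obtain ⟨n, hn⟩ := isPGroup_iff.1 hS.2.1 x hxS
  let F : X → Prop := fun P => ∀ y ∈ S, y • P = P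
  have huniq : ∀ P Q Q', x • P = P → R.adj P Q → R.adj P Q' → x • Q = Q → x • Q' = Q' →
      Q = Q' := fun P Q Q' a b c d e => by
    by_contra hne
    exact hx1 (R.fr a b c d e hne)
  have hex : ∀ P, F P → ∃ Q, R.adj P Q ∧ F Q := by
    intro P hP
    have : x ∉ R.K P := fun h => hx1 (eq_one_of_coprime
      (Nat.Coprime.pow_left n (Nat.Coprime.coprime_dvd_left h1 coprime_hk)) hn (pow_k h))
    obtain ⟨Q, hQ, e⟩ := exists_fix_of_notMem (hP x hxS) this
    exact ⟨Q, hQ, fun y hy => huniq P _ _ (hP x hxS) (adj_of_fix (hP y hy) hQ) hQ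
      (fix_of_commute (hxc y hy) e) e⟩
  haveI : Nonempty X := ⟨R.A⟩
  choose! π hπ using hex
  have hππ : ∀ P, F P → π (π P) = P := fun P hP =>
    huniq (π P) _ _ ((hπ P hP).2 x hxS) (hπ _ (hπ P hP).2).1 (R.symm (hπ P hP).1)
      ((hπ _ (hπ P hP).2).2 x hxS) (hP x hxS)
  have hA : F R.A := fun y hy => (hS.1 hy).1
  let F' := (R.nn R.A).filter F
  have hev : Even F'.card := by
    refine even_card_of_invol F' π (fun P hP => ?_) (fun P hP => hππ P (mem_filter.1 hP).2)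
      (fun P hP => (adj_ne (hπ P (mem_filter.1 hP).2).1).symm)
    obtain ⟨hP1, hP2⟩ := mem_filter.1 hP
    rw [mem_nn] at hP1
    refine mem_filter.2 ⟨mem_nn.2 ⟨fun e => hP1.2 ?_, fun e => hP1.1 ?_⟩, (hπ P hP2).2⟩
    · rw [e]; exact R.symm (hπ P hP2).1
    · exact huniq (π P) _ _ ((hπ P hP2).2 x hxS) (R.symm e) (R.symm (hπ P hP2).1) (hA x hxS)
        (hP2 x hxS)
  let M := MulAction.stabilizer G R.A ⊓ Subgroup.normalizer (S : Set G)
  have hMF : ∀ g ∈ M, ∀ P, F P → F (g • P) := by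
    intro g hg P hP y hy
    have : g⁻¹ * y * g ∈ S := by
      have := (Subgroup.mem_normalizer_iff.1 (Subgroup.inv_mem _ hg.2) y).1 hy
      rwa [inv_inv] at this
    have := hP _ this
    rwa [mul_smul, mul_smul, inv_smul_eq_iff] at this
  have h3 := card_orbit M R.C F' (fun s => by
    rw [mem_filter, mem_nn]
    constructor
    · rintro ⟨a, b⟩
      obtain ⟨g, e, rfl⟩ := trN' nadj_AC a
      obtain ⟨u, hu, hu', e'⟩ := IsSyl.witt (M := MulAction.stabilizer G R.A) hS e b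
      exact ⟨u, ⟨hu, hu'⟩, e'⟩
    · rintro ⟨g, hg, rfl⟩
      exact ⟨nadj_of_fix hg.1 nadj_AC, hMF g hg _ fun y hy => (hS.1 hy).2⟩)
  have h4 : M ≤ st G R.A (π R.A) := fun g hg => ⟨hg.1,
    huniq R.A _ _ (hA x hxS) (adj_of_fix hg.1 (hπ _ hA).1) (hπ _ hA).1
      (hMF g hg _ (hπ _ hA).2 x hxS) ((hπ _ hA).2 x hxS)⟩
  have h5 := Subgroup.card_dvd_of_le h4
  rw [card_st_adj (hπ _ hA).1, h3] at h5
  exact (Nat.not_even_iff_odd.2 hodd) (even_iff_two_dvd.2
    ((even_iff_two_dvd.1 hev).trans ((Dvd.intro _ rfl).trans h5)))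

theorem even_k (hodd : Odd R.h) (hG : Even (Nat.card G)) : Even R.k := by
  by_contra hk
  rw [Nat.not_even_iff_odd] at hk
  have h1 : Odd (R.k * R.h) := hk.mul hodd
  have h2 : Odd R.l := by
    rw [kh_eq] at h1
    exact (Nat.odd_mul.1 h1).1
  rw [card_G (R := R), card_X (R := R)] at hG
  refine Nat.not_even_iff_odd.2 (Odd.mul ?_ h1) hG
  rw [Nat.odd_iff] at *
  omega

theorem mem_K_of_nadj (hodd : Odd R.h) {P Q : X} (h : R.nadj P Q) {g : G} (hP : g • P = P)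
    (hQ : g • Q = Q) : g ∈ R.K P := mem_K_of_pow hP (coprime_ht hodd) (pow_t h hP hQ)

variable (R) in
/-- central involutions of the kernel -/
def Om (P : X) : Subgroup G where
  carrier := {x | x ∈ R.K P ∧ x * x = 1 ∧ ∀ y ∈ R.K P, x * y = y * x}
  one_mem' := ⟨one_mem _, one_mul _, fun y _ => by simp⟩
  mul_mem' := by
    rintro a b ⟨a1, a2, a3⟩ ⟨b1, b2, b3⟩
    refine ⟨mul_mem a1 b1, ?_, fun y hy => ?_⟩
    · rw [mul_assoc, ← mul_assoc b, ← a3 b b1, mul_assoc, b2, mul_one, a2]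
    · rw [mul_assoc, b3 y hy, ← mul_assoc, a3 y hy, mul_assoc]
  inv_mem' := by
    rintro a ⟨a1, a2, a3⟩
    rw [inv_eq_of_sq a2]
    exact ⟨a1, a2, a3⟩

theorem mem_Om {P : X} {x : G} :
    x ∈ R.Om P ↔ x ∈ R.K P ∧ x * x = 1 ∧ ∀ y ∈ R.K P, x * y = y * x := Iff.rfl

theorem conj_mem_Om (g : G) {x : G} {P : X} (h : x ∈ R.Om P) : g * x * g⁻¹ ∈ R.Om (g • P) := by
  refine ⟨(conj_mem_K g).2 h.1, ?_, fun y hy => ?_⟩
  · rw [conj_mul, h.2.1]; simp
  · have : g⁻¹ * y * g ∈ R.K P := by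
      rw [← conj_mem_K g]; simpa [mul_assoc] using hy
    have := h.2.2 _ this
    calc g * x * g⁻¹ * y = g * (x * (g⁻¹ * y * g)) * g⁻¹ := by group
      _ = _ := by rw [this]; group

theorem conj_mem_Om' {g x : G} {P : X} (hg : g • P = P) (h : x ∈ R.Om P) :
    g * x * g⁻¹ ∈ R.Om P := by
  have := conj_mem_Om g h
  rwa [hg] at this

theorem card_Om (P Q : X) : Nat.card (R.Om P) = Nat.card (R.Om Q) := by
  obtain ⟨g, rfl⟩ := R.tr P Q
  refine card_conj _ _ g fun x => ⟨conj_mem_Om g, fun h => ?_⟩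
  simpa [mul_assoc] using conj_mem_Om g⁻¹ h

theorem h_dvd_Om (P : X) : R.h ∣ Nat.card (R.Om P) - 1 := by
  haveI := Fintype.ofFinite G
  rw [card_Om P R.A]
  have := dvd_card_of_free_conj (st G R.A R.B) ((univ.filter fun x => x ∈ R.Om R.A).erase 1)
    (fun g hg s hs => by
      simp only [mem_erase, mem_filter, mem_univ, true_and] at *
      exact ⟨by simpa using hs.1, conj_mem_Om' hg.1 hs.2⟩)
    (fun g hg s hs e => by
      simp only [mem_erase, mem_filter, mem_univ, true_and] at *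
      exact eq_one_of_commute R.hAB hg.1 hg.2 hs.2.1 hs.1 (mul_inv_eq_iff_eq_mul.1 e).symm)
  rwa [card_erase_of_mem (by simp), card_sub] at this

theorem exists_Om (h : R.Om R.A ≠ ⊥) (P : X) : ∃ x ∈ R.Om P, x ≠ 1 := by
  have : R.Om P ≠ ⊥ := by
    rw [← Subgroup.one_lt_card_iff_ne_bot] at *
    rwa [card_Om P R.A]
  by_contra hc
  push Not at hc
  exact this ((Subgroup.eq_bot_iff_forall _).2 hc)

theorem exists_Om_move (h : R.Om R.A ≠ ⊥) {P Q : X} (hQ : P ≠ Q) : ∃ x ∈ R.Om P, x • Q ≠ Q := by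
  by_contra hc
  push Not at hc
  obtain ⟨x, hx, h1⟩ := exists_Om h P
  exact h1 (eq_one_of_inv (nadj_of_K hx.1 h1 (hc x hx) hQ) (· ∈ R.Om P) (fun _ h => h.1)
    (fun g x hg hx => conj_mem_Om' hg hx) hc hx)

theorem exists_Om_fix (hodd : Odd R.h) (h : R.Om R.A ≠ ⊥) {P Q : X} (hPQ : R.nadj P Q) :
    ∃ x ∈ R.Om P, x ≠ 1 ∧ x • Q = Q := by
  by_contra hc
  push Not at hc
  have hu : ∀ {P Q : X} {x : G}, x ∈ R.Om P → x ≠ 1 → x • Q = Q → Q = P := by
    intro P' Q' x hx h1 e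
    by_contra hne
    obtain ⟨g, rfl, rfl⟩ := trN' (nadj_of_K hx.1 h1 e (Ne.symm hne)) hPQ
    exact hc _ (conj_mem_Om g hx) (by simpa using h1) ((conj_fix _ _ _).2 e)
  obtain ⟨x, hx, hx1⟩ := exists_Om h R.A
  have key : ∀ y ∈ R.Om R.C, y ≠ 1 → ∃ w : G, w * w = 1 ∧ w * x * w⁻¹ = y ∧ w • R.A = R.C ∧
      w • R.C = R.A := by
    intro y hy hy1
    rcases dih hx.2.1 hy.2.1 with ⟨w, h1, h2, -⟩ | ⟨z, h1, h2, h3, h4, g, h5⟩
    · have : w • R.A = R.C := hu hy hy1 (by rw [← h2, conj_fix]; exact K_fix hx.1)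
      exact ⟨w, h1, h2, this, by rw [← this, ← mul_smul, h1, one_smul]⟩
    · exfalso
      have a1 : z • R.A = R.A := hu hx hx1 (fix_of_commute h3 (K_fix hx.1))
      have a2 : z • R.C = R.C := hu hy hy1 (fix_of_commute h4 (K_fix hy.1))
      have a3 : ∃ D, x * z ∈ R.Om D ∧ x * z ≠ 1 := by
        rcases h5 with h5 | h5
        · exact ⟨_, h5 ▸ conj_mem_Om g hx, by rw [← h5]; simpa using hx1⟩
        · exact ⟨_, h5 ▸ conj_mem_Om g hy, by rw [← h5]; simpa using hy1⟩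
      obtain ⟨D, a3, a4⟩ := a3
      have a5 : R.A = D := hu a3 a4 (by rw [mul_smul, a1, K_fix hx.1])
      subst a5
      have : z ∈ R.Om R.A := by simpa using mul_mem (inv_mem hx) a3
      exact R.hAC (hu this h1 a2).symm
  have hle : Nat.card (R.Om R.C) - 1 ≤ 1 := by
    haveI := Fintype.ofFinite G
    rw [← card_sub, ← card_erase_of_mem (a := 1) (by simp), card_le_one]
    intro y hy y' hy'
    simp only [mem_erase, mem_filter, mem_univ, true_and] at *
    obtain ⟨w, a1, a2, a3, a4⟩ := key y hy.2 hy.1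
    obtain ⟨w', b1, b2, b3, b4⟩ := key y' hy'.2 hy'.1
    have := hx.2.2 _ (mem_K_of_nadj hodd nadj_AC (g := w' * w) (by rw [mul_smul, a3, b4])
      (by rw [mul_smul, a4, b3]))
    rw [← a2, ← b2]
    calc w * x * w⁻¹ = w'⁻¹ * (w' * w * x) * w⁻¹ := by group
      _ = w'⁻¹ * x * w' := by rw [← this]; group
      _ = _ := by rw [inv_eq_of_sq b1]
  have h2 := h_dvd_Om (R := R) R.C
  have h3 : 1 < Nat.card (R.Om R.C) := by
    rw [card_Om R.C R.A]; exact (Subgroup.one_lt_card_iff_ne_bot _).2 h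
  have := Nat.le_of_dvd (by omega) h2
  have := one_lt_h (R := R)
  omega

/-- the index of the stabilizer in `Ω` is two, and it lies in the other `Ω` -/
theorem index_two (hodd : Odd R.h) (h : R.Om R.A ≠ ⊥) {P Q : X} (hPQ : R.nadj P Q) :
    (∀ x ∈ R.Om Q, ∀ x' ∈ R.Om Q, x • P ≠ P → x' • P ≠ P → (x' * x) • P = P) ∧
    ∀ x ∈ R.Om P, x • Q = Q → x ∈ R.Om Q := by
  let T := st G P Q
  let F : X → Prop := fun S => ∀ y ∈ T, y • S = S
  obtain ⟨a, ha, ha1, ha2⟩ := exists_Om_fix hodd h hPQ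
  have haT : a ∈ T := ⟨K_fix ha.1, ha2⟩
  have hTK : ∀ S, F S → ∀ y ∈ T, y ∈ R.K S := fun S hS y hy =>
    K_of_fix (mem_K_of_nadj hodd hPQ hy.1 hy.2) (hS y hy)
  have hT : ∀ S S', F S → F S' → S ≠ S' → ∀ g : G, g • S = S → g • S' = S' → g ∈ T := by
    intro S S' h1 h2 hne g a b
    have : T = st G S S' := eq_of_le_of_card (fun y hy => ⟨h1 y hy, h2 y hy⟩) (by
      rw [card_st_nadj hPQ, card_st_nadj (nadj_of_K (hTK S h1 _ haT) ha1 (h2 _ haT) hne)])
    rw [this]; exact ⟨a, b⟩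
  have hP : F P := fun y hy => hy.1
  have hQ : F Q := fun y hy => hy.2
  have hOF : ∀ S, F S → ∀ x ∈ R.Om S, ∀ S', F S' → F (x • S') := fun S hS x hx S' hS' y hy =>
    fix_of_commute (hx.2.2 y (hTK S hS y hy)) (hS' y hy)
  have hfib : ∀ S S', F S → F S' → ∀ x ∈ R.Om S, ∀ x' ∈ R.Om S', x • P ≠ P → x • P = x' • P →
      S = S' ∧ (x' * x) • P = P := by
    intro S S' hS hS' x hx x' hx' h1 e
    have e1 : (x' * x) • P = P := by rw [mul_smul, e, ← mul_smul, hx'.2.1, one_smul]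
    have e2 : (x' * x) • x • P = x • P := by
      rw [mul_smul, ← mul_smul x x, hx.2.1, one_smul, e]
    have := hT _ _ hP (hOF S hS x hx P hP) h1.symm _ e1 e2
    refine ⟨?_, e1⟩
    by_contra hne
    have e3 : x' • S = S := by
      have := hS _ this
      rwa [mul_smul, K_fix hx.1] at this
    exact h1 (e.trans (hT _ _ hS hS' hne x' e3 (K_fix hx'.1)).1)
  haveI : Nonempty G := ⟨1⟩
  choose! ξ hξ using fun S (hS : S ≠ P) => exists_Om_move h hS
  let F' := (univ.erase P).filter F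
  have hF' : ∀ S, S ∈ F' ↔ S ≠ P ∧ F S := fun S => by simp [F']
  have hsurj : ∀ D, D ≠ P → F D → ∃ S, S ≠ P ∧ F S ∧ ξ S • P = D := by
    intro D h1 h2
    obtain ⟨S, hS, e⟩ := surj_on_of_inj_on_of_card_le (s := F') (t := F') (fun S _ => ξ S • P)
      (fun S hS => by
        rw [hF'] at *
        exact ⟨(hξ S hS.1).2, hOF S hS.2 _ (hξ S hS.1).1 P hP⟩)
      (fun S S' hS hS' e => by
        rw [hF'] at *
        exact (hfib S S' hS.2 hS'.2 _ (hξ S hS.1).1 _ (hξ S' hS'.1).1 (hξ S hS.1).2 e).1)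
      le_rfl D ((hF' D).2 ⟨h1, h2⟩)
    rw [hF'] at hS
    exact ⟨S, hS.1, hS.2, e.symm⟩
  constructor
  · have : ∀ x ∈ R.Om Q, x • P ≠ P → x • P = ξ Q • P := by
      intro x hx h1
      obtain ⟨S, a, b, c⟩ := hsurj _ h1 (hOF Q hQ x hx P hP)
      obtain ⟨rfl, -⟩ := hfib _ _ hQ b x hx _ (hξ S a).1 h1 c.symm
      exact c.symm
    intro x hx x' hx' h1 h2
    rw [mul_smul, this x hx h1, ← this x' hx' h2, ← mul_smul, hx'.2.1, one_smul]
  · intro x hx e
    obtain ⟨S, a, b, c⟩ := hsurj Q hPQ.1.symm hQ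
    have := conj_mem_Om (ξ S) hx
    rwa [c, (hξ S a).1.2.2 x (hTK S b x ⟨K_fix hx.1, e⟩), mul_inv_cancel_right] at this

theorem card_Om_four (hodd : Odd R.h) (h : R.Om R.A ≠ ⊥) (P : X) :
    Nat.card (R.Om P) = 4 ∧ R.h = 3 := by
  obtain ⟨D, h1, h2⟩ := exists_far R.hAB
  have hle : Nat.card (R.Om D) ≤ 4 := by
    have : Nat.card (Bool × Bool) = 4 := by simp
    rw [← this]
    apply Nat.card_le_card_of_injective
      (fun x : R.Om D => (decide ((x : G) • R.A = R.A), decide ((x : G) • R.B = R.B)))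
    intro x y e
    simp only [Prod.mk.injEq, decide_eq_decide] at e
    have key : ∀ S, R.nadj S D → ((x : G) • S = S ↔ (y : G) • S = S) → ((y : G) * x) • S = S := by
      intro S hS e
      by_cases a : (x : G) • S = S
      · rw [mul_smul, a, e.1 a]
      · exact (index_two hodd h hS).1 _ x.2 _ y.2 a (fun b => a (e.2 b))
    have := pow_h R.hAB (key _ h1 e.1) (key _ h2 e.2)
    have h3 := eq_one_of_coprime (Nat.Coprime.symm ((Nat.coprime_two_left).2 hodd)) this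
      (by rw [sq]; exact (mul_mem y.2 x.2).2.1)
    apply Subtype.ext
    rw [← inv_eq_of_sq y.2.2.1]
    exact (eq_inv_of_mul_eq_one_right h3)
  rw [card_Om D P] at hle
  have h3 := h_dvd_Om (R := R) P
  have h4 : 1 < Nat.card (R.Om P) := by
    rw [card_Om P R.A]; exact (Subgroup.one_lt_card_iff_ne_bot _).2 h
  have h5 := Nat.le_of_dvd (by omega) h3
  have h6 := one_lt_h (R := R)
  rw [Nat.odd_iff] at hodd
  omega

theorem Om_gen (hodd : Odd R.h) (h : R.Om R.A ≠ ⊥) {P : X} {a b : G} (ha : a ∈ R.Om P)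
    (hb : b ∈ R.Om P) (ha1 : a ≠ 1) (hb1 : b ≠ 1) (hab : a ≠ b) (U : Subgroup G) (h1 : a ∈ U)
    (h2 : b ∈ U) : R.Om P ≤ U := by
  have hd := Subgroup.card_dvd_of_le (inf_le_left : R.Om P ⊓ U ≤ R.Om P)
  rw [(card_Om_four hodd h P).1] at hd
  have h3 : 3 ≤ Nat.card (R.Om P ⊓ U : Subgroup G) := by
    haveI := Fintype.ofFinite G
    rw [← card_sub]
    have : ({1, a, b} : Finset G).card = 3 := card_eq_three.2 ⟨1, a, b, ha1.symm, hb1.symm, hab, rfl⟩
    rw [← this]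
    apply card_le_card
    intro x hx
    simp only [mem_insert, mem_singleton, mem_filter, mem_univ, true_and] at *
    rcases hx with rfl | rfl | rfl
    · exact one_mem _
    · exact ⟨ha, h1⟩
    · exact ⟨hb, h2⟩
  have h4 : Nat.card (R.Om P ⊓ U : Subgroup G) = 4 := by
    have := Nat.le_of_dvd (by norm_num) hd
    interval_cases Nat.card (R.Om P ⊓ U : Subgroup G)
    · omega
    · rfl
  have := eq_of_le_of_card (inf_le_left : R.Om P ⊓ U ≤ R.Om P)
    (by rw [h4, (card_Om_four hodd h P).1])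
  exact this.ge.trans inf_le_right

theorem Om_uniq (hodd : Odd R.h) (h : R.Om R.A ≠ ⊥) {P Q : X} (hne : P ≠ Q) {a b : G}
    (ha : a ∈ R.Om P) (hb : b ∈ R.Om P) (ha1 : a ≠ 1) (hb1 : b ≠ 1) (e1 : a • Q = Q)
    (e2 : b • Q = Q) : a = b := by
  by_contra hab
  obtain ⟨x, hx, h1⟩ := exists_Om_move h hne
  exact h1 (Om_gen hodd h ha hb ha1 hb1 hab (MulAction.stabilizer G Q) e1 e2 hx)

theorem triangle (hodd : Odd R.h) (h : R.Om R.A ≠ ⊥) {P Q S : X} (h1 : R.nadj P Q)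
    (h2 : R.nadj P S) (h3 : R.nadj Q S) {a : G} (ha : a ∈ R.Om P) (ha1 : a ≠ 1)
    (e : a • Q = Q) : a • S = S := by
  obtain ⟨b, hb, hb1, eb⟩ := exists_Om_fix hodd h h2
  obtain ⟨y, hy, hy1, ey⟩ := exists_Om_fix hodd h h3
  by_cases hab : a = b
  · rwa [hab]
  have haQ := (index_two hodd h h1).2 a ha e
  have hbS := (index_two hodd h h2).2 b hb eb
  have hyS := (index_two hodd h h3).2 y hy ey
  have hc := Om_gen hodd h ha hb ha1 hb1 hab (Subgroup.centralizer {y})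
    (Subgroup.mem_centralizer_singleton_iff.2 (haQ.2.2 y hy.1))
    (Subgroup.mem_centralizer_singleton_iff.2 (hbS.2.2 y hyS.1))
  have hyP : y • P = P := by
    by_contra hne
    obtain ⟨x, hx, h4⟩ := exists_Om_move h (Ne.symm hne)
    exact h4 (fix_of_commute (Subgroup.mem_centralizer_singleton_iff.1 (hc hx)).symm
      (K_fix hx.1))
  rw [Om_uniq hodd h h1.1.symm haQ hy ha1 hy1 (K_fix ha.1) hyP, ey]

theorem not_odd (h : R.Om R.A ≠ ⊥) : ¬ Odd R.h := by
  intro hodd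
  haveI := Fintype.ofFinite G
  haveI : Nonempty G := ⟨1⟩
  choose! a ha using fun Q (hQ : R.nadj R.A Q) => exists_Om_fix hodd h hQ
  let W := (univ.filter fun x => x ∈ R.Om R.A).erase 1
  have hW : W.card = 3 := by
    rw [card_erase_of_mem (by simp), card_sub, (card_Om_four hodd h _).1]
  have haW : ∀ Q, R.nadj R.A Q → a Q ∈ W := fun Q hQ => by
    simp only [W, mem_erase, mem_filter, mem_univ, true_and]
    exact ⟨(ha Q hQ).2.1, (ha Q hQ).1⟩
  have heq : ∀ Q S, R.nadj R.A Q → R.nadj R.A S → (a S = a Q ↔ ¬ R.adj Q S) := by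
    intro Q S hQ hS
    constructor
    · intro e hadj
      exact (ha Q hQ).2.1 (K_eq_one (K_of_fix (ha Q hQ).1.1 (ha Q hQ).2.2) hadj
        (e ▸ (ha S hS).2.2))
    · intro hn
      by_cases e : Q = S
      · rw [e]
      exact Om_uniq hodd h hS.1 (ha S hS).1 (ha Q hQ).1 (ha S hS).2.1 (ha Q hQ).2.1 (ha S hS).2.2
        (triangle hodd h hQ hS ⟨e, hn⟩ (ha Q hQ).1 (ha Q hQ).2.1 (ha Q hQ).2.2)
  have hk := mu_lt (R := R)
  -- the fibres of `a`
  have hfib : ∀ Q, R.nadj R.A Q →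
      ((R.nn R.A).filter fun S => a S = a Q).card + (R.k - R.mu) = R.l := by
    intro Q hQ
    have h1 := card_nb_nn_nadj hQ
    have h2 := card_filter_add_card_filter_not (s := R.nn R.A) (fun S => R.adj Q S)
    have : ((R.nn R.A).filter fun S => a S = a Q) = (R.nn R.A).filter fun S => ¬ R.adj Q S :=
      filter_congr fun S hS => heq Q S hQ (mem_nn.1 hS)
    rw [this]
    change _ = R.l at h2
    omega
  have hl : R.l = ((R.nn R.A).image a).card * (R.l - (R.k - R.mu)) := by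
    apply card_fiber_mul (R.nn R.A) _ a _ (fun Q hQ => mem_image_of_mem a hQ)
    intro b hb
    obtain ⟨Q, hQ, rfl⟩ := mem_image.1 hb
    have := hfib Q (mem_nn.1 hQ)
    omega
  have hc : ((R.nn R.A).image a).card ≤ 3 := by
    rw [← hW]
    apply card_le_card
    intro b hb
    obtain ⟨Q, hQ, rfl⟩ := mem_image.1 hb
    exact haW Q (mem_nn.1 hQ)
  have hfar : ∀ B, R.adj R.A B → ((R.nn R.A).filter fun S => ¬ R.adj S B).card ≤ 3 := by
    intro B hB
    rw [← hW]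
    apply card_le_card_of_injOn a
    · intro Q hQ
      exact haW Q (mem_nn.1 (mem_filter.1 hQ).1)
    · intro Q hQ S hS e
      have hQ := mem_filter.1 (mem_coe.1 hQ)
      have hS := mem_filter.1 (mem_coe.1 hS)
      rw [mem_nn] at hQ hS
      by_contra hne
      have n1 : R.nadj Q S := ⟨hne, (heq Q S hQ.1 hS.1).1 e.symm⟩
      have n2 : R.nadj Q B := ⟨fun e => hQ.1.2 (e ▸ hB), hQ.2⟩
      have n3 : R.nadj S B := ⟨fun e => hS.1.2 (e ▸ hB), hS.2⟩
      have := triangle hodd h n1 n2 n3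
        ((index_two hodd h hQ.1).2 _ (ha Q hQ.1).1 (ha Q hQ.1).2.2) (ha Q hQ.1).2.1
        (e ▸ (ha S hS.1).2.2)
      exact (ha Q hQ.1).2.1 (K_eq_one (ha Q hQ.1).1.1 hB this)
  have hsum := sum_card_rel (R.nn R.A) (R.nb R.A) (fun S B => ¬ R.adj S B)
  have h1 : ∑ S ∈ R.nn R.A, ((R.nb R.A).filter fun B => ¬ R.adj S B).card =
      R.l * (R.k - R.mu) := by
    rw [sum_congr rfl (g := fun _ => R.k - R.mu), sum_const, smul_eq_mul]; rfl
    intro S hS
    have h2 := card_filter_add_card_filter_not (s := R.nb R.A) (fun B => R.adj S B)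
    have h3 : ((R.nb R.A).filter fun B => R.adj S B) = R.cm R.A S := by
      ext B; simp
    rw [h3, card_cm_nadj (mem_nn.1 hS), card_nb] at h2
    omega
  have h2 : ∑ B ∈ R.nb R.A, ((R.nn R.A).filter fun S => ¬ R.adj S B).card ≤ R.k * 3 := by
    have := sum_le_card_nsmul (R.nb R.A) _ 3 fun B hB => hfar B (mem_nb.1 hB)
    rwa [card_nb, smul_eq_mul] at this
  have h3 := kh_eq (R := R)
  obtain ⟨b, s, p1, p2, p3, p4⟩ := params (R := R)
  rw [(card_Om_four hodd h R.A).2] at h3 p1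
  have h4 : R.k - R.mu ≤ R.t := by
    apply Nat.le_of_mul_le_mul_left _ (l_pos (R := R))
    omega
  have h5 : R.t ∣ R.k := by
    rw [← card_K R.A]
    exact Subgroup.card_dvd_of_le fun g hg => mem_K_of_nadj hodd nadj_AC hg.1 hg.2
  have h6 : R.k - R.mu = R.t :=
    le_antisymm h4 (Nat.le_of_dvd (by omega) (Nat.dvd_sub h5 ⟨s, p3⟩))
  rw [h6] at hl
  have h7 := t_pos (R := R)
  have h8 := l_pos (R := R)
  obtain ⟨e, he⟩ := h5
  generalize ((R.nn R.A).image a).card = c at hl hc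
  generalize R.l = l at *
  generalize R.t = t at *
  generalize R.k = k at *
  have h9 : l = 3 * e := by
    apply Nat.eq_of_mul_eq_mul_right h7
    rw [← h3, he]; ring
  interval_cases c
  · omega
  · omega
  · have : t = 3 * (t - e) := by omega
    rw [this, mul_assoc] at he
    omega
  · have h10 : t = 2 * e := by omega
    subst h10
    have : e % 3 = 0 ∨ e % 3 = 1 ∨ e % 3 = 2 := by omega
    have h11 : (2 * e * e) % 3 = 1 := by omega
    rcases this with a | a | a <;> simp [Nat.mul_mod, a] at h11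

end R3
end Cfsg.Agent.Frob
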