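import Cfsg.Agent.Frob.R3Cleb
import Cfsg.Agent.Frob.R3A5
import Cfsg.Agent.Frob.R3Odd
/-!
# Rank 3 groups with a Frobenius suborbit
-/
set_option autoImplicit false

namespace Cfsg.Agent.Frob
open Finset
open scoped Classical

variable {G X : Type*} [Group G] [MulAction G X]

namespace R3
variable [Fintype X] [Finite G] {R : R3 G X}

theorem affine (R : R3 G X) [hs : Group.IsSolvable G] :
    ∃ N : Subgroup G, N.Normal ∧ Nat.card N = Fintype.card X ∧
      ∀ x y : X, ∃! n : N, (n : G) • x = y := by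
  have hex : ∃ n, derivedSeries G n = ⊥ := hs.solvable
  have h0 : Nat.find hex ≠ 0 := by
    intro e
    have := Nat.find_spec hex
    rw [e, derivedSeries_zero] at this
    obtain ⟨g, h1, -⟩ := R.hH
    exact h1 (Subgroup.mem_bot.1 (this ▸ Subgroup.mem_top g))
  obtain ⟨n, hn⟩ := Nat.exists_eq_succ_of_ne_zero h0
  have h1 : derivedSeries G n ≠ ⊥ := Nat.find_min hex (by omega)
  have h2 := Nat.find_spec hex
  rw [hn, derivedSeries_succ, Subgroup.commutator_eq_bot_iff_le_centralizer] at h2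
  haveI := derivedSeries_normal G n
  have hfree : ∀ g ∈ derivedSeries G n, ∀ x : X, g • x = x → g = 1 := fun g hg x e =>
    R.faith g fun y => by
      obtain ⟨a, ha, rfl⟩ := R.normal_trans _ h1 x y
      exact fix_of_commute (Subgroup.mem_centralizer_iff.1 (h2 hg) a ha) e
  refine ⟨derivedSeries G n, inferInstance, ?_, fun x y => ?_⟩
  · rw [card_orbit _ R.A univ (fun s => ⟨fun _ => R.normal_trans _ h1 _ _, fun _ => mem_univ _⟩),
      (Subgroup.eq_bot_iff_forall (derivedSeries G n ⊓ MulAction.stabilizer G R.A)).2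
        fun g hg => hfree g hg.1 R.A hg.2, Subgroup.card_bot,
      mul_one, card_univ]
  · obtain ⟨a, ha, e⟩ := R.normal_trans _ h1 x y
    refine ⟨⟨a, ha⟩, e, fun b hb => Subtype.ext ?_⟩
    exact inv_mul_eq_one.1 (hfree _ (mul_mem (inv_mem b.2) ha) x
      ((smul_eq_smul_iff _ _ _).1 (hb.trans e.symm)))

theorem main (R : R3 G X) (hG : Even (Nat.card G)) (hT : Even R.k → R.Om R.A ≠ ⊥) :
    (Nonempty (G ≃* alternatingGroup (Fin 5)) ∧ Fintype.card X = 10) ∨
    (Group.IsSolvable G ∧ ∃ N : Subgroup G, N.Normal ∧ Nat.card N = 16 ∧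
      ∀ x y : X, ∃! n : N, (n : G) • x = y) := by
  have hev : Even R.h := by
    by_contra hc
    rw [Nat.not_even_iff_odd] at hc
    exact not_odd (hT (even_k hc hG)) hc
  have fin : ∀ q b, Nat.Prime q → Fintype.card X = 16 → Nat.card G = 2 ^ 6 * q ^ b →
      (Group.IsSolvable G ∧ ∃ N : Subgroup G, N.Normal ∧ Nat.card N = 16 ∧
        ∀ x y : X, ∃! n : N, (n : G) • x = y) := fun q b hq h1 h2 => by
    haveI := burnside Nat.prime_two hq 6 b _ G rfl h2.dvd
    exact ⟨this, h1 ▸ R.affine⟩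
  by_cases hs : ∀ a ∈ R.K R.A, a • R.C = R.C → a = 1
  · have hs : R.Semi := semi_of hs
    rcases Nat.even_or_odd R.t with ht | ht
    · obtain ⟨h1, h2⟩ := t_even hev hs ht
      exact Or.inr (fin 5 1 (by norm_num) h1 (by rw [h2]; norm_num))
    · exact Or.inl (t_odd hev hs ht)
  · push Not at hs
    obtain ⟨a, h1, h2, h3⟩ := hs
    obtain ⟨h1, h2⟩ := nonsemi hev h1 h3 h2
    exact Or.inr (fin 3 2 (by norm_num) h1 (by rw [h2]; norm_num))

end R3

theorem rel_cases [Nontrivial X] (hprim : MulAction.IsPreprimitive G X) (r : X → X → Prop)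
    (hrefl : ∀ x, r x x) (hsymm : ∀ x y, r x y → r y x) (htr : ∀ x y z, r x y → r y z → r x z)
    (hinv : ∀ (g : G) x y, r x y → r (g • x) (g • y)) (a : X) :
    (∀ x, r a x → x = a) ∨ ∀ x, r a x := by
  have hb : MulAction.IsBlock G {x | r a x} := by
    rw [MulAction.isBlock_iff_smul_eq_of_mem]
    intro g x hx hgx
    have h1 : r a (g • a) := htr _ _ _ hgx (hsymm _ _ (hinv g _ _ hx))
    ext y
    rw [Set.mem_smul_set_iff_inv_smul_mem]
    constructor
    · intro hy
      have := hinv g _ _ hy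
      rw [smul_inv_smul] at this
      exact htr _ _ _ h1 this
    · intro hy
      have := hinv g⁻¹ _ _ (htr _ _ _ (hsymm _ _ h1) hy)
      rwa [inv_smul_smul] at this
  rcases hprim.isTrivialBlock_of_isBlock hb with h | h
  · exact Or.inl fun x hx => h hx (hrefl a)
  · exact Or.inr fun x => (h ▸ Set.mem_univ x : x ∈ {x | r a x})

theorem exists_R3 [Finite G] [Fintype X] [FaithfulSMul G X] (heven : Even (Nat.card G))
    (hprim : MulAction.IsPreprimitive G X) (A : X)
    (h3 : Nat.card (MulAction.orbitRel.Quotient (MulAction.stabilizer G A) X) = 3) (B : X)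
    (hBA : B ≠ A) (hfix : ∃ g ∈ MulAction.stabilizer G A, g ≠ 1 ∧ g • B = B)
    (hfrob : ∀ g ∈ MulAction.stabilizer G A, ∀ h ∈ MulAction.stabilizer G A, g • B = B →
      g • (h • B) = h • B → h • B ≠ B → g = 1) : Nonempty (R3 G X) := by
  let adj : X → X → Prop := fun P Q => ∃ g : G, g • A = P ∧ g • B = Q
  have tr : ∀ P Q : X, ∃ g : G, g • P = Q := fun P Q => hprim.exists_smul_eq P Q
  have inv : ∀ (g : G) {P Q : X}, adj P Q → adj (g • P) (g • Q) := by
    rintro g _ _ ⟨a, rfl, rfl⟩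
    exact ⟨g * a, mul_smul _ _ _, mul_smul _ _ _⟩
  have inv' : ∀ (g : G) {P Q : X}, adj (g • P) (g • Q) → adj P Q := fun g P Q h => by
    simpa using inv g⁻¹ h
  have irr : ∀ P, ¬ adj P P := by
    rintro P ⟨g, a, b⟩
    exact hBA (MulAction.injective g (b.trans a.symm))
  have trA : ∀ {P Q P' Q' : X}, adj P Q → adj P' Q' → ∃ g : G, g • P = P' ∧ g • Q = Q' := by
    rintro _ _ _ _ ⟨a, rfl, rfl⟩ ⟨b, rfl, rfl⟩
    exact ⟨b * a⁻¹, by simp [mul_smul], by simp [mul_smul]⟩
  let q : X → MulAction.orbitRel.Quotient (MulAction.stabilizer G A) X := Quotient.mk _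
  have hq : ∀ P Q, q P = q Q ↔ ∃ g : G, g • A = A ∧ g • Q = P := fun P Q => by
    rw [Quotient.eq]
    exact ⟨fun ⟨g, hg⟩ => ⟨g, g.2, hg⟩, fun ⟨g, a, b⟩ => ⟨⟨g, a⟩, b⟩⟩
  have hqA : ∀ P, q P = q A ↔ P = A := fun P => by
    rw [hq]
    exact ⟨fun ⟨g, a, b⟩ => b.symm.trans a, fun e => ⟨1, one_smul _ _, by rw [one_smul, e]⟩⟩
  have hqB : ∀ P, q P = q B ↔ adj A P := fun P => hq P B
  haveI := Fintype.ofFinite (MulAction.orbitRel.Quotient (MulAction.stabilizer G A) X)
  rw [Nat.card_eq_fintype_card, ← card_univ] at h3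
  have hAB : q A ≠ q B := fun e => hBA ((hqA B).1 e.symm)
  have h1 : ((univ.erase (q A)).erase (q B)).card = 1 := by
    rw [card_erase_of_mem (by simp [hAB.symm]), card_erase_of_mem (by simp), h3]
  obtain ⟨c, hc⟩ := card_eq_one.1 h1
  obtain ⟨C, rfl⟩ : ∃ C, q C = c := Quotient.exists_rep c
  have hC : ∀ P, (P ≠ A ∧ ¬ adj A P) ↔ q P = q C := fun P => by
    rw [← mem_singleton, ← hc, mem_erase, mem_erase, Ne, Ne, Ne, hqA, hqB]
    simp [and_comm]
  have hC' := (hC C).2 rfl
  have trN : ∀ {P Q P' Q' : X}, P ≠ Q → ¬ adj P Q → P' ≠ Q' → ¬ adj P' Q' →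
      ∃ g : G, g • P = P' ∧ g • Q = Q' := by
    have key : ∀ {P Q : X}, P ≠ Q → ¬ adj P Q → ∃ g : G, g • A = P ∧ g • C = Q := by
      intro P Q h1 h2
      obtain ⟨g, rfl⟩ := tr A P
      obtain ⟨a, a1, a2⟩ := (hq _ _).1 ((hC (g⁻¹ • Q)).1
        ⟨fun e => h1 (by rw [← e, smul_inv_smul]), fun e => h2 (by simpa using inv g e)⟩)
      exact ⟨g * a, by rw [mul_smul, a1], by rw [mul_smul, a2, smul_inv_smul]⟩
    intro P Q P' Q' a b c d
    obtain ⟨u, rfl, rfl⟩ := key a b
    obtain ⟨v, rfl, rfl⟩ := key c d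
    exact ⟨v * u⁻¹, by simp [mul_smul], by simp [mul_smul]⟩
  have faith : ∀ g : G, (∀ P : X, g • P = P) → g = 1 := fun g hg =>
    eq_of_smul_eq_smul (α := X) fun P => by rw [hg, one_smul]
  have symm : ∀ {P Q : X}, adj P Q → adj Q P := by
    obtain ⟨z, -, hz⟩ := exists_inv (⊤ : Subgroup G) (by rwa [Subgroup.card_top])
    obtain ⟨P, hP⟩ : ∃ P : X, z • P ≠ P := by
      by_contra hc
      push Not at hc
      exact hz.1 (faith z hc)
    intro P' Q' h'
    by_cases a : adj P (z • P)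
    · obtain ⟨g, rfl, rfl⟩ := trA a h'
      apply inv
      have := inv z a
      rwa [hz.smul] at this
    · by_contra b
      have hne : P' ≠ Q' := fun e => irr P' (by rwa [← e] at h')
      obtain ⟨g, e1, e2⟩ := trN hP.symm a hne.symm b
      have := inv g⁻¹ h'
      rw [← e1, ← e2, inv_smul_smul, inv_smul_smul] at this
      have := inv z this
      rw [hz.smul] at this
      exact a this
  haveI : Nontrivial X := ⟨⟨_, _, hBA⟩⟩
  obtain ⟨g0, a0, b0, c0⟩ := hfix
  have hAB' : adj A B := ⟨1, one_smul _ _, one_smul _ _⟩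
  refine ⟨⟨adj, symm, irr, inv, tr, trA, trN, ?_, A, B, C, hAB', hC'.1.symm, hC'.2,
    ⟨g0, b0, a0, c0⟩, ?_, ?_, faith⟩⟩
  · rintro g _ _ S a ⟨u, rfl, rfl⟩ ⟨v, b, rfl⟩ c d e
    have := hfrob (u⁻¹ * g * u) (by
      rw [MulAction.mem_stabilizer_iff, mul_smul, mul_smul, a, inv_smul_smul]) (u⁻¹ * v) (by
      rw [MulAction.mem_stabilizer_iff, mul_smul, b, inv_smul_smul]) (by
      rw [mul_smul, mul_smul, c, inv_smul_smul]) (by
      simp only [mul_smul, smul_inv_smul, d]) (by
      rw [mul_smul, Ne, inv_smul_eq_iff]; exact e.symm)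
    calc g = u * (u⁻¹ * g * u) * u⁻¹ := by group
      _ = 1 := by rw [this]; group
  · by_contra hcon
    push Not at hcon
    rcases rel_cases hprim (fun P Q => P = Q ∨ adj P Q) (fun _ => Or.inl rfl)
      (fun x y h => h.imp Eq.symm symm) (by
        rintro x y z (rfl | a) (rfl | b)
        · exact Or.inl rfl
        · exact Or.inr b
        · exact Or.inr a
        · by_cases e : x = z
          · exact Or.inl e
          · exact Or.inr (hcon x y z a b e))
      (fun g x y h => h.imp (fun e => by rw [e]) (inv g)) A with h | h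
    · exact hBA (h B (Or.inr hAB'))
    · exact (h C).elim hC'.1.symm hC'.2
  · by_contra hcon
    push Not at hcon
    rcases rel_cases hprim (fun P Q => ¬ adj P Q) irr (fun x y h e => h (symm e)) hcon
      (fun g x y h e => h (inv' g e)) A with h | h
    · exact hC'.1 (h C hC'.2)
    · exact h B hAB'

end Cfsg.Agent.Frob
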