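import Cfsg.Agent.Frob.R3Even
/-!
# Semiregular kernel: counting
-/
set_option autoImplicit false

namespace Cfsg.Agent.Frob
open Finset
open scoped Classical

variable {G X : Type*} [Group G] [MulAction G X]

theorem sq_card_le {α β : Type*} [DecidableEq β] (S : Finset α) (f : α → β) :
    S.card ^ 2 ≤ (S.image f).card * ∑ a ∈ S, (S.filter fun b => f b = f a).card := by
  have h1 : ∑ a ∈ S, (S.filter fun b => f b = f a).card =
      ∑ i ∈ S.image f, (S.filter fun b => f b = i).card ^ 2 := by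
    rw [← sum_fiberwise_of_maps_to (fun a ha => mem_image_of_mem f ha)]
    refine sum_congr rfl fun i _ => ?_
    rw [sum_congr rfl (g := fun _ => (S.filter fun b => f b = i).card)
      (fun a ha => by rw [(mem_filter.1 ha).2]), sum_const, smul_eq_mul, sq]
  rw [h1, card_eq_sum_card_image f S]
  exact sq_sum_le_card_mul_sum_sq

namespace R3
variable [Fintype X] [Finite G] {R : R3 G X}

variable (R) in
/-- the kernels are semiregular -/
def Semi : Prop := ∀ {P Q : X} {x : G}, x ∈ R.K P → P ≠ Q → x • Q = Q → x = 1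

theorem semi_of (h : ∀ a ∈ R.K R.A, a • R.C = R.C → a = 1) : R.Semi := by
  intro P Q x hx hne e
  by_contra h1
  obtain ⟨g, a, b⟩ := trN' (nadj_of_K hx h1 e hne) nadj_AC
  have := h (g * x * g⁻¹) (by rw [← a]; exact (conj_mem_K g).2 hx)
    (by rw [← b]; exact (conj_fix _ _ _).2 e)
  exact h1 (by simpa using this)

theorem Semi.inj (hs : R.Semi) {P Q : X} (hne : P ≠ Q) {x y : G} (hx : x ∈ R.K P)
    (hy : y ∈ R.K P) (e : x • Q = y • Q) : x = y :=
  inv_mul_eq_one.1 (hs (mul_mem (inv_mem hx) hy) hne ((smul_eq_smul_iff Q x y).1 e))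

theorem Semi.exists_m (hs : R.Semi) : ∃ m, R.l = R.k * m ∧ R.h = m * R.t := by
  obtain ⟨m, hm⟩ := dvd_card_of_free (R.K R.A) (R.nn R.A)
    (fun g hg s hs => mem_nn.2 (nadj_of_fix (K_fix hg) (mem_nn.1 hs)))
    (fun g hg s h e => hs hg (mem_nn.1 h).1 e)
  rw [card_K] at hm
  refine ⟨m, hm, Nat.eq_of_mul_eq_mul_left (n := R.k) (by have := two_le_k (R := R); omega) ?_⟩
  rw [kh_eq, ← mul_assoc, ← hm]; rfl

variable (R) in
/-- orbits of the kernel at the base point -/
noncomputable def orb (E : X) : Finset X := univ.filter fun D => ∃ x ∈ R.K R.A, x • E = D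

theorem mem_orb {E D : X} : D ∈ R.orb E ↔ ∃ x ∈ R.K R.A, x • E = D := by simp [orb]

theorem mem_orb_self (E : X) : E ∈ R.orb E := mem_orb.2 ⟨1, one_mem _, one_smul _ _⟩

theorem orb_eq_iff {E D : X} : R.orb D = R.orb E ↔ D ∈ R.orb E := by
  refine ⟨fun h => h ▸ mem_orb_self D, fun h => ?_⟩
  obtain ⟨x, hx, rfl⟩ := mem_orb.1 h
  ext S
  simp only [mem_orb]
  constructor
  · rintro ⟨y, hy, rfl⟩
    exact ⟨y * x, mul_mem hy hx, mul_smul _ _ _⟩
  · rintro ⟨y, hy, rfl⟩
    exact ⟨y * x⁻¹, mul_mem hy (inv_mem hx), by rw [mul_smul, inv_smul_smul]⟩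

theorem nadj_of_mem_orb {E D : X} (h : D ∈ R.orb E) (hE : R.nadj R.A E) : R.nadj R.A D := by
  obtain ⟨x, hx, rfl⟩ := mem_orb.1 h
  exact nadj_of_fix (K_fix hx) hE

theorem orb_adj {E : X} (hE : R.adj R.A E) : R.orb E = R.nb R.A := by
  ext D
  rw [mem_orb, mem_nb]
  exact ⟨by rintro ⟨x, hx, rfl⟩; exact adj_of_fix (K_fix hx) hE, K_trans hE⟩

theorem Semi.card_filter (hs : R.Semi) {E : X} (hE : R.A ≠ E) (p : X → Prop) [DecidablePred p]
    (W : Finset G) (hW : ∀ x, x ∈ W ↔ x ∈ R.K R.A ∧ p (x • E)) :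
    ((R.orb E).filter p).card = W.card := by
  symm
  apply card_bij (fun x _ => x • E)
  · intro x hx
    rw [hW] at hx
    exact mem_filter.2 ⟨mem_orb.2 ⟨x, hx.1, rfl⟩, hx.2⟩
  · intro x hx y hy e
    exact hs.inj hE ((hW x).1 hx).1 ((hW y).1 hy).1 e
  · intro D hD
    obtain ⟨h1, h2⟩ := mem_filter.1 hD
    obtain ⟨x, hx, rfl⟩ := mem_orb.1 h1
    exact ⟨x, (hW x).2 ⟨hx, h2⟩, rfl⟩

theorem Semi.card_orb (hs : R.Semi) {E : X} (hE : R.A ≠ E) : (R.orb E).card = R.k := by
  haveI := Fintype.ofFinite G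
  have := hs.card_filter hE (fun _ => True) (univ.filter fun x => x ∈ R.K R.A) (by simp)
  rwa [filter_true, card_sub, card_K] at this

theorem Semi.card_swap (hs : R.Semi) {E D : X} (hE : R.A ≠ E) (hD : R.A ≠ D) :
    ((R.orb E).filter fun S => R.adj D S).card = ((R.orb D).filter fun S => R.adj E S).card := by
  haveI := Fintype.ofFinite G
  rw [hs.card_filter hE _ (univ.filter fun x => x ∈ R.K R.A ∧ R.adj D (x • E)) (by simp),
    hs.card_filter hD _ (univ.filter fun x => x ∈ R.K R.A ∧ R.adj E (x • D)) (by simp)]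
  have key : ∀ {E D : X} {x : G}, x ∈ R.K R.A ∧ R.adj D (x • E) →
      x⁻¹ ∈ R.K R.A ∧ R.adj E (x⁻¹ • D) := fun {E D x} h =>
    ⟨inv_mem h.1, R.symm (by simpa using R.inv x⁻¹ h.2)⟩
  apply card_bij (fun x _ => x⁻¹)
  · intro x hx
    exact mem_filter.2 ⟨mem_univ _, key (mem_filter.1 hx).2⟩
  · intro x _ y _ e; exact inv_injective e
  · intro x hx
    exact ⟨x⁻¹, mem_filter.2 ⟨mem_univ _, key (mem_filter.1 hx).2⟩, inv_inv x⟩

theorem Semi.card_mu (hs : R.Semi) {E D : X} (hE : R.nadj R.A E) (hD : R.adj R.A D) :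
    ((R.orb E).filter fun S => R.adj D S).card = R.mu := by
  rw [hs.card_swap hE.1 (adj_ne hD), orb_adj hD, ← card_cm_nadj hE]
  congr 1
  ext S; simp

variable (R) in
/-- the number of neighbours of a point in its own orbit -/
noncomputable def sig : ℕ := ((R.orb R.C).filter fun S => R.adj R.C S).card

theorem card_sig {E : X} (hE : R.nadj R.A E) :
    ((R.orb E).filter fun S => R.adj E S).card = R.sig := by
  obtain ⟨g, a, rfl⟩ := trN' nadj_AC hE
  symm
  apply card_eq_smul g
  intro S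
  rw [mem_filter, mem_filter, adj_smul, mem_orb, mem_orb]
  refine and_congr_left fun _ => ⟨?_, ?_⟩
  · rintro ⟨x, hx, rfl⟩
    exact ⟨_, conj_mem_K' a hx, conj_smul _ _ _⟩
  · rintro ⟨x, hx, e⟩
    refine ⟨g⁻¹ * x * g⁻¹⁻¹, conj_mem_K' (inv_smul_eq_iff.2 a.symm) hx, ?_⟩
    rw [inv_inv, mul_smul, mul_smul, e, inv_smul_smul]

theorem Semi.path (hs : R.Semi) {m : ℕ} (hm : R.l = R.k * m) : ∃ s T : ℕ,
    s + R.sig + R.mu = R.k ∧
    R.mu * R.mu + R.sig * R.sig + T + R.sig * R.mu + R.mu = R.k + R.sig * R.lam + R.k * R.mu ∧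
    s ^ 2 ≤ (m - 1) * T ∧ T ≤ s * s := by
  let O := R.orb R.C
  let S1 := O.filter fun E => R.adj R.C E
  let S2 := (R.nn R.A).filter fun E => R.adj R.C E ∧ E ∉ O
  have hO : ∀ E ∈ O, R.nadj R.A E := fun E hE => nadj_of_mem_orb hE nadj_AC
  have hu : (R.nn R.A).filter (fun E => R.adj R.C E) = S1 ∪ S2 := by
    ext E
    simp only [S1, S2, mem_union, mem_filter, mem_nn]
    constructor
    · rintro ⟨a, b⟩
      by_cases c : E ∈ O
      · exact Or.inl ⟨c, b⟩
      · exact Or.inr ⟨a, b, c⟩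
    · rintro (⟨a, b⟩ | ⟨a, b, c⟩)
      · exact ⟨hO E a, b⟩
      · exact ⟨a, b⟩
  have hd : Disjoint S1 S2 := disjoint_left.2 fun E a b =>
    (mem_filter.1 b).2.2 (mem_filter.1 a).1
  have h1 := card_nb_nn_nadj (nadj_AC (R := R))
  rw [hu, card_union_of_disjoint hd] at h1
  have hS1 : S1.card = R.sig := rfl
  refine ⟨S2.card, ∑ E ∈ S2, (S2.filter fun D => R.orb D = R.orb E).card, by omega, ?_, ?_, ?_⟩
  · have a1 := sum_card_rel (R.nb R.C) O R.adj
    have hu2 : R.nb R.C = R.cm R.A R.C ∪ (S1 ∪ S2) := by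
      rw [← hu]
      ext E
      simp only [mem_union, mem_filter, mem_nn, mem_nb, mem_cm]
      constructor
      · intro h
        by_cases c : R.adj R.A E
        · exact Or.inl ⟨c, h⟩
        · exact Or.inr ⟨⟨by rintro rfl; exact R.nAC (R.symm h), c⟩, h⟩
      · rintro (h | h) <;> exact h.2
    have hd2 : Disjoint (R.cm R.A R.C) (S1 ∪ S2) := by
      rw [← hu]
      exact disjoint_left.2 fun E a b => (mem_nn.1 (mem_filter.1 b).1).2 (mem_cm.1 a).1
    have a2 : ∑ E ∈ R.nb R.C, (O.filter fun D => R.adj E D).card =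
        R.mu * R.mu + (R.sig * R.sig +
          ∑ E ∈ S2, (S2.filter fun D => R.orb D = R.orb E).card) := by
      rw [hu2, sum_union hd2, sum_union hd]
      congr 1
      · rw [sum_congr rfl fun E hE => hs.card_mu nadj_AC (mem_cm.1 hE).1, sum_const, smul_eq_mul]
        rfl
      congr 1
      · rw [sum_congr rfl (g := fun _ => R.sig), sum_const, smul_eq_mul, hS1]
        intro E hE
        have hE := (mem_filter.1 hE).1
        rw [← card_sig (hO E hE), orb_eq_iff.2 hE]
      · refine sum_congr rfl fun E hE => ?_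
        obtain ⟨b1, b2, b3⟩ := mem_filter.1 hE
        rw [mem_nn] at b1
        rw [hs.card_swap R.hAC b1.1]
        congr 1
        ext D
        simp only [S2, mem_filter, mem_nn, orb_eq_iff]
        refine ⟨fun h => ⟨⟨nadj_of_mem_orb h.1 b1, h.2, fun c => b3 ?_⟩, h.1⟩,
          fun h => ⟨h.2, h.1.2.1⟩⟩
        rw [← orb_eq_iff] at c h ⊢
        rw [← h.1, c]
    let S3 := (O.erase R.C).filter fun D => ¬ R.adj R.C D
    have hu3 : O = insert R.C (S1 ∪ S3) := by
      ext D
      simp only [S1, S3, mem_insert, mem_union, mem_filter, mem_erase]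
      constructor
      · intro h
        by_cases c : D = R.C
        · exact Or.inl c
        by_cases d : R.adj R.C D
        · exact Or.inr (Or.inl ⟨h, d⟩)
        · exact Or.inr (Or.inr ⟨⟨c, h⟩, d⟩)
      · rintro (rfl | h | h)
        · exact mem_orb_self _
        · exact h.1
        · exact h.1.2
    have hd3 : Disjoint S1 S3 := disjoint_left.2 fun E a b =>
      (mem_filter.1 b).2 (mem_filter.1 a).2
    have hn3 : R.C ∉ S1 ∪ S3 := by simp [S1, S3, R.irr]
    have a3 : S3.card + R.sig + 1 = R.k := by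
      rw [← hs.card_orb R.hAC]
      change _ = O.card
      rw [hu3, card_insert_of_notMem hn3, card_union_of_disjoint hd3]
      omega
    have hcm : ∀ D, ((R.nb R.C).filter fun E => R.adj E D) = R.cm R.C D := fun D => by
      ext E; simp [adj_comm (P := E)]
    have a4 : ∑ D ∈ O, ((R.nb R.C).filter fun E => R.adj E D).card =
        R.k + (R.sig * R.lam + S3.card * R.mu) := by
      simp only [hcm]
      rw [hu3, sum_insert hn3, sum_union hd3]
      congr 1
      · rw [← card_nb R.C]; congr 1; ext E; simp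
      congr 1
      · rw [sum_congr rfl fun E hE => card_cm_adj (mem_filter.1 hE).2, sum_const, smul_eq_mul]
        rfl
      · rw [sum_congr rfl fun E hE => card_cm_nadj (⟨(mem_erase.1 (mem_filter.1 hE).1).1.symm,
          (mem_filter.1 hE).2⟩ : R.nadj _ _), sum_const, smul_eq_mul]
    rw [a2, a4] at a1
    rw [← a3] at a1 ⊢
    nlinarith
  · refine (sq_card_le S2 R.orb).trans (Nat.mul_le_mul_right _ ?_)
    have b1 : R.l = ((R.nn R.A).image R.orb).card * R.k := by
      apply card_fiber_mul _ _ R.orb _ (fun E hE => mem_image_of_mem _ hE)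
      intro O' hO'
      obtain ⟨E, hE, rfl⟩ := mem_image.1 hO'
      rw [← hs.card_orb (mem_nn.1 hE).1]
      congr 1
      ext D
      simp only [mem_filter, mem_nn, orb_eq_iff]
      exact ⟨fun h => h.2, fun h => ⟨nadj_of_mem_orb h (mem_nn.1 hE), h⟩⟩
    have b2 : ((R.nn R.A).image R.orb).card = m := by
      apply Nat.eq_of_mul_eq_mul_right (m := R.k) (by have := two_le_k (R := R); omega)
      rw [← b1, hm, mul_comm]
    rw [← b2, ← card_erase_of_mem (mem_image_of_mem _ (mem_nn.2 nadj_AC))]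
    apply card_le_card
    intro O' hO'
    obtain ⟨E, hE, rfl⟩ := mem_image.1 hO'
    obtain ⟨b1, b2, b3⟩ := mem_filter.1 hE
    exact mem_erase.2 ⟨fun e => b3 (orb_eq_iff.1 e), mem_image_of_mem _ b1⟩
  · have := sum_le_card_nsmul S2 _ S2.card
      (fun E _ => card_filter_le S2 fun D => R.orb D = R.orb E)
    rwa [smul_eq_mul] at this

theorem no_triangle (h : R.lam = 0) {P Q S : X} (h1 : R.adj P Q) (h2 : R.adj P S) :
    ¬ R.adj Q S := fun h3 => by
  have := card_pos.2 ⟨S, mem_cm.2 ⟨h2, h3⟩⟩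
  rw [card_cm_adj h1] at this
  omega

theorem Semi.mu_le_one (hs : R.Semi) (h0 : R.lam = 0) (h1 : R.sig = 0)
    (h2 : R.k = 2 * R.mu + 1) : R.mu ≤ 1 := by
  by_contra hc
  obtain ⟨P, hP, P', hP', hne⟩ := one_lt_card.1 (not_le.1 hc : 1 < (R.cm R.A R.C).card)
  rw [mem_cm] at hP hP'
  have : ∃ E ∈ R.orb R.C, ¬ R.adj P E ∧ ¬ R.adj P' E := by
    by_contra hcon
    push Not at hcon
    have : (R.orb R.C).card ≤ (((R.orb R.C).filter fun S => R.adj P S) ∪
        ((R.orb R.C).filter fun S => R.adj P' S)).card := card_le_card fun E hE => by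
      simp only [mem_union, mem_filter]
      by_cases c : R.adj P E
      · exact Or.inl ⟨hE, c⟩
      · exact Or.inr ⟨hE, hcon E hE c⟩
    have := this.trans (card_union_le _ _)
    rw [hs.card_orb R.hAC, hs.card_mu nadj_AC hP.1, hs.card_mu nadj_AC hP'.1] at this
    omega
  obtain ⟨E, hE, e1, e2⟩ := this
  have hEn := nadj_of_mem_orb hE nadj_AC
  have hsub : ∀ Q, R.adj R.A Q → R.cm Q E ⊆ (R.nn R.A).filter fun S => R.adj E S := by
    intro Q hQ S hS
    rw [mem_cm] at hS
    refine mem_filter.2 ⟨mem_nn.2 ⟨?_, fun c => no_triangle h0 hQ c hS.1⟩, hS.2⟩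
    rintro rfl
    exact hEn.2 (R.symm hS.2)
  have hn : ∀ Q, R.adj R.A Q → ¬ R.adj Q E → R.nadj Q E := fun Q a b =>
    ⟨by rintro rfl; exact hEn.2 a, b⟩
  have b1 := card_union_add_card_inter (R.cm P E) (R.cm P' E)
  have b2 := card_le_card (union_subset (hsub P hP.1) (hsub P' hP'.1))
  have b3 := card_nb_nn_nadj hEn
  rw [card_cm_nadj (hn P hP.1 e1), card_cm_nadj (hn P' hP'.1 e2)] at b1
  have hEC : ¬ R.adj E R.C := fun c => by
    have := card_pos.2 (⟨R.C, mem_filter.2 ⟨by rw [orb_eq_iff.2 hE]; exact mem_orb_self _, c⟩⟩ :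
      ((R.orb E).filter fun S => R.adj E S).Nonempty)
    rw [card_sig hEn] at this
    omega
  have b4 : (insert R.A (insert R.C (R.cm P E ∩ R.cm P' E))).card ≤ (R.cm P P').card := by
    apply card_le_card
    intro S hS
    simp only [mem_insert, mem_inter, mem_cm] at *
    rcases hS with rfl | rfl | hS
    · exact ⟨R.symm hP.1, R.symm hP'.1⟩
    · exact ⟨R.symm hP.2, R.symm hP'.2⟩
    · exact ⟨hS.1.1, hS.2.1⟩
  rw [card_insert_of_notMem, card_insert_of_notMem,
    card_cm_nadj (⟨hne, no_triangle h0 hP.1 hP'.1⟩ : R.nadj _ _)] at b4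
  · omega
  · simp [hEC]
  · simp only [mem_insert, mem_inter, mem_cm, not_or]
    exact ⟨R.hAC, fun c => hEn.2 (R.symm c.1.2)⟩

/-- fixed points -/
noncomputable def fx (z : G) : Finset X := univ.filter fun P => z • P = P

omit [Finite G] in
theorem mem_fx {z : G} {P : X} : P ∈ (fx z : Finset X) ↔ z • P = P := by simp [fx]

variable (R) in
/-- points moved to a neighbour -/
noncomputable def a1 (z : G) : Finset X := univ.filter fun P => R.adj P (z • P)

variable (R) in
/-- points moved to a non-neighbour -/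
noncomputable def a2 (z : G) : Finset X := univ.filter fun P => R.nadj P (z • P)

/-- conjugates of `z` sending `P` to `Q` -/
noncomputable def cw (z : G) (P Q : X) : Finset G :=
  haveI := Fintype.ofFinite G
  univ.filter fun w => IsConj z w ∧ w • P = Q

omit [Fintype X] in
theorem mem_cw {z w : G} {P Q : X} : w ∈ cw z P Q ↔ IsConj z w ∧ w • P = Q := by simp [cw]

omit [Fintype X] in
theorem inv_of_cw {z w : G} {P Q : X} (hz : Invo z) (h : w ∈ cw z P Q) : Invo w := by
  obtain ⟨g, rfl⟩ := isConj_iff.1 (mem_cw.1 h).1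
  exact hz.conj g

omit [Fintype X] in
theorem card_cw_le {z : G} (hz : Invo z) (P Q : X) : (cw z P Q).card ≤ Nat.card (st G P Q) := by
  apply card_le_of_coset
  intro a ha b hb
  have h1 := (mem_cw.1 ha).2
  have h2 := (mem_cw.1 hb).2
  exact ⟨by change (a⁻¹ * b) • P = P; rw [mul_smul, h2, ← h1, inv_smul_smul],
    by change (a⁻¹ * b) • Q = Q
       rw [mul_smul, (inv_of_cw hz hb).swap h2, ← (inv_of_cw hz ha).swap h1, inv_smul_smul]⟩

omit [Finite G] in
theorem card_split (z : G) :
    Fintype.card X = (fx z : Finset X).card + (R.a1 z).card + (R.a2 z).card := by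
  have : (univ : Finset X) = (fx z ∪ R.a1 z) ∪ R.a2 z := by
    ext P
    simp only [mem_univ, mem_union, fx, a1, a2, mem_filter, true_and, true_iff]
    by_cases a : z • P = P
    · exact Or.inl (Or.inl a)
    by_cases b : R.adj P (z • P)
    · exact Or.inl (Or.inr b)
    · exact Or.inr ⟨Ne.symm a, b⟩
  rw [← card_univ, this, card_union_of_disjoint, card_union_of_disjoint]
  · rw [disjoint_left]
    intro P a b
    exact adj_ne (mem_filter.1 b).2 (mem_fx.1 a).symm
  · rw [disjoint_left]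
    intro P a b
    have b := (mem_filter.1 b).2
    rcases mem_union.1 a with a | a
    · exact b.1 (mem_fx.1 a).symm
    · exact b.2 (mem_filter.1 a).2

theorem card_cent (hev : Even R.h) {z : G} (hz : Invo z) {P : X} (hP : z • P = P) :
    Nat.card (Subgroup.centralizer ({z} : Set G)) = (fx z : Finset X).card * R.h := by
  obtain ⟨Q, hQ, e⟩ := inv_partner hev hz hP
  rw [card_orbit _ P (fx z), ← card_st_adj hQ]
  · congr 3
    ext g
    simp only [Subgroup.mem_inf, Subgroup.mem_centralizer_singleton_iff, mem_st,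
      MulAction.mem_stabilizer_iff]
    constructor
    · rintro ⟨a, b⟩
      refine ⟨b, ?_⟩
      by_contra hne
      exact hz.1 (R.fr hP (adj_of_fix b hQ) hQ (fix_of_commute a e) e hne)
    · rintro ⟨a, b⟩
      exact ⟨mul_inv_eq_iff_eq_mul.1 (inv_central hev hz hQ hP e a b), a⟩
  · intro s
    rw [mem_fx]
    constructor
    · intro hs
      obtain ⟨g, a, b⟩ := inv_isConj hev hz hz hP hs
      exact ⟨g, Subgroup.mem_centralizer_singleton_iff.2 (mul_inv_eq_iff_eq_mul.1 b), a⟩
    · rintro ⟨g, hg, rfl⟩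
      exact fix_of_commute (Subgroup.mem_centralizer_singleton_iff.1 hg) hP

theorem card_a1 (hev : Even R.h) {z : G} (hz : Invo z) {P : X} (hP : z • P = P) :
    (R.a1 z).card = (cw z R.A R.B).card * (fx z : Finset X).card := by
  have := star z R.A R.B (R.a1 z) (fun P' => by
    simp only [a1, mem_filter, mem_univ, true_and]
    exact ⟨fun h => R.trA R.hAB h, by rintro ⟨g, rfl, e⟩; rw [← e]; exact R.inv g R.hAB⟩)
    (cw z R.A R.B) (fun w => mem_cw)
  rw [card_cent hev hz hP, ← mul_assoc] at this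
  exact Nat.eq_of_mul_eq_mul_right (m := R.h) (by have := one_lt_h (R := R); omega) this

theorem card_a2 (hev : Even R.h) {z : G} (hz : Invo z) {P : X} (hP : z • P = P) {m : ℕ}
    (hm : R.h = m * R.t) :
    (R.a2 z).card = (cw z R.A R.C).card * (fx z : Finset X).card * m := by
  have := star z R.A R.C (R.a2 z) (fun P' => by
    simp only [a2, mem_filter, mem_univ, true_and]
    exact ⟨fun h => trN' nadj_AC h,
      by rintro ⟨g, rfl, e⟩; rw [← e]; exact (nadj_smul g).2 nadj_AC⟩)
    (cw z R.A R.C) (fun w => mem_cw)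
  rw [card_cent hev hz hP, hm, ← mul_assoc, ← mul_assoc] at this
  exact Nat.eq_of_mul_eq_mul_right t_pos this

theorem fx_split {z : G} (hz : Invo z) (hA : z • R.A = R.A) (hB : z • R.B = R.B) :
    (fx z : Finset X).card = ((R.nn R.A).filter fun P => z • P = P).card + 2 := by
  have : (fx z : Finset X) = insert R.A (insert R.B ((R.nn R.A).filter fun P => z • P = P)) := by
    ext P
    simp only [mem_fx, mem_insert, mem_filter, mem_nn]
    constructor
    · intro h
      by_cases a : P = R.A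
      · exact Or.inl a
      by_cases b : P = R.B
      · exact Or.inr (Or.inl b)
      exact Or.inr (Or.inr ⟨⟨Ne.symm a, fun c => hz.1 (R.fr hA c R.hAB h hB b)⟩, h⟩)
    · rintro (rfl | rfl | h)
      exacts [hA, hB, h.2]
  rw [this, card_insert_of_notMem, card_insert_of_notMem]
  · simp [nadj, R.hAB]
  · simp [nadj, adj_ne R.hAB]

end R3
end Cfsg.Agent.Frob
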