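import Cfsg.Agent.Frob.R3Even
/-!
# Involutions outside a subgroup of index two
-/
set_option autoImplicit false

namespace Cfsg.Agent.Frob

variable {G : Type*} [Group G]

theorem dih_swap {w c : G} (hc : w * c * w⁻¹ = c⁻¹) (i : ℤ) : c ^ i * w = w * c ^ (-i) := by
  have := dih_inv hc (-i)
  rw [neg_neg] at this
  rw [← this]; group

/-- the dihedral group generated by `w` and `c` -/
def dihSub {w c : G} (hw : w * w = 1) (hc : w * c * w⁻¹ = c⁻¹) : Subgroup G where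
  carrier := {g | ∃ i : ℤ, g = c ^ i ∨ g = w * c ^ i}
  one_mem' := ⟨0, Or.inl (by simp)⟩
  mul_mem' := by
    rintro _ _ ⟨i, rfl | rfl⟩ ⟨j, rfl | rfl⟩
    · exact ⟨i + j, Or.inl (zpow_add _ _ _).symm⟩
    · exact ⟨-i + j, Or.inr (by rw [← mul_assoc, dih_swap hc, mul_assoc, ← zpow_add])⟩
    · exact ⟨i + j, Or.inr (by rw [mul_assoc, ← zpow_add])⟩
    · exact ⟨-i + j, Or.inl (by
        rw [mul_assoc, ← mul_assoc (c ^ i), dih_swap hc, ← mul_assoc, ← mul_assoc, hw, one_mul,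
          ← zpow_add])⟩
  inv_mem' := by
    rintro _ ⟨i, rfl | rfl⟩
    · exact ⟨-i, Or.inl (zpow_neg _ _).symm⟩
    · exact ⟨i, Or.inr (inv_eq_of_sq (dih_sq hw hc i))⟩

theorem isPGroup_zpowers {p : ℕ} {x : G} {n : ℕ} (h : x ^ p ^ n = 1) :
    IsPGroup p (Subgroup.zpowers x) := by
  rw [isPGroup_iff]
  rintro _ ⟨i, rfl⟩
  refine ⟨n, ?_⟩
  change (x ^ i) ^ p ^ n = 1
  rw [← zpow_natCast, ← zpow_mul, mul_comm, zpow_mul, zpow_natCast, h, one_zpow]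

theorem two_classes [Finite G] (T D : Subgroup G) (hTD : T ≤ D)
    (idx : ∀ a ∈ D, ∀ b ∈ D, a ∉ T → b ∉ T → a * b ∈ T) {w0 w1 z : G}
    (h0 : Invo w0) (h0D : w0 ∈ D) (h0T : w0 ∉ T) (h1 : Invo w1) (h1D : w1 ∈ D) (h1T : w1 ∉ T)
    (hC : ∀ g ∈ T, g * w0 = w0 * g → g = 1 ∨ g = z) (hne : ∀ g ∈ T, g * w0 * g⁻¹ ≠ w1) :
    (∀ w ∈ D, w ∉ T → Invo w → (∃ g ∈ T, g * w0 * g⁻¹ = w) ∨ ∃ g ∈ T, g * w1 * g⁻¹ = w) ∧
    ¬ 4 ∣ Nat.card (T ⊓ Subgroup.centralizer {w1} : Subgroup G) ∧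
    ∃ g ∈ T, ∃ c ∈ T, (∃ n, c ^ 2 ^ n = 1) ∧ g * w1 * g⁻¹ = w0 * c := by
  haveI : Fact (Nat.Prime 2) := ⟨Nat.prime_two⟩
  have nrm : ∀ d ∈ D, ∀ x ∈ T, d * x * d⁻¹ ∈ T := by
    intro d hd x hx
    by_cases h : d ∈ T
    · exact T.mul_mem (T.mul_mem h hx) (T.inv_mem h)
    · exact idx _ (D.mul_mem hd (hTD hx)) _ (D.inv_mem hd)
        (fun e => h (by simpa using T.mul_mem e (T.inv_mem hx))) (fun e => h (by simpa using e))
  have nrm' : ∀ d ∈ D, ∀ x, d * x * d⁻¹ ∈ T → x ∈ T := fun d hd x h => by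
    simpa [mul_assoc] using nrm _ (D.inv_mem hd) _ h
  have hc0T : w0 * w1 ∈ T := idx _ h0D _ h1D h0T h1T
  have hc0 := dih_c h0.2 h1.2
  have hw1 : w1 = w0 * (w0 * w1) ^ (1 : ℤ) := by rw [zpow_one, ← mul_assoc, h0.2, one_mul]
  generalize w0 * w1 = c0 at hc0T hc0 hw1
  obtain ⟨a, j, ⟨r, hr⟩, hj⟩ := Nat.exists_eq_two_pow_mul_odd (orderOf_pos c0).ne'
  obtain ⟨c, hcdef⟩ : ∃ c, c = c0 ^ j := ⟨_, rfl⟩
  have hcT : c ∈ T := hcdef ▸ T.pow_mem hc0T j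
  have hc : w0 * c * w0⁻¹ = c⁻¹ := by rw [hcdef, ← conj_pow, hc0, inv_pow]
  have hc2 : c ^ 2 ^ a = 1 := by rw [hcdef, ← pow_mul, mul_comm, ← hj, pow_orderOf_eq_one]
  have hw1' : c0 ^ (-(r : ℤ)) * w1 * (c0 ^ (-(r : ℤ)))⁻¹ = w0 * c := by
    rw [hw1, dih_conj hc0, hcdef, ← zpow_natCast, hr]; congr 2; push_cast; ring
  have hcls : ∀ i : ℤ, (∃ g ∈ T, g * w0 * g⁻¹ = w0 * c ^ i) ∧ Even i ∨
      (∃ g ∈ T, g * w1 * g⁻¹ = w0 * c ^ i) := by
    intro i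
    rcases Int.even_or_odd' i with ⟨s, rfl | rfl⟩
    · refine Or.inl ⟨⟨c ^ (-s), T.zpow_mem hcT _, ?_⟩, by simp⟩
      have := dih_conj hc (-s) 0
      rw [zpow_zero, mul_one] at this
      rw [this]; congr 2; ring
    · refine Or.inr ⟨c ^ (-s) * c0 ^ (-(r : ℤ)), T.mul_mem (T.zpow_mem hcT _) (T.zpow_mem hc0T _),
        ?_⟩
      have := dih_conj hc (-s) 1
      rw [zpow_one, ← hw1'] at this
      rw [show 2 * s + 1 = 1 - 2 * -s by ring, ← this]; group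
  let E := dihSub h0.2 hc
  have hE : ∀ g, g ∈ E ↔ ∃ i : ℤ, g = c ^ i ∨ g = w0 * c ^ i := fun g => Iff.rfl
  have hET : ∀ g ∈ E, g ∈ T → ∃ i : ℤ, g = c ^ i := by
    rintro g ⟨i, rfl | rfl⟩ h
    · exact ⟨i, rfl⟩
    · exact absurd (by simpa using T.mul_mem h (T.inv_mem (T.zpow_mem hcT i))) h0T
  have hET' : ∀ g ∈ E, g ∉ T → ∃ i : ℤ, g = w0 * c ^ i := by
    rintro g ⟨i, rfl | rfl⟩ h
    · exact absurd (T.zpow_mem hcT i) h
    · exact ⟨i, rfl⟩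
  have hw0E : w0 ∈ E := ⟨0, Or.inr (by simp)⟩
  have hc1 : c ≠ 1 := by
    rintro rfl
    apply hne _ (T.inv_mem (T.zpow_mem hc0T (-(r : ℤ))))
    rw [mul_one] at hw1'
    rw [← hw1']; group
  have hzE : z ∈ E := by
    obtain ⟨y, hy, iy⟩ := exists_inv (Subgroup.zpowers c) (by
      rw [Nat.card_zpowers]
      obtain ⟨n, -, hn⟩ := (Nat.dvd_prime_pow Nat.prime_two).1 (orderOf_dvd_of_pow_eq_one hc2)
      rw [hn, Nat.even_pow]
      refine ⟨even_two, fun e => hc1 ?_⟩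
      rw [e, pow_zero, orderOf_eq_one_iff] at hn
      exact hn)
    obtain ⟨i, rfl⟩ := hy
    have := hC _ (T.zpow_mem hcT i) (by rw [dih_swap hc, zpow_neg, inv_eq_of_sq iy.2])
    rw [← this.resolve_left iy.1]
    exact ⟨i, Or.inl rfl⟩
  have hED : E ≤ D := by
    rintro g ⟨i, rfl | rfl⟩
    · exact hTD (T.zpow_mem hcT i)
    · exact D.mul_mem h0D (hTD (T.zpow_mem hcT i))
  have hEp : IsPGroup 2 E := by
    rw [isPGroup_iff]
    rintro g ⟨i, rfl | rfl⟩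
    · exact isPGroup_iff.1 (isPGroup_zpowers hc2) _ ⟨i, rfl⟩
    · exact ⟨1, by rw [pow_one, sq, dih_sq h0.2 hc]⟩
  have hS : IsSyl 2 D E := by
    refine ⟨hED, hEp, fun S' a1 a2 a3 => ?_⟩
    by_contra hcon
    obtain ⟨g, b1, b2, b3⟩ := exists_norm_notMem a3 a1 hcon
    have key : ∀ g ∈ T, g ∈ Subgroup.normalizer (E : Set G) → g ∈ E := by
      intro g hg hn
      obtain ⟨i, hi⟩ := hET' _ ((Subgroup.mem_normalizer_iff.1 hn w0).1 hw0E)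
        (fun e => h0T (nrm' g (hTD hg) _ e))
      rcases hcls i with ⟨-, s, rfl⟩ | ⟨u, hu, e⟩
      · have e := dih_conj hc (-s) 0
        rw [zpow_zero, mul_one, show (0 : ℤ) - 2 * -s = s + s by ring, ← hi] at e
        have := hC ((c ^ (-s))⁻¹ * g) (T.mul_mem (T.inv_mem (T.zpow_mem hcT _)) hg) (by
          calc (c ^ (-s))⁻¹ * g * w0 = (c ^ (-s))⁻¹ * (g * w0 * g⁻¹) * g := by group
            _ = _ := by rw [← e]; group)
        have h2 : (c ^ (-s))⁻¹ * g ∈ E := by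
          rcases this with h | h <;> rw [h]
          exacts [E.one_mem, hzE]
        simpa using E.mul_mem (⟨-s, Or.inl rfl⟩ : c ^ (-s) ∈ E) h2
      · exfalso
        apply hne _ (T.mul_mem (T.inv_mem hu) hg)
        calc u⁻¹ * g * w0 * (u⁻¹ * g)⁻¹ = u⁻¹ * (g * w0 * g⁻¹) * u := by group
          _ = _ := by rw [hi, ← e]; group
    by_cases hg : g ∈ T
    · exact b2 (key g hg b3)
    · have := key _ (idx _ (a2 b1) _ h0D hg h0T)
        (Subgroup.mul_mem _ b3 (Subgroup.le_normalizer hw0E))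
      exact b2 (by simpa using E.mul_mem this (E.inv_mem hw0E))
  refine ⟨fun w hwD hwT hw => ?_, fun h4 => ?_, _, T.zpow_mem hc0T _, c, hcT, ⟨a, hc2⟩, hw1'⟩
  · obtain ⟨y, hy, hle⟩ := hS.exists_cj_le (Q := Subgroup.zpowers w) (by simpa using hwD)
      (isPGroup_zpowers (n := 1) (by rw [pow_one, sq, hw.2]))
    have hyw : y * w * y⁻¹ ∈ E := hle (conj_mem_cj.2 (Subgroup.mem_zpowers w))
    obtain ⟨i, hi⟩ := hET' _ hyw (fun e => hwT (nrm' y hy _ e))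
    obtain ⟨g, hg, e⟩ : ∃ g ∈ T, g * w * g⁻¹ = w0 * c ^ i := by
      by_cases h : y ∈ T
      · exact ⟨y, h, hi⟩
      · exact ⟨y * w, idx _ hy _ hwD h hwT, by rw [← hi]; group⟩
    have fin : ∀ v u, u ∈ T → u * v * u⁻¹ = w0 * c ^ i → ∃ g ∈ T, g * v * g⁻¹ = w :=
      fun v u hu e' => ⟨g⁻¹ * u, T.mul_mem (T.inv_mem hg) hu, by
        calc g⁻¹ * u * v * (g⁻¹ * u)⁻¹ = g⁻¹ * (u * v * u⁻¹) * g := by group
          _ = _ := by rw [e', ← e]; group⟩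
    rcases hcls i with ⟨⟨u, hu, e'⟩, -⟩ | ⟨u, hu, e'⟩
    · exact Or.inl (fin _ u hu e')
    · exact Or.inr (fin _ u hu e')
  · obtain ⟨S, hS', hle⟩ := exists_isSyl (p := 2) (Y := D ⊓ Subgroup.centralizer {w1})
      (Q := Subgroup.zpowers w1) (by
        rw [Subgroup.zpowers_le]
        exact ⟨h1D, Subgroup.mem_centralizer_singleton_iff.2 rfl⟩)
      (isPGroup_zpowers (n := 1) (by rw [pow_one, sq, h1.2]))
    obtain ⟨Q, hQ⟩ := exists_isSyl' 2 (T ⊓ Subgroup.centralizer {w1})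
    obtain ⟨y, hy, hQS⟩ := hS'.exists_cj_le (hQ.1.trans (inf_le_inf_right _ hTD)) hQ.2.1
    obtain ⟨u, hu, hSE⟩ := hS.exists_cj_le (hS'.1.trans inf_le_left) hS'.2.1
    obtain ⟨i, hi⟩ := hET' _ (hSE (conj_mem_cj.2 (hle (Subgroup.mem_zpowers w1))))
      (fun e => h1T (nrm' u hu _ e))
    have hQ2 : Nat.card Q ≤ 2 := by
      classical
      haveI := Fintype.ofFinite G
      rw [← card_cj y, ← card_cj u, ← card_sub]
      refine le_trans (Finset.card_le_card (t := {1, z}) fun x hx => ?_) Finset.card_le_two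
      obtain ⟨_, ⟨q, hq, rfl⟩, rfl⟩ := (Finset.mem_filter.1 hx).2
      have a1 : y * q * y⁻¹ ∈ S := hQS (conj_mem_cj.2 hq)
      have a2 : u * (y * q * y⁻¹) * u⁻¹ ∈ T := nrm u hu _ (nrm y hy.1 _ (hQ.1 hq).1)
      obtain ⟨s, hs⟩ := hET _ (hSE (conj_mem_cj.2 a1)) a2
      have a3 := Subgroup.mem_centralizer_singleton_iff.1 (hS'.1 a1).2
      have a4 : u * (y * q * y⁻¹) * u⁻¹ * (u * w1 * u⁻¹) =
          u * w1 * u⁻¹ * (u * (y * q * y⁻¹) * u⁻¹) := by rw [conj_mul, conj_mul, a3]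
      rw [hi, hs] at a4
      simp only [Finset.mem_insert, Finset.mem_singleton]
      change u * (y * q * y⁻¹) * u⁻¹ = 1 ∨ u * (y * q * y⁻¹) * u⁻¹ = z
      refine hC _ a2 ?_
      rw [hs]
      apply mul_right_cancel (b := c ^ i)
      rw [mul_assoc, a4, mul_assoc, mul_assoc, ← zpow_add, ← zpow_add, add_comm]
    obtain ⟨m, hm, hm'⟩ := hQ.index
    rw [hm] at h4
    have := Nat.Coprime.dvd_of_dvd_mul_right
      (Nat.Coprime.pow_left 2 ((Nat.Prime.coprime_iff_not_dvd Nat.prime_two).2 hm')) h4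
    have := Nat.le_of_dvd (card_pos' Q) this
    omega

end Cfsg.Agent.Frob
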