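import Cfsg.Agent.Frob.R3Semi
import Cfsg.Agent.Frob.TwoCl
/-!
# Semiregular kernel, involutions fixing non-adjacent points
-/
set_option autoImplicit false

namespace Cfsg.Agent.Frob
open Finset
open scoped Classical

variable {G X : Type*} [Group G] [MulAction G X]

namespace R3
variable [Fintype X] [Finite G] {R : R3 G X}

theorem exists_sqrt (hev : Even R.h) {P : X} {x : G} (hx : x ∈ R.K P) :
    ∃ y ∈ R.K P, y * y = x := by
  obtain ⟨j, hj⟩ := odd_k hev
  refine ⟨x ^ (j + 1), pow_mem hx _, ?_⟩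
  rw [← pow_add, show j + 1 + (j + 1) = 2 * j + 1 + 1 by ring, ← hj, pow_succ, pow_k hx, one_mul]

omit [Fintype X] in
theorem exists_inv_nadj (hte : Even R.t) {P Q : X} (h : R.nadj P Q) :
    ∃ z : G, Invo z ∧ z • P = P ∧ z • Q = Q := by
  obtain ⟨z, h1, h2⟩ := exists_inv (st G P Q) (by rwa [card_st_nadj h])
  exact ⟨z, h2, h1⟩

theorem card_rep (hev : Even R.h) (hte : Even R.t) {z : G} (hz : Invo z) (hA : z • R.A = R.A)
    {P : X} (hP : R.nadj R.A P) :
    (((R.nn R.A).filter fun E => z • E = E).filter fun E => P ∈ R.orb E).card = 1 := by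
  obtain ⟨w, hw, a, b⟩ := exists_inv_nadj hte hP
  obtain ⟨y, hy, e⟩ := exists_sqrt hev (inv_mul_mem hev hz hw hA a)
  have h1 : z • y • P = y • P := by
    have : z = y * w * y⁻¹ := by
      have := inv_K hev hw a (inv_mem hy)
      rw [inv_inv] at this
      calc z = z * w * w⁻¹ := by group
        _ = y * (w * y⁻¹ * w⁻¹) * w⁻¹ := by rw [← e, this]
        _ = y * w * y⁻¹ * (w * w)⁻¹ := by group
        _ = _ := by rw [hw.2]; group
    rw [this, conj_fix, b]
  rw [card_eq_one]
  refine ⟨y • P, eq_singleton_iff_unique_mem.2 ⟨?_, fun E hE => ?_⟩⟩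
  · simp only [mem_filter, mem_nn, mem_orb]
    exact ⟨⟨nadj_of_fix (K_fix hy) hP, h1⟩, y⁻¹, inv_mem hy, inv_smul_smul _ _⟩
  · simp only [mem_filter, mem_nn, mem_orb] at hE
    obtain ⟨⟨-, c⟩, x, hx, rfl⟩ := hE
    rw [← mul_smul y x] at h1 ⊢
    exact (K_fix_of_inv hev hz hA (mul_mem hy hx) c h1).symm

theorem Semi.card_L (hs : R.Semi) (hev : Even R.h) (hte : Even R.t) {z : G} (hz : Invo z)
    (hA : z • R.A = R.A) {m : ℕ} (hm : R.l = R.k * m) :
    ((R.nn R.A).filter fun E => z • E = E).card = m := by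
  have := card_mul_eq_of_rel (R.nn R.A) ((R.nn R.A).filter fun E => z • E = E)
    (fun P E => P ∈ R.orb E) 1 R.k (fun P hP => card_rep hev hte hz hA (mem_nn.1 hP))
    (fun E hE => by
      have hE := mem_nn.1 (mem_filter.1 hE).1
      rw [← hs.card_orb hE.1]
      congr 1
      ext P
      rw [mem_filter, mem_nn]
      exact ⟨fun h => h.2, fun h => ⟨nadj_of_mem_orb h hE, h⟩⟩)
  rw [mul_one, card_nn, hm, mul_comm] at this
  exact (Nat.eq_of_mul_eq_mul_right (m := R.k) (by have := two_le_k (R := R); omega) this).symm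

theorem Semi.card_a1 (hs : R.Semi) (hev : Even R.h) (hte : Even R.t) {z : G} (hz : Invo z)
    (hA : z • R.A = R.A) {m : ℕ} (hm : R.l = R.k * m) (h0 : R.lam = 0) :
    (R.a1 z).card = m * R.sig := by
  haveI := Fintype.ofFinite G
  have hn : ∀ P ∈ R.a1 z, R.nadj R.A P := by
    intro P hP
    have hP := (mem_filter.1 hP).2
    refine ⟨?_, fun c => no_triangle h0 c (adj_of_fix hA c) hP⟩
    rintro rfl
    rw [hA] at hP
    exact R.irr _ hP
  have := card_mul_eq_of_rel (R.a1 z) ((R.nn R.A).filter fun E => z • E = E)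
    (fun P E => P ∈ R.orb E) 1 R.sig (fun P hP => card_rep hev hte hz hA (hn P hP))
    (fun E hE => by
      obtain ⟨hE, e⟩ := mem_filter.1 hE
      rw [mem_nn] at hE
      have : ((R.a1 z).filter fun P => P ∈ R.orb E) =
          (R.orb E).filter fun P => R.adj P (z • P) := by
        ext P; simp [a1, and_comm]
      rw [this, ← card_sig hE,
        hs.card_filter hE.1 _ (univ.filter fun x => x ∈ R.K R.A ∧ R.adj (x • E) (z • x • E))
          (by simp),
        hs.card_filter hE.1 _ (univ.filter fun x => x ∈ R.K R.A ∧ R.adj E (x • E)) (by simp)]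
      have key : ∀ x ∈ R.K R.A, R.adj (x • E) (z • x • E) ↔ R.adj E ((x⁻¹ * x⁻¹) • E) := by
        intro x hx
        have := conj_smul z x E
        rw [inv_K hev hz hA hx, e] at this
        rw [← this, ← adj_smul x⁻¹, inv_smul_smul, mul_smul]
      apply card_bij (fun x _ => x⁻¹ * x⁻¹)
      · intro x hx
        simp only [mem_filter, mem_univ, true_and] at *
        exact ⟨mul_mem (inv_mem hx.1) (inv_mem hx.1), (key x hx.1).1 hx.2⟩
      · intro x hx y hy e
        simp only [mem_filter, mem_univ, true_and] at *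
        have : x * y⁻¹ ∈ (⊥ : Subgroup G) := mem_of_sq_mem (odd_k hev)
          (pow_k (mul_mem hx.1 (inv_mem hy.1))) (by
            rw [Subgroup.mem_bot, mul_assoc, ← mul_assoc y⁻¹, K_comm hev (inv_mem hy.1) hx.1,
              mul_assoc, ← e]; group)
        exact mul_inv_eq_one.1 (Subgroup.mem_bot.1 this)
      · intro x hx
        simp only [mem_filter, mem_univ, true_and] at *
        obtain ⟨y, hy, rfl⟩ := exists_sqrt hev hx.1
        exact ⟨y⁻¹, ⟨inv_mem hy, (key _ (inv_mem hy)).2 (by simpa using hx.2)⟩, by simp⟩)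
  rwa [mul_one, hs.card_L hev hte hz hA hm] at this

theorem Semi.t_dvd_sig (hs : R.Semi) : R.t ∣ R.sig := by
  refine dvd_card_of_free (st G R.A R.C) _ (fun g hg D hD => ?_) (fun g hg D hD e => ?_)
  · simp only [mem_filter, mem_orb] at *
    obtain ⟨⟨x, hx, rfl⟩, h⟩ := hD
    refine ⟨⟨_, conj_mem_K' hg.1 hx, ?_⟩, adj_of_fix hg.2 h⟩
    rw [← conj_smul, hg.2]
  · simp only [mem_filter, mem_orb] at *
    obtain ⟨⟨x, hx, rfl⟩, h⟩ := hD
    have hx1 : x ≠ 1 := by rintro rfl; exact R.irr _ (by simpa using h)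
    rw [← conj_smul, hg.2] at e
    have := hs.inj R.hAC (conj_mem_K' hg.1 hx) hx e
    exact hs (mem_K_of_commute hg.1 hx hx1 (mul_inv_eq_iff_eq_mul.1 this).symm) R.hAC hg.2

theorem H_trans {P Q : X} (hQ : R.adj P Q) (S : Finset X) (hS : ∀ s ∈ S, R.adj P s ∧ s ≠ Q)
    (hc : S.card ≤ R.h) (hi : ∀ g : G, g • P = P → g • Q = Q → ∀ s ∈ S, g • s ∈ S) {s s' : X}
    (h1 : s ∈ S) (h2 : s' ∈ S) : ∃ g : G, g • P = P ∧ g • Q = Q ∧ g • s = s' := by
  haveI := Fintype.ofFinite G
  obtain ⟨g, hg, e⟩ := surj_on_of_inj_on_of_card_le (s := univ.filter fun x => x ∈ st G P Q)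
    (t := S) (fun x _ => x • s)
    (fun x hx => hi x (mem_filter.1 hx).2.1 (mem_filter.1 hx).2.2 s h1)
    (fun x y hx hy e => by
      have := mul_mem (inv_mem (mem_filter.1 hx).2) (mem_filter.1 hy).2
      exact inv_mul_eq_one.1 (R.fr this.1 hQ (hS s h1).1 this.2 ((smul_eq_smul_iff s x y).1 e)
        (hS s h1).2.symm))
    (by rwa [card_sub, card_st_adj hQ]) s' h2
  exact ⟨g, (mem_filter.1 hg).2.1, (mem_filter.1 hg).2.2, e.symm⟩

theorem local_bound (hk : R.k = 2 * R.h + 1) (hl : R.lam = R.h) : R.h + 2 ≤ 2 * R.mu := by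
  haveI := Fintype.ofFinite G
  let S := R.cm R.A R.B
  let S' := (R.nb R.A).filter fun D => R.nadj R.B D
  let H' := (univ.filter fun g => g ∈ st G R.A R.B).erase 1
  have hH' : ∀ g, g ∈ H' ↔ g ≠ 1 ∧ g • R.A = R.A ∧ g • R.B = R.B := fun g => by
    simp [H', mem_st]
  have cH : H'.card + 1 = R.h := by
    rw [card_erase_add_one (by simp), card_sub]; rfl
  have cS : S.card = R.h := hl
  have hd : Disjoint S S' := disjoint_left.2 fun D a b => (mem_filter.1 b).2.2 (mem_cm.1 a).2
  have hu : R.nb R.A = insert R.B (S ∪ S') := by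
    ext D
    simp only [S, S', mem_insert, mem_union, mem_filter, mem_nb, mem_cm]
    constructor
    · intro h
      by_cases a : D = R.B
      · exact Or.inl a
      by_cases b : R.adj R.B D
      · exact Or.inr (Or.inl ⟨h, b⟩)
      · exact Or.inr (Or.inr ⟨h, Ne.symm a, b⟩)
    · rintro (rfl | h | h)
      exacts [R.hAB, h.1, h.1]
  have hB : R.B ∉ S ∪ S' := by
    rw [mem_union, not_or]
    exact ⟨fun c => R.irr _ (mem_cm.1 c).2, fun c => (mem_filter.1 c).2.1 rfl⟩
  have cS' : S'.card = R.h := by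
    have := card_nb (R := R) R.A
    rw [hu, card_insert_of_notMem hB, card_union_of_disjoint hd] at this
    omega
  have h1 : ∀ g ∈ H', ((S ∪ S').filter fun D => R.adj D (g • D)).card ≤ R.h := by
    intro g hg
    obtain ⟨g1, gA, gB⟩ := (hH' g).1 hg
    haveI : Nonempty G := ⟨1⟩
    choose! ξ hξ using fun D (hD : R.adj R.A D) => K_trans R.hAB hD
    have hadj : ∀ D ∈ S ∪ S', R.adj R.A D := fun D hD => by
      rw [← mem_nb, hu]; exact mem_insert_of_mem hD
    rw [← cS]
    apply card_le_card_of_injOn (fun D => (ξ D)⁻¹ • g • D)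
    · intro D hD
      obtain ⟨a, b⟩ := mem_filter.1 (mem_coe.1 hD)
      have a := hadj D a
      refine mem_coe.2 (mem_cm.2 ⟨adj_of_fix (K_fix (inv_mem (hξ D a).1)) (adj_of_fix gA a), ?_⟩)
      rw [← adj_smul (ξ D), smul_inv_smul, (hξ D a).2]
      exact b
    · intro D hD D' hD' e
      have a := hadj D (mem_filter.1 (mem_coe.1 hD)).1
      have a' := hadj D' (mem_filter.1 (mem_coe.1 hD')).1
      obtain ⟨hx, ex⟩ := hξ D a
      obtain ⟨hy, ey⟩ := hξ D' a'
      dsimp only at e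
      generalize ξ D = x at *
      generalize ξ D' = y at *
      subst ex ey
      rw [← conj_smul g x, ← conj_smul g y, gB, ← mul_smul x⁻¹, ← mul_smul y⁻¹] at e
      have e' := K_inj R.hAB (mul_mem (inv_mem hx) (conj_mem_K' gA hx))
        (mul_mem (inv_mem hy) (conj_mem_K' gA hy)) e
      by_contra hne
      refine g1 (eq_one_of_commute R.hAB gA gB (mul_mem hy (inv_mem hx))
        (fun e => hne (by rw [mul_inv_eq_one.1 e])) ?_)
      calc y * x⁻¹ * g = y * (x⁻¹ * (g * x * g⁻¹)) * (g * x⁻¹) := by group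
        _ = g * (y * x⁻¹) := by rw [e']; group
  have h2 : ∀ W : Finset X, (∀ s ∈ W, R.adj R.A s ∧ s ≠ R.B) → W.card ≤ R.h →
      (∀ g : G, g • R.A = R.A → g • R.B = R.B → ∀ s ∈ W, g • s ∈ W) → ∀ D ∈ W,
      (W.filter fun E => R.adj D E).card ≤ (H'.filter fun g => R.adj D (g • D)).card := by
    intro W a b c D hD
    apply card_le_card_of_surjOn (fun g => g • D)
    intro E hE
    obtain ⟨d, e⟩ := mem_filter.1 (mem_coe.1 hE)
    obtain ⟨g, g1, g2, rfl⟩ := H_trans R.hAB W a b c hD d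
    refine ⟨g, mem_coe.2 (mem_filter.2 ⟨(hH' g).2 ⟨?_, g1, g2⟩, e⟩), rfl⟩
    rintro rfl
    exact R.irr _ (by simpa using e)
  have h3 := h2 S (fun s hs => ⟨(mem_cm.1 hs).1, (adj_ne (mem_cm.1 hs).2).symm⟩) cS.le
    (fun g a b s hs => mem_cm.2 ⟨adj_of_fix a (mem_cm.1 hs).1, adj_of_fix b (mem_cm.1 hs).2⟩)
  have h4 := h2 S' (fun s hs => ⟨mem_nb.1 (mem_filter.1 hs).1, (mem_filter.1 hs).2.1.symm⟩) cS'.le
    (fun g a b s hs => mem_filter.2 ⟨mem_nb.2 (adj_of_fix a (mem_nb.1 (mem_filter.1 hs).1)),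
      nadj_of_fix b (mem_filter.1 hs).2⟩)
  have h5 : ∀ D, R.adj R.A D → (S.filter fun E => R.adj D E).card +
      (S'.filter fun E => R.adj D E).card + (if R.adj D R.B then 1 else 0) = R.h := by
    intro D hD
    have : R.cm R.A D = (R.nb R.A).filter fun E => R.adj D E := by ext E; simp
    rw [← hl, ← card_cm_adj hD, this, hu, filter_insert, filter_union]
    have hd' := disjoint_filter_filter (p := fun E => R.adj D E) (q := fun E => R.adj D E) hd
    split_ifs
    · rw [card_insert_of_notMem, card_union_of_disjoint hd']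
      rw [← filter_union]
      exact fun h => hB (mem_filter.1 h).1
    · rw [card_union_of_disjoint hd', add_zero]
  have h6 : ∀ D ∈ S', (S.filter fun E => R.adj D E).card + 1 ≤ R.mu := by
    intro D hD
    obtain ⟨a, b⟩ := mem_filter.1 hD
    rw [← card_cm_nadj b, ← card_insert_of_notMem (a := R.A) (by simp [S, R.irr])]
    apply card_le_card
    intro E hE
    simp only [S, mem_insert, mem_filter, mem_cm] at *
    rcases hE with rfl | hE
    · exact ⟨R.symm R.hAB, R.symm (mem_nb.1 a)⟩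
    · exact ⟨hE.1.2, hE.2⟩
  have s1 := sum_card_rel H' (S ∪ S') (fun g D => R.adj D (g • D))
  have s2 := sum_le_card_nsmul _ _ _ h1
  have s3 := sum_le_sum h3
  have s4 := sum_le_sum h4
  have s5 := sum_congr rfl fun D (hD : D ∈ S) => h5 D (mem_cm.1 hD).1
  have s6 := sum_congr rfl fun D (hD : D ∈ S') => h5 D (mem_nb.1 (mem_filter.1 hD).1)
  have s7 := sum_le_card_nsmul _ _ _ h6
  have s8 := sum_card_rel S S' R.adj
  have s9 : ∑ D ∈ S, (if R.adj D R.B then 1 else 0) = R.h := by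
    rw [sum_congr rfl fun D hD => if_pos (R.symm (mem_cm.1 hD).2), sum_const, smul_eq_mul,
      mul_one]
    exact hl
  have s10 : ∑ D ∈ S', (if R.adj D R.B then 1 else 0) = 0 :=
    sum_eq_zero fun D hD => if_neg fun c => (mem_filter.1 hD).2.2 (R.symm c)
  have s11 : ∑ b ∈ S', (S.filter fun a => R.adj a b).card =
      ∑ b ∈ S', (S.filter fun a => R.adj b a).card :=
    sum_congr rfl fun b _ => by simp only [adj_comm (Q := b)]
  rw [sum_union hd] at s1
  simp only [sum_add_distrib, sum_const, smul_eq_mul, cS, cS', s9, s10] at s2 s5 s6 s7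
  have h7 := one_lt_h (R := R)
  apply Nat.le_of_mul_le_mul_left (c := R.h) _ (by omega)
  rw [← cH] at s5 s6 s7 s2 ⊢
  nlinarith

end R3
end Cfsg.Agent.Frob
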